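import Cfsg.Agent.H430.Conj.Heis

/-!
# Tool H for a quotient, in terms of lifts (S4792)
-/

set_option autoImplicit false

open Cfsg
open scoped ComplexConjugate

namespace Cfsg.Agent.H917.CJ

open Cfsg.Agent.Characters.Core Cfsg.Agent.H430.Conj

universe u v

/-- `A ≤ Z` abelian, `A` acts nontrivially: there is a weight of `Z` which is nontrivial on `A`. -/
theorem exists_occ_pair {G : Type u} [Group G] [Finite G] {V : Type*} [AddCommGroup V] [Module ℂ V]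
    [FiniteDimensional ℂ V] (ρ : Representation ℂ G V) {A Z : Subgroup G} (hAZ : A ≤ Z)
    (hZ : ∀ a ∈ Z, ∀ b ∈ Z, a * b = b * a) {a₀ : G} (ha₀ : a₀ ∈ A) (hρ : ρ a₀ ≠ 1) :
    ∃ l : Z →* ℂˣ, (∃ a : Z, (a : G) ∈ A ∧ l a ≠ 1) ∧ Occ Z l ρ.character := by
  classical
  have : Fintype A := Fintype.ofFinite A
  let P : Module.End ℂ V := (Fintype.card A : ℂ)⁻¹ • ∑ a : A, ρ a
  have hcard : (Fintype.card A : ℂ) ≠ 0 := by
    exact_mod_cast Fintype.card_ne_zero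
  have hcomm : ∀ i j : Z, Commute (ρ i) (ρ j) := by
    intro i j
    change ρ i * ρ j = ρ j * ρ i
    rw [← map_mul, ← map_mul, hZ i i.2 j j.2]
  have hPa : ∀ a : A, ρ a * P = P := by
    intro a
    simp only [P, mul_smul_comm, Finset.mul_sum]
    congr 1
    apply Fintype.sum_equiv (Equiv.mulLeft a)
    intro b
    simp
  have hker : LinearMap.ker P ≠ ⊥ := by
    intro h
    apply hρ
    have hinj : Function.Injective P := LinearMap.ker_eq_bot.1 h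
    have hsurj : Function.Surjective P := LinearMap.injective_iff_surjective.1 hinj
    ext v
    obtain ⟨w, rfl⟩ := hsurj v
    have := congrArg (fun g : Module.End ℂ V => g w) (hPa ⟨a₀, ha₀⟩)
    simpa using this
  have hcP : ∀ a : Z, Commute P (ρ a) := by
    intro a
    apply Commute.smul_left
    exact Commute.sum_left _ _ _ fun b _ => hcomm ⟨b, hAZ b.2⟩ a
  obtain ⟨v, hv, hv0, hve⟩ := H430.Conj.exists_common_eigen (fun a : Z => ρ a) hcomm _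
    (LinearMap.ker P) rfl hker (by
      intro a w hw
      rw [LinearMap.mem_ker] at hw ⊢
      have := congrArg (fun g : Module.End ℂ V => g w) (hcP a).eq
      simp only [Module.End.mul_apply] at this
      rw [this, hw, map_zero])
  choose μ hμ using hve
  have hsm : ∀ s t : ℂ, s • v = t • v → s = t := by
    intro s t h
    exact smul_left_injective ℂ hv0 h
  let χ : Z →* ℂ :=
    { toFun := μ
      map_one' := hsm _ _ (by rw [← hμ]; simp)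
      map_mul' := fun a b => hsm _ _ (by
        rw [← hμ, Subgroup.coe_mul, map_mul, Module.End.mul_apply, hμ b, map_smul, hμ a, smul_smul,
          mul_comm]) }
  have hχ : ∀ a : Z, ρ a v = χ a • v := hμ
  have hl : ∀ a : Z, ((χ.toHomUnits a : ℂˣ) : ℂ) = χ a := fun a => χ.coe_toHomUnits a
  refine ⟨χ.toHomUnits, ?_, occ_of_vector ρ hv0 fun a => by rw [hl, hχ]⟩
  by_contra h
  push Not at h
  rw [LinearMap.mem_ker] at hv
  apply hv0
  have hχ1 : ∀ a : A, ρ a v = v := by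
    intro a
    have h1 := hχ ⟨a, hAZ a.2⟩
    rw [← hl, h ⟨a, hAZ a.2⟩ a.2, Units.val_one, one_smul] at h1
    exact h1
  have h1 : P v = v := by
    simp only [P, LinearMap.smul_apply, LinearMap.sum_apply, hχ1, Finset.sum_const, Finset.card_univ]
    rw [← Nat.cast_smul_eq_nsmul ℂ, smul_smul, inv_mul_cancel₀ hcard, one_smul]
  rw [← h1, hv]

/-- **Tool H** for the quotient `G ⧸ N`, all data in `G`. -/
theorem row_heis {G : Type u} [Group G] [Finite G] (N : Subgroup G) [N.Normal] [IsSimpleGroup (G ⧸ N)]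
    (x : G) (A Z D : Subgroup G) (hAZ : A ≤ Z) (hA : A ≠ ⊥) (hZab : ∀ a ∈ Z, ∀ b ∈ Z, a * b = b * a)
    (hC : ∀ c z : G, z ∈ N → c * x = z * (x * c) → (∀ a ∈ A, c * a * c⁻¹ ∈ A) ∧ (∀ a ∈ Z, c * a * c⁻¹ ∈ Z) ∧
      (c ∈ D ∨ ∀ a ∈ A, c * a = a * c → a = 1))
    (hZN : ∀ y ∈ Z, y ∈ N → y = 1)
    (hDZ : ∀ d ∈ D, ∀ z ∈ Z, d * z = z * d)
    (hQ : ∀ l : Z →* ℂˣ, (∃ a : Z, (a : G) ∈ A ∧ l a ≠ 1) → ∃ Q : Subgroup G, Z ≤ Q ∧
      (∀ z ∈ Z, ∀ y ∈ Q, z * y = y * z) ∧ (∀ d ∈ D, ∀ y ∈ Q, d * y * d⁻¹ ∈ Q) ∧ (∀ y ∈ Q, y ∈ N → y = 1) ∧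
      (∀ d ∈ D, d ∉ N → ∀ y ∈ Q, d * y * d⁻¹ * y⁻¹ ∈ Z → y ∈ Z) ∧
      (∀ y ∈ Q, y ∉ Z → ∃ y' ∈ Q, ∃ z : Z, (z : G) = y * y' * y⁻¹ * y'⁻¹ ∧ l z ≠ 1) ∧
      Nat.card (D.map (QuotientGroup.mk' N)) ^ 2 * Nat.card Z ≤ Nat.card Q) : Row (G ⧸ N) := by
  classical
  intro χ hχ
  by_cases h1 : χ = 1
  · exact ⟨1, h1 ▸ hasFix_one _⟩
  obtain ⟨n, ρ, hρ, rfl⟩ := hχ
  let π : G →* G ⧸ N := QuotientGroup.mk' N
  have hπ : ∀ g : G, π g = 1 ↔ g ∈ N := fun g => QuotientGroup.eq_one_iff g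
  obtain ⟨a₀, ha₀, ha₀1⟩ := (Subgroup.bot_or_exists_ne_one A).resolve_left hA
  have hinj := injective_of_simple hρ h1
  have hρa : ρ (π a₀) ≠ 1 := by
    intro h
    have h2 : π a₀ = 1 := hinj (by rw [h, map_one])
    exact ha₀1 (hZN a₀ (hAZ ha₀) ((hπ a₀).1 h2))
  have hZbar : ∀ a ∈ Z.map π, ∀ b ∈ Z.map π, a * b = b * a := by
    rintro _ ⟨a, ha, rfl⟩ _ ⟨b, hb, rfl⟩
    rw [← map_mul, ← map_mul, hZab a ha b hb]
  obtain ⟨lb, ⟨ab, hab, hlab⟩, hocc⟩ := exists_occ_pair ρ (A := A.map π) (Z := Z.map π) (Subgroup.map_mono hAZ)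
    hZbar ⟨a₀, ha₀, rfl⟩ hρa
  -- the pull back of the weight
  let πZ : Z →* (Z.map π : Subgroup (G ⧸ N)) := (π.subgroupMap Z)
  have hπZ : ∀ z : Z, ((πZ z : (Z.map π : Subgroup (G ⧸ N))) : G ⧸ N) = π z := fun z => rfl
  let l : Z →* ℂˣ := lb.comp πZ
  have hlA : ∃ a : Z, (a : G) ∈ A ∧ l a ≠ 1 := by
    obtain ⟨a, ha, hae⟩ := hab
    refine ⟨⟨a, hAZ ha⟩, ha, ?_⟩
    have : πZ ⟨a, hAZ ha⟩ = ab := Subtype.ext hae
    change lb (πZ ⟨a, hAZ ha⟩) ≠ 1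
    rw [this]
    exact hlab
  obtain ⟨Q, hZQ, hZc, hDQ, hQN, hfp, hnd, hcard⟩ := hQ l hlA
  have hinjQ : ∀ y ∈ Q, ∀ y' ∈ Q, π y = π y' → y = y' := by
    intro y hy y' hy' h
    have h2 : y * y'⁻¹ ∈ N := by
      rw [← hπ, map_mul, map_inv, h, mul_inv_cancel]
    exact mul_inv_eq_one.1 (hQN _ (Q.mul_mem hy (Q.inv_mem hy')) h2)
  have hcardQ : Nat.card (Q.map π) = Nat.card Q := by
    refine (Nat.card_congr (Equiv.ofBijective (π.subgroupMap Q) ⟨?_, π.subgroupMap_surjective Q⟩)).symm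
    intro a b h
    exact Subtype.ext (hinjQ a a.2 b b.2 (congrArg Subtype.val h))
  have hcardZ : Nat.card (Z.map π) = Nat.card Z := by
    refine (Nat.card_congr (Equiv.ofBijective (π.subgroupMap Z) ⟨?_, π.subgroupMap_surjective Z⟩)).symm
    intro a b h
    exact Subtype.ext (hinjQ a (hZQ a.2) b (hZQ b.2) (congrArg Subtype.val h))
  obtain ⟨v, hv0, hvl, hvD⟩ := exists_fixed_heis ρ (Q := Q.map π) (Z := Z.map π) (D := D.map π)
    (Subgroup.map_mono hZQ)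
    (by
      rintro _ ⟨z, hz, rfl⟩ _ ⟨y, hy, rfl⟩
      rw [← map_mul, ← map_mul, hZc z hz y hy])
    (by
      rintro _ ⟨d, hd, rfl⟩ _ ⟨y, hy, rfl⟩
      exact ⟨d * y * d⁻¹, hDQ d hd y hy, by simp⟩)
    (by
      rintro _ ⟨d, hd, rfl⟩ _ ⟨z, hz, rfl⟩
      refine ⟨z, hz, ?_⟩
      rw [← map_inv, ← map_mul, ← map_mul, hDZ d hd z hz, mul_inv_cancel_right])
    (by
      rintro _ ⟨d, hd, rfl⟩ hd1 _ ⟨y, hy, rfl⟩ hdy
      have hdN : d ∉ N := fun h => hd1 ((hπ d).2 h)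
      obtain ⟨z, hz, hze⟩ := hdy
      refine ⟨y, hfp d hd hdN y hy ?_, rfl⟩
      rw [← map_inv, ← map_mul, ← map_mul, ← map_inv, ← map_mul] at hze
      have := hinjQ z (hZQ hz) _ (Q.mul_mem (hDQ d hd y hy) (Q.inv_mem hy)) hze
      rwa [← this])
    (l := lb)
    (by
      rintro _ ⟨d, hd, rfl⟩ ⟨_, ⟨z, hz, rfl⟩⟩ b hb
      have : b = ⟨π z, ⟨z, hz, rfl⟩⟩ := by
        apply Subtype.ext
        rw [hb]
        change π d * π z * (π d)⁻¹ = π z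
        rw [← map_inv, ← map_mul, ← map_mul, hDZ d hd z hz, mul_inv_cancel_right]
      rw [this])
    hocc
    (by
      rintro _ ⟨y, hy, rfl⟩ hyZ
      have hyZ' : y ∉ Z := fun h => hyZ ⟨y, h, rfl⟩
      obtain ⟨y', hy', z, hz, hlz⟩ := hnd y hy hyZ'
      refine ⟨π y', ⟨y', hy', rfl⟩, πZ z, ?_, hlz⟩
      rw [hπZ, hz]
      simp)
    (by rw [hcardQ, hcardZ]; exact hcard)
  refine ⟨π x, hasFix_of_stab ρ (A := Z.map π) ?_ hv0 hvl ?_⟩
  · rintro c hc _ ⟨a, ha, rfl⟩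
    rw [Subgroup.mem_centralizer_singleton_iff] at hc
    obtain ⟨c, rfl⟩ := QuotientGroup.mk'_surjective N c
    have h2 : (c * x) * (x * c)⁻¹ ∈ N := by
      rw [← hπ, map_mul, map_inv, map_mul, map_mul]
      change π c * π x * (π x * π c)⁻¹ = 1
      rw [hc, mul_inv_cancel]
    exact ⟨c * a * c⁻¹, (hC c _ h2 (by group)).2.1 a ha, by simp [π]⟩
  · intro c hc hst
    rw [Subgroup.mem_centralizer_singleton_iff] at hc
    obtain ⟨c, rfl⟩ := QuotientGroup.mk'_surjective N c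
    have h2 : (c * x) * (x * c)⁻¹ ∈ N := by
      rw [← hπ, map_mul, map_inv, map_mul, map_mul]
      change π c * π x * (π x * π c)⁻¹ = 1
      rw [hc, mul_inv_cancel]
    obtain ⟨hcA, hcZ, hcD⟩ := hC c _ h2 (by group)
    rcases hcD with hcD | hcA1
    · exact hvD (π c) ⟨c, hcD, rfl⟩
    · exfalso
      -- `l` is trivial on `A`
      have hstl : ∀ a : Z, ∀ ha : c * a * c⁻¹ ∈ Z, l ⟨c * a * c⁻¹, ha⟩ = l a := by
        intro a ha
        exact hst (πZ a) (πZ ⟨c * a * c⁻¹, ha⟩) (by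
          rw [hπZ, hπZ]
          simp [π])
      let φ : A → A := fun a => ⟨c * a * c⁻¹ * (a : G)⁻¹, A.mul_mem (hcA a a.2) (A.inv_mem a.2)⟩
      have hAc : ∀ a b : A, (a : G) * b = b * a := fun a b => hZab a (hAZ a.2) b (hAZ b.2)
      have hφ : Function.Injective φ := by
        intro a b hab'
        have h6 : c * (a : G) * c⁻¹ * (a : G)⁻¹ = c * (b : G) * c⁻¹ * (b : G)⁻¹ := congrArg Subtype.val hab'
        -- `b⁻¹ a` is centralised by `c`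
        have h7 : c * ((b : G)⁻¹ * a) * c⁻¹ = (b : G)⁻¹ * a := by
          have h8 : c * (a : G) * c⁻¹ = c * (b : G) * c⁻¹ * (b : G)⁻¹ * a := by rw [← h6]; group
          have h9 : c * ((b : G)⁻¹ * a) * c⁻¹ = (c * (b : G) * c⁻¹)⁻¹ * (c * (a : G) * c⁻¹) := by group
          rw [h9, h8]
          group
        have h10 := hcA1 ((b : G)⁻¹ * a) (A.mul_mem (A.inv_mem b.2) a.2) (by
          rw [← mul_inv_eq_iff_eq_mul]; exact h7)
        apply Subtype.ext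
        have := inv_mul_eq_one.1 h10
        exact this.symm
      have hφs : Function.Surjective φ := Finite.injective_iff_surjective.1 hφ
      obtain ⟨a, haA, hla⟩ := hlA
      obtain ⟨b, hb⟩ := hφs ⟨a, haA⟩
      apply hla
      have h11 : (a : G) = c * b * c⁻¹ * (b : G)⁻¹ := (congrArg Subtype.val hb).symm
      have h12 : a = ⟨c * b * c⁻¹, hcZ b (hAZ b.2)⟩ * (⟨b, hAZ b.2⟩ : Z)⁻¹ := Subtype.ext h11
      rw [h12, map_mul, map_inv, hstl ⟨b, hAZ b.2⟩ (hcZ b (hAZ b.2)), mul_inv_cancel]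

end Cfsg.Agent.H917.CJ
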