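import Cfsg.Agent.H917.CJ.Frame
import Cfsg.Prelude.Def_Classical

/-!
# The rows `PSL_n(q)` of S4792

`n ≥ 3`: `x = diag(s, N(s)⁻¹)` with `s` a generator of `𝔽_{q^{n-1}}ˣ`, `A = 𝔽_{q^{n-1}}` the unipotent radical.
`n = 2`: `x = diag(s, s⁻¹)`, `A` the group of transvections.
-/

set_option autoImplicit false

open Cfsg Module

namespace Cfsg.Agent.H917.CJ

open Cfsg.Agent.H430.Conj

section sl

variable {F : Type*} [Field F] {n : ℕ} {V : Type*} [AddCommGroup V] [Module F V] (B : Basis (Fin n) F V)

/-- The special linear group acting on a space with a basis. -/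
noncomputable def slEnd : Matrix.SpecialLinearGroup (Fin n) F →* Module.End F V where
  toFun g := Matrix.toLinAlgEquiv B (g : Matrix (Fin n) (Fin n) F)
  map_one' := by rw [Matrix.SpecialLinearGroup.coe_one, map_one]
  map_mul' g h := by rw [Matrix.SpecialLinearGroup.coe_mul, map_mul]

theorem slEnd_apply (g : Matrix.SpecialLinearGroup (Fin n) F) :
    slEnd B g = Matrix.toLinAlgEquiv B (g : Matrix (Fin n) (Fin n) F) := rfl

theorem slEnd_injective : Function.Injective (slEnd B) := by
  intro g h hgh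
  rw [slEnd_apply, slEnd_apply] at hgh
  exact Subtype.ext ((Matrix.toLinAlgEquiv B).injective hgh)

/-- The element of `SL_n` given by an endomorphism of determinant one. -/
noncomputable def slMk (X : Module.End F V) (h : LinearMap.det X = 1) : Matrix.SpecialLinearGroup (Fin n) F :=
  ⟨(Matrix.toLinAlgEquiv B).symm X, by
    rw [← h, ← LinearMap.det_toMatrix B]
    rfl⟩

theorem slEnd_slMk (X : Module.End F V) (h : LinearMap.det X = 1) : slEnd B (slMk B X h) = X := by
  rw [slEnd_apply]
  exact (Matrix.toLinAlgEquiv B).apply_symm_apply X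

theorem mem_center_of_smul {g : Matrix.SpecialLinearGroup (Fin n) F} {ζ : F} (h : ∀ v, slEnd B g v = ζ • v) :
    g ∈ Subgroup.center (Matrix.SpecialLinearGroup (Fin n) F) := by
  rw [Subgroup.mem_center_iff]
  intro k
  apply slEnd_injective B
  rw [map_mul, map_mul]
  ext v
  simp only [Module.End.mul_apply, h, map_smul]

theorem smul_of_mem_center {g : Matrix.SpecialLinearGroup (Fin n) F}
    (h : g ∈ Subgroup.center (Matrix.SpecialLinearGroup (Fin n) F)) : ∃ ζ : F, ∀ v, slEnd B g v = ζ • v := by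
  rw [Matrix.SpecialLinearGroup.mem_center_iff] at h
  obtain ⟨r, _, hr⟩ := h
  refine ⟨r, fun v => ?_⟩
  rw [slEnd_apply, ← hr, Matrix.scalar_apply, ← Matrix.smul_one_eq_diagonal, map_smul, map_one]
  rfl

theorem slEnd_apply_injective (g : Matrix.SpecialLinearGroup (Fin n) F) : Function.Injective (slEnd B g) := by
  intro v w h
  have h1 : ∀ v, slEnd B g⁻¹ (slEnd B g v) = v := by
    intro v
    rw [← Module.End.mul_apply, ← map_mul, inv_mul_cancel, map_one]
    rfl
  rw [← h1 v, h, h1]

end sl

section big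

variable {F K : Type*} [Field F] [Field K] [Algebra F K] [Finite F] [Finite K] {n : ℕ}
  (B : Basis (Fin n) F (K × F))

/-- The unipotent map `(k, f) ↦ (k + f u, f)`. -/
noncomputable def uni (u : K) : Module.End F (K × F) :=
  LinearMap.id + (LinearMap.inl F K F) ∘ₗ (LinearMap.toSpanSingleton F K u) ∘ₗ (LinearMap.snd F K F)

omit [Finite F] [Finite K] in
theorem uni_apply (u : K) (v : K × F) : uni (F := F) u v = (v.1 + v.2 • u, v.2) := by
  simp [uni, Prod.ext_iff]

omit [Finite F] [Finite K] in
theorem uni_mul (u v : K) : uni (F := F) (u + v) = uni u * uni v := by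
  refine LinearMap.ext fun w => ?_
  rw [Module.End.mul_apply, uni_apply, uni_apply, uni_apply]
  simp only [smul_add, Prod.mk.injEq, and_true]
  ring

omit [Finite F] [Finite K] in
theorem uni_zero : uni (F := F) (0 : K) = 1 := by
  refine LinearMap.ext fun w => ?_
  rw [uni_apply]
  simp

omit [Finite K] in
theorem det_uni (u : K) : LinearMap.det (uni (F := F) u) = 1 := by
  refine eq_one_of_add (F := F) (fun u : K => LinearMap.det (uni (F := F) u)) ?_ ?_ u
  · rw [uni_zero, map_one]
  · intro u v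
    rw [uni_mul, map_mul]

/-- The unipotent radical. -/
noncomputable def uniHom : Multiplicative K →* Matrix.SpecialLinearGroup (Fin n) F where
  toFun u := slMk B (uni u.toAdd) (det_uni _)
  map_one' := by
    apply slEnd_injective B
    rw [slEnd_slMk, MonoidHom.map_one (slEnd B)]
    exact uni_zero
  map_mul' u v := by
    apply slEnd_injective B
    rw [MonoidHom.map_mul (slEnd B), slEnd_slMk, slEnd_slMk, slEnd_slMk]
    exact uni_mul _ _

omit [Finite K] in
theorem slEnd_uniHom (u : Multiplicative K) : slEnd B (uniHom B u) = uni u.toAdd := slEnd_slMk B _ (det_uni _)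

/-- The torus element `(s, N(s)⁻¹)`. -/
noncomputable def tor (s : K) : Module.End F (K × F) :=
  LinearMap.prodMap (LinearMap.mulLeft F s) ((Algebra.norm F s)⁻¹ • LinearMap.id)

omit [Finite F] [Finite K] in
theorem tor_apply (s : K) (v : K × F) : tor (F := F) s v = (s * v.1, (Algebra.norm F s)⁻¹ * v.2) := rfl

omit [Finite F] in
theorem det_tor [Module.Finite F K] (s : K) (hs : s ≠ 0) : LinearMap.det (tor (F := F) s) = 1 := by
  rw [tor, LinearMap.det_prodMap, LinearMap.det_smul, LinearMap.det_id, mul_one]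
  have h1 : LinearMap.det (LinearMap.mulLeft F s) = Algebra.norm F s := rfl
  rw [h1, Module.finrank_self, pow_one]
  exact mul_inv_cancel₀ (by rwa [Ne, Algebra.norm_eq_zero_iff])

omit [Finite K] in
/-- Criterion F for `PSL_n` from the structure of the centraliser (modulo scalars) of an element. -/
theorem frob_of_diag (x : Matrix.SpecialLinearGroup (Fin n) F)
    (key : ∀ c z : Matrix.SpecialLinearGroup (Fin n) F,
      z ∈ Subgroup.center (Matrix.SpecialLinearGroup (Fin n) F) → c * x = z * (x * c) →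
      ∃ a : K, ∃ b : F, a ≠ 0 ∧ b ≠ 0 ∧ ∀ v, slEnd B c v = (a * v.1, b * v.2)) :
    FrobCent (Matrix.ProjectiveSpecialLinearGroup (Fin n) F) := by
  -- conjugation of the unipotent elements
  have hconj : ∀ (c : Matrix.SpecialLinearGroup (Fin n) F) (a : K) (b : F), b ≠ 0 →
      (∀ v, slEnd B c v = (a * v.1, b * v.2)) → ∀ u : K,
      c * uniHom B (Multiplicative.ofAdd u) = uniHom B (Multiplicative.ofAdd (b⁻¹ • (a * u))) * c := by
    intro c a b hb hc u
    apply slEnd_injective B
    rw [map_mul, map_mul, slEnd_uniHom, slEnd_uniHom]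
    refine LinearMap.ext fun v => ?_
    rw [Module.End.mul_apply, Module.End.mul_apply, hc, hc, uni_apply, uni_apply]
    simp only [toAdd_ofAdd, Prod.mk.injEq, and_true]
    rw [smul_smul, mul_comm b v.2, mul_assoc, mul_inv_cancel₀ hb, mul_one, mul_add, mul_smul_comm]
  have huni1 : ∀ (u : Multiplicative K) (ζ : F), (∀ v, slEnd B (uniHom B u) v = ζ • v) → uniHom B u = 1 := by
    intro u ζ hζ
    have h1 := hζ (1, 0)
    have h2 := hζ (0, 1)
    rw [slEnd_uniHom, uni_apply] at h1 h2
    have h3 := congrArg Prod.fst h1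
    have h4 := congrArg Prod.fst h2
    simp at h4
    rw [h4, map_one]
  refine frob_quot _ x (uniHom B).range ?_ ?_ ?_ ?_
  · intro h0
    have h1 : uniHom B (Multiplicative.ofAdd (1 : K)) ∈ (uniHom B).range := ⟨_, rfl⟩
    rw [h0, Subgroup.mem_bot] at h1
    have h2 := congrArg (fun g => (slEnd B g (0, 1)).1) h1
    simp only [slEnd_uniHom, uni_apply, map_one] at h2
    simp at h2
  · rintro _ ⟨u, rfl⟩ _ ⟨v, rfl⟩
    rw [← map_mul, ← map_mul, mul_comm]
  · rintro _ ⟨u, rfl⟩ hu
    obtain ⟨ζ, hζ⟩ := smul_of_mem_center B hu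
    exact huni1 u ζ hζ
  · intro c z hz hcx
    obtain ⟨a, b, ha, hb, hc⟩ := key c z hz hcx
    constructor
    · rintro _ ⟨u, rfl⟩
      refine ⟨Multiplicative.ofAdd (b⁻¹ • (a * u.toAdd)), ?_⟩
      rw [eq_mul_inv_iff_mul_eq]
      exact (hconj c a b hb hc u.toAdd).symm
    · rintro _ ⟨u, rfl⟩ hcu
      have h1 := hconj c a b hb hc u.toAdd
      rw [ofAdd_toAdd, hcu] at h1
      have h2 := mul_right_cancel h1
      have h3 := congrArg (fun g => (slEnd B g (0, 1)).1) h2
      simp only [slEnd_uniHom, uni_apply, toAdd_ofAdd, zero_add, one_smul] at h3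
      by_cases hu : u.toAdd = 0
      · left
        rw [← ofAdd_toAdd u, hu, ofAdd_zero, map_one]
      · right
        have h4 : a = algebraMap F K b := by
          apply mul_right_cancel₀ hu
          rw [← Algebra.smul_def]
          conv_rhs => rw [h3]
          rw [smul_smul, mul_inv_cancel₀ hb, one_smul]
        apply mem_center_of_smul B (ζ := b)
        intro v
        rw [hc, h4, ← Algebra.smul_def]
        rfl

include B in
theorem frob_psl_big (hm : 2 ≤ Module.finrank F K) :
    FrobCent (Matrix.ProjectiveSpecialLinearGroup (Fin n) F) := by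
  have hfd : Module.Finite F K := Module.Finite.of_finite
  obtain ⟨s, hs⟩ := IsCyclic.exists_generator (α := Kˣ)
  have hs0 : (s : K) ≠ 0 := s.ne_zero
  have hgen : Algebra.adjoin F {(s : K)} = ⊤ := adjoin_primitive hs
  -- `s` is not in `F`
  have hsF : ∀ r : F, (s : K) ≠ algebraMap F K r := by
    intro r hr
    have h1 : (⊥ : Subalgebra F K) = ⊤ := by
      rw [← hgen, eq_comm, ← le_bot_iff, Algebra.adjoin_le_iff, hr]
      intro y hy
      rw [Set.mem_singleton_iff] at hy
      rw [hy]
      exact Subalgebra.algebraMap_mem _ _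
    have h2 : Module.finrank F K = 1 := Subalgebra.bot_eq_top_iff_finrank_eq_one.1 h1
    omega
  let t : F := (Algebra.norm F (s : K))⁻¹
  have ht0 : t ≠ 0 := inv_ne_zero (by rwa [Ne, Algebra.norm_eq_zero_iff])
  let x := slMk B (tor (s : K)) (det_tor _ hs0)
  have hx : ∀ v, slEnd B x v = ((s : K) * v.1, t * v.2) := by
    intro v
    rw [slEnd_slMk]
    rfl
  -- structure of the centraliser modulo scalars
  have key : ∀ c z : Matrix.SpecialLinearGroup (Fin n) F,
      z ∈ Subgroup.center (Matrix.SpecialLinearGroup (Fin n) F) → c * x = z * (x * c) →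
      ∃ a : K, ∃ b : F, a ≠ 0 ∧ b ≠ 0 ∧ ∀ v, slEnd B c v = (a * v.1, b * v.2) := by
    intro c z hz hcx
    obtain ⟨ζ, hζ⟩ := smul_of_mem_center B hz
    have h1 : ∀ v, slEnd B c (slEnd B x v) = ζ • slEnd B x (slEnd B c v) := by
      intro v
      have := congrArg (fun g => slEnd B g v) hcx
      simp only [map_mul, Module.End.mul_apply, hζ] at this
      exact this
    have hcinj := slEnd_apply_injective B c
    have h2 := h1 (0, 1)
    rw [hx, hx] at h2
    simp only [mul_zero, mul_one] at h2
    have h3 : slEnd B c (0, t) = t • slEnd B c (0, 1) := by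
      rw [← map_smul]; congr 1; ext <;> simp
    rw [h3] at h2
    have e1 := congrArg Prod.fst h2
    have e2 := congrArg Prod.snd h2
    simp only [Prod.smul_fst, Prod.smul_snd, smul_eq_mul] at e1 e2
    have hζ0 : ζ ≠ 0 := by
      rintro rfl
      have : slEnd B z (0, 1) = slEnd B z 0 := by rw [hζ, map_zero, zero_smul]
      have := slEnd_apply_injective B z this
      simp at this
    have hk0 : (slEnd B c (0, 1)).1 = 0 := by
      by_contra hne
      apply hsF (ζ⁻¹ * t)
      rw [map_mul]
      have h4 : algebraMap F K t = algebraMap F K ζ * s := by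
        apply mul_right_cancel₀ hne
        rw [← Algebra.smul_def, e1, Algebra.smul_def, mul_assoc]
      rw [h4, ← mul_assoc, ← map_mul, inv_mul_cancel₀ hζ0, map_one, one_mul]
    have hf0 : (slEnd B c (0, 1)).2 ≠ 0 := by
      intro hf
      have : slEnd B c (0, 1) = slEnd B c 0 := by
        rw [map_zero]; exact Prod.ext hk0 hf
      have := hcinj this
      simp at this
    have hζ1 : ζ = 1 := by
      have h5 : t * (slEnd B c (0, 1)).2 = ζ * (t * (slEnd B c (0, 1)).2) := e2
      have h6 : t * (slEnd B c (0, 1)).2 ≠ 0 := mul_ne_zero ht0 hf0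
      have h7 : 1 * (t * (slEnd B c (0, 1)).2) = ζ * (t * (slEnd B c (0, 1)).2) := by rw [one_mul]; exact h5
      exact (mul_right_cancel₀ h6 h7).symm
    subst hζ1
    simp only [one_smul] at h1
    let T : K →ₗ[F] K := LinearMap.fst F K F ∘ₗ slEnd B c ∘ₗ LinearMap.inl F K F
    let f : K →ₗ[F] F := LinearMap.snd F K F ∘ₗ slEnd B c ∘ₗ LinearMap.inl F K F
    have hTf : ∀ k : K, slEnd B c (k, 0) = (T k, f k) := fun k => rfl
    have h8 : ∀ k : K, T (s * k) = s * T k ∧ f (s * k) = t * f k := by
      intro k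
      have := h1 (k, 0)
      rw [hx, hx] at this
      simp only [mul_zero] at this
      rw [hTf, hTf] at this
      exact ⟨congrArg Prod.fst this, congrArg Prod.snd this⟩
    have hf : ∀ k, f k = 0 := by
      intro k
      have hne : (s : K) - algebraMap F K t ≠ 0 := sub_ne_zero.2 (hsF t)
      have h9 : ∀ k, f (((s : K) - algebraMap F K t) * k) = 0 := by
        intro k
        rw [sub_mul, map_sub, (h8 k).2, ← Algebra.smul_def, map_smul, smul_eq_mul, sub_self]
      have := h9 (((s : K) - algebraMap F K t)⁻¹ * k)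
      rwa [← mul_assoc, mul_inv_cancel₀ hne, one_mul] at this
    have hT : ∀ k, T k = T 1 * k := comm_gen hgen T fun k => (h8 k).1
    refine ⟨T 1, (slEnd B c (0, 1)).2, ?_, hf0, fun v => ?_⟩
    · intro h0
      have : slEnd B c ((1 : K), (0 : F)) = slEnd B c 0 := by
        rw [map_zero, hTf, h0, hf]; rfl
      have := hcinj this
      simp at this
    · have hv : v = (v.1, 0) + v.2 • ((0 : K), (1 : F)) := by
        ext <;> simp
      conv_lhs => rw [hv]
      rw [map_add, map_smul, hTf, hf, hT]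
      refine Prod.ext ?_ ?_
      · simp [hk0]
      · simp [mul_comm]
  exact frob_of_diag B x key

end big

theorem frob_psl {F : Type*} [Field F] [Finite F] {n : ℕ} (hn : 3 ≤ n) :
    FrobCent (Matrix.ProjectiveSpecialLinearGroup (Fin n) F) := by
  obtain ⟨K, _, _, _, hK⟩ := exists_ext F (n - 1) (by omega)
  have hfd : Module.Finite F K := Module.Finite.of_finite
  have h1 : Module.finrank F (K × F) = n := by
    rw [Module.finrank_prod, hK, Module.finrank_self]; omega
  exact frob_psl_big (Module.finBasisOfFinrankEq F (K × F) h1) (by omega)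

theorem frob_psl_two {F : Type*} [Field F] [Finite F] (h4 : 4 ≤ Nat.card F) (h5 : Nat.card F ≠ 5) :
    FrobCent (Matrix.ProjectiveSpecialLinearGroup (Fin 2) F) := by
  classical
  have := Fintype.ofFinite F
  obtain ⟨s, hs⟩ := IsCyclic.exists_generator (α := Fˣ)
  have hord : orderOf s = Nat.card F - 1 := by
    rw [orderOf_eq_card_of_forall_mem_zpowers hs, Nat.card_units]
  have hs4 : (s : F) ^ 4 ≠ 1 := by
    intro h
    have h1 : s ^ 4 = 1 := by ext; simpa using h
    have h2 := orderOf_dvd_of_pow_eq_one h1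
    rw [hord] at h2
    have h3 : Nat.card F - 1 ≤ 4 := Nat.le_of_dvd (by norm_num) h2
    have h6 : Nat.card F = 4 := by omega
    rw [h6] at h2
    omega
  have hs0 : (s : F) ≠ 0 := s.ne_zero
  have hs2 : (s : F) ^ 2 ≠ 1 := by
    intro h
    apply hs4
    calc (s : F) ^ 4 = ((s : F) ^ 2) ^ 2 := by ring
      _ = 1 := by rw [h, one_pow]
  let B : Basis (Fin 2) F (F × F) := Module.finBasisOfFinrankEq F (F × F) (by simp)
  let X : Module.End F (F × F) := LinearMap.prodMap ((s : F) • LinearMap.id) ((s : F)⁻¹ • LinearMap.id)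
  have hX : LinearMap.det X = 1 := by
    rw [LinearMap.det_prodMap, LinearMap.det_smul, LinearMap.det_smul, LinearMap.det_id, Module.finrank_self]
    simp [hs0]
  let x := slMk B X hX
  have hx : ∀ v, slEnd B x v = ((s : F) * v.1, (s : F)⁻¹ * v.2) := by
    intro v
    rw [slEnd_slMk]
    rfl
  refine frob_of_diag (K := F) B x ?_
  intro c z hz hcx
  obtain ⟨ζ, hζ⟩ := smul_of_mem_center B hz
  have h1 : ∀ v, slEnd B c (slEnd B x v) = ζ • slEnd B x (slEnd B c v) := by
    intro v
    have := congrArg (fun g => slEnd B g v) hcx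
    simp only [map_mul, Module.End.mul_apply, hζ] at this
    exact this
  have hcinj := slEnd_apply_injective B c
  have h2 := h1 (1, 0)
  have h3 := h1 (0, 1)
  rw [hx, hx] at h2 h3
  simp only [mul_zero, mul_one] at h2 h3
  have e2 : slEnd B c ((s : F), (0 : F)) = (s : F) • slEnd B c (1, 0) := by
    rw [← map_smul]; congr 1; ext <;> simp
  have e3 : slEnd B c ((0 : F), (s : F)⁻¹) = (s : F)⁻¹ • slEnd B c (0, 1) := by
    rw [← map_smul]; congr 1; ext <;> simp
  rw [e2] at h2
  rw [e3] at h3
  set p := slEnd B c (1, 0) with hp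
  set r := slEnd B c (0, 1) with hr
  have hp0 : p ≠ 0 := by
    intro h
    have := hcinj (h.trans (map_zero (slEnd B c)).symm)
    simp at this
  have hr0 : r ≠ 0 := by
    intro h
    have := hcinj (h.trans (map_zero (slEnd B c)).symm)
    simp at this
  have a1 : (s : F) * p.1 = ζ * ((s : F) * p.1) := congrArg Prod.fst h2
  have a2 : (s : F) * p.2 = ζ * ((s : F)⁻¹ * p.2) := congrArg Prod.snd h2
  have b1 : (s : F)⁻¹ * r.1 = ζ * ((s : F) * r.1) := congrArg Prod.fst h3
  have b2 : (s : F)⁻¹ * r.2 = ζ * ((s : F)⁻¹ * r.2) := congrArg Prod.snd h3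
  -- the scalar is one
  have hζ1 : ζ = 1 := by
    by_contra hne
    have hne' : (1 : F) - ζ ≠ 0 := sub_ne_zero.2 (Ne.symm hne)
    have hp1 : p.1 = 0 := by
      have : (1 - ζ) * ((s : F) * p.1) = 0 := by rw [sub_mul, one_mul, ← a1, sub_self]
      rcases mul_eq_zero.1 this with h | h
      · exact absurd h hne'
      · exact (mul_eq_zero.1 h).resolve_left hs0
    have hr2 : r.2 = 0 := by
      have : (1 - ζ) * ((s : F)⁻¹ * r.2) = 0 := by rw [sub_mul, one_mul, ← b2, sub_self]
      rcases mul_eq_zero.1 this with h | h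
      · exact absurd h hne'
      · exact (mul_eq_zero.1 h).resolve_left (inv_ne_zero hs0)
    have hp2 : p.2 ≠ 0 := fun h => hp0 (Prod.ext hp1 h)
    have hr1 : r.1 ≠ 0 := fun h => hr0 (Prod.ext h hr2)
    have c1 : (s : F) = ζ * (s : F)⁻¹ := by
      apply mul_right_cancel₀ hp2
      rw [a2, mul_assoc]
    have c2 : (s : F)⁻¹ = ζ * (s : F) := by
      apply mul_right_cancel₀ hr1
      rw [b1, mul_assoc]
    have d1 : ζ = (s : F) ^ 2 := by
      rw [sq]
      nth_rewrite 1 [c1]
      rw [mul_assoc, inv_mul_cancel₀ hs0, mul_one]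
    apply hs4
    calc (s : F) ^ 4 = ((s : F) ^ 2 * (s : F)) * (s : F) := by ring
      _ = (s : F)⁻¹ * (s : F) := by rw [← d1, ← c2]
      _ = 1 := inv_mul_cancel₀ hs0
  subst hζ1
  rw [one_mul] at a2 b1
  have hss : (s : F) - (s : F)⁻¹ ≠ 0 := by
    intro h
    apply hs2
    rw [sub_eq_zero] at h
    rw [sq]
    nth_rewrite 1 [h]
    exact inv_mul_cancel₀ hs0
  have hp2 : p.2 = 0 := by
    have : ((s : F) - (s : F)⁻¹) * p.2 = 0 := by rw [sub_mul, a2, sub_self]
    exact (mul_eq_zero.1 this).resolve_left hss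
  have hr1 : r.1 = 0 := by
    have : ((s : F) - (s : F)⁻¹) * r.1 = 0 := by rw [sub_mul, ← b1, sub_self]
    exact (mul_eq_zero.1 this).resolve_left hss
  refine ⟨p.1, r.2, fun h => hp0 (Prod.ext h hp2), fun h => hr0 (Prod.ext hr1 h), fun v => ?_⟩
  have hv : v = v.1 • ((1 : F), (0 : F)) + v.2 • ((0 : F), (1 : F)) := by
    ext <;> simp
  conv_lhs => rw [hv]
  rw [map_add, map_smul, map_smul, ← hp, ← hr]
  refine Prod.ext ?_ ?_
  · simp [hr1, mul_comm]
  · simp [hp2, mul_comm]

/-- Row `PSL_2(q)`, `q ≥ 4`, `q ≠ 5`. -/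
theorem row_psl_two {F : Type*} [Field F] [Finite F] (h4 : 4 ≤ Nat.card F) (h5 : Nat.card F ≠ 5)
    (hs : IsSimpleGroup (Matrix.ProjectiveSpecialLinearGroup (Fin 2) F)) :
    Row (Matrix.ProjectiveSpecialLinearGroup (Fin 2) F) :=
  (frob_psl_two h4 h5).row

/-- Row `PSL_n(q)`, `n ≥ 3`. -/
theorem row_psl_big {F : Type*} [Field F] [Finite F] {n : ℕ} (hn : 3 ≤ n)
    (hs : IsSimpleGroup (Matrix.ProjectiveSpecialLinearGroup (Fin n) F)) :
    Row (Matrix.ProjectiveSpecialLinearGroup (Fin n) F) :=
  (frob_psl hn).row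

end Cfsg.Agent.H917.CJ
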