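import Cfsg.Agent.H917.CJ.Psl
import Cfsg.Agent.S0252
import Cfsg.Agent.S0253
import Cfsg.Agent.S0254

/-!
# The row `PSL` of S4792, all cases

`PSL_2(5) ≅ A_5 ≅ PSL_2(4)`.
-/

set_option autoImplicit false

open Cfsg Module

namespace Cfsg.Agent.H917.CJ

open Cfsg.Agent.H430.Conj

theorem frob_alt_five : FrobCent (alternatingGroup (Fin 5)) := by
  have : Fintype (GaloisField 2 2) := Fintype.ofFinite _
  have hc : Nat.card (GaloisField 2 2) = 4 := by
    rw [GaloisField.card 2 2 (by norm_num)]; norm_num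
  obtain ⟨e⟩ := S0252.result (F := GaloisField 2 2) (by rw [← Nat.card_eq_fintype_card, hc])
  exact (frob_psl_two (F := GaloisField 2 2) (by omega) (by omega)).of_equiv e

theorem frob_alt_six : FrobCent (alternatingGroup (Fin 6)) := by
  have : Fact (Nat.Prime 3) := ⟨Nat.prime_three⟩
  have : Fintype (GaloisField 3 2) := Fintype.ofFinite _
  have hc : Nat.card (GaloisField 3 2) = 9 := by
    rw [GaloisField.card 3 2 (by norm_num)]; norm_num
  obtain ⟨e⟩ := S0254.result (F := GaloisField 3 2) (by rw [← Nat.card_eq_fintype_card, hc])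
  exact (frob_psl_two (F := GaloisField 3 2) (by omega) (by omega)).of_equiv e

theorem frob_psl_two_all {F : Type*} [Field F] [Finite F] (h4 : 4 ≤ Nat.card F) :
    FrobCent (Matrix.ProjectiveSpecialLinearGroup (Fin 2) F) := by
  by_cases h5 : Nat.card F = 5
  · have := Fintype.ofFinite F
    obtain ⟨e⟩ := S0253.result (F := F) (by rw [← Nat.card_eq_fintype_card, h5])
    exact frob_alt_five.of_equiv e.symm
  · exact frob_psl_two h4 h5

/-- Row `PSL` of S4792 (criterion F). -/
theorem frob_isPSL {S : Type*} [Group S] (h : IsPSL S) : FrobCent S := by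
  obtain ⟨F, _, _, n, hn, hn2, ⟨e⟩⟩ := h
  refine FrobCent.of_equiv ?_ e.symm
  by_cases h2 : n = 2
  · subst h2
    exact frob_psl_two_all (by rw [Nat.card_eq_fintype_card]; exact hn2 rfl)
  · exact frob_psl (by omega)

/-- Row `PSL` of S4792. -/
theorem row_isPSL {S : Type*} [Group S] [Finite S] (hs : IsSimpleGroup S) (h : IsPSL S) : Row S :=
  (frob_isPSL h).row

end Cfsg.Agent.H917.CJ
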