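import Cfsg.Agent.H917.CJ.Frame
import Cfsg.Agent.ClassicalGeometry.SympInvolutions
import Cfsg.Prelude.Def_Classical

/-!
# The rows `PSp_2n(q)` of S4792

`V = K ⊕ K`, `K = 𝔽_{q^n}`, form `Tr(a d - b c)`, `x = (s, s⁻¹)` with `s` a generator of `Kˣ`,
`A = {(a, b) ↦ (a + u b, b)}`. All cases except `PSp_4(3)` (and `Sp_4(2)`).
-/

set_option autoImplicit false

open Cfsg Module Matrix

namespace Cfsg.Agent.H917.CJ.Sp

open Cfsg.Agent.H430.Conj Cfsg.Agent.H917.CJ

section form

variable {F K : Type*} [Field F] [Field K] [Algebra F K]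

/-- The symplectic form `Tr(a d - b c)` on `K × K`. -/
noncomputable def frm : LinearMap.BilinForm F (K × K) :=
  LinearMap.mk₂ F (fun v w => Algebra.trace F K (v.1 * w.2 - v.2 * w.1))
    (by intro a b c; rw [← map_add]; congr 1; simp; ring)
    (by intro r a b; rw [← map_smul]; congr 1; simp [smul_sub])
    (by intro a b c; rw [← map_add]; congr 1; simp; ring)
    (by intro r a b; rw [← map_smul]; congr 1; simp [smul_sub])

theorem frm_apply (v w : K × K) : frm (F := F) v w = Algebra.trace F K (v.1 * w.2 - v.2 * w.1) := rfl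

variable [Module.Finite F K] [Algebra.IsSeparable F K] {m : ℕ} (b : Basis (Fin m) F K)

/-- The symplectic basis. -/
noncomputable def bas : Basis (Fin m ⊕ Fin m) F (K × K) :=
  b.prod ((Algebra.traceForm F K).dualBasis (traceForm_nondegenerate F K) b)

theorem toMatrix_frm : LinearMap.BilinForm.toMatrix (bas b) (frm (F := F) (K := K)) = -J (Fin m) F := by
  ext i j
  rw [LinearMap.BilinForm.toMatrix_apply, frm_apply]
  have hd : ∀ i j, Algebra.trace F K (b i *
      ((Algebra.traceForm F K).dualBasis (traceForm_nondegenerate F K) b) j) = if i = j then 1 else 0 := by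
    intro i j
    exact LinearMap.BilinForm.apply_dualBasis_right (traceForm_nondegenerate F K) (Algebra.traceForm_isSymm F) b i j
  rcases i with i | i <;> rcases j with j | j
  · simp [bas, J, Matrix.fromBlocks]
  · simp [bas, J, Matrix.fromBlocks, hd, Matrix.one_apply]
  · simp only [bas, J, Matrix.fromBlocks, Basis.prod_apply_inr_fst, Basis.prod_apply_inl_snd, mul_zero, zero_sub,
      Basis.prod_apply_inr_snd, Basis.prod_apply_inl_fst, map_neg]
    rw [mul_comm, hd]
    simp [Matrix.one_apply, eq_comm]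
  · simp [bas, J, Matrix.fromBlocks]

theorem sp_iff (X : Module.End F (K × K)) :
    (LinearMap.toMatrix (bas b) (bas b) X) ∈ symplecticGroup (Fin m) F ↔
      ∀ v w, frm (F := F) (X v) (X w) = frm v w := by
  rw [SymplecticGroup.mem_iff']
  have h1 := LinearMap.BilinForm.toMatrix_comp (bas b) (bas b) (frm (F := F) (K := K)) X X
  rw [toMatrix_frm, mul_neg, neg_mul] at h1
  constructor
  · intro h
    rw [h, ← toMatrix_frm b] at h1
    have h2 := (LinearMap.BilinForm.toMatrix (bas b)).injective h1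
    intro v w
    exact congrArg (fun β : LinearMap.BilinForm F (K × K) => β v w) h2
  · intro h
    have h2 : (frm (F := F) (K := K)).comp X X = frm := by
      refine LinearMap.ext fun v => LinearMap.ext fun w => h v w
    rw [h2, toMatrix_frm] at h1
    exact (neg_injective h1).symm

/-- The symplectic group acting on `K × K`. -/
noncomputable def spEnd : symplecticGroup (Fin m) F →* Module.End F (K × K) where
  toFun g := Matrix.toLinAlgEquiv (bas b) (g : Matrix (Fin m ⊕ Fin m) (Fin m ⊕ Fin m) F)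
  map_one' := by rw [Submonoid.coe_one, map_one]
  map_mul' g h := by rw [Submonoid.coe_mul, map_mul]

theorem spEnd_apply (g : symplecticGroup (Fin m) F) :
    spEnd b g = Matrix.toLinAlgEquiv (bas b) (g : Matrix (Fin m ⊕ Fin m) (Fin m ⊕ Fin m) F) := rfl

theorem spEnd_injective : Function.Injective (spEnd b) := by
  intro g h hgh
  rw [spEnd_apply, spEnd_apply] at hgh
  exact Subtype.ext ((Matrix.toLinAlgEquiv (bas b)).injective hgh)

theorem frm_spEnd (g : symplecticGroup (Fin m) F) (v w : K × K) :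
    frm (F := F) (spEnd b g v) (spEnd b g w) = frm v w := by
  refine (sp_iff b (spEnd b g)).1 ?_ v w
  have : LinearMap.toMatrix (bas b) (bas b) (spEnd b g) = (g : Matrix (Fin m ⊕ Fin m) (Fin m ⊕ Fin m) F) :=
    LinearMap.toMatrix_toLin _ _ _
  rw [this]
  exact g.2

/-- Symplectic matrices from isometries. -/
noncomputable def spMk (X : Module.End F (K × K)) (h : ∀ v w, frm (F := F) (X v) (X w) = frm v w) :
    symplecticGroup (Fin m) F :=
  ⟨LinearMap.toMatrix (bas b) (bas b) X, (sp_iff b X).2 h⟩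

theorem spEnd_spMk (X : Module.End F (K × K)) (h : ∀ v w, frm (F := F) (X v) (X w) = frm v w) :
    spEnd b (spMk b X h) = X :=
  Matrix.toLin_toMatrix _ _ _

theorem mem_center_of_smul {g : symplecticGroup (Fin m) F} {ζ : F} (h : ∀ v, spEnd b g v = ζ • v) :
    g ∈ Subgroup.center (symplecticGroup (Fin m) F) := by
  rw [Subgroup.mem_center_iff]
  intro k
  apply spEnd_injective b
  rw [map_mul, map_mul]
  refine LinearMap.ext fun v => ?_
  simp only [Module.End.mul_apply, h, map_smul]

theorem smul_of_mem_center {g : symplecticGroup (Fin m) F}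
    (h : g ∈ Subgroup.center (symplecticGroup (Fin m) F)) : ∃ ζ : F, ζ ^ 2 = 1 ∧ ∀ v, spEnd b g v = ζ • v := by
  rcases Cfsg.Agent.ClassicalGeometry.SympInvolutions.center_eq h with h1 | h1
  · refine ⟨1, by simp, fun v => ?_⟩
    rw [spEnd_apply, h1, map_one, one_smul]
    rfl
  · refine ⟨-1, by simp, fun v => ?_⟩
    rw [spEnd_apply, h1, map_neg, map_one, neg_smul, one_smul]
    rfl

theorem spEnd_apply_injective (g : symplecticGroup (Fin m) F) : Function.Injective (spEnd b g) := by
  intro v w h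
  have h1 : ∀ v, spEnd b g⁻¹ (spEnd b g v) = v := by
    intro v
    rw [← Module.End.mul_apply, ← map_mul, inv_mul_cancel, map_one]
    rfl
  rw [← h1 v, h, h1]

/-- The unipotent map `(k, l) ↦ (k + u l, l)`. -/
noncomputable def uni (u : K) : Module.End F (K × K) :=
  LinearMap.id + (LinearMap.inl F K K) ∘ₗ (LinearMap.mulLeft F u) ∘ₗ (LinearMap.snd F K K)

omit [Module.Finite F K] [Algebra.IsSeparable F K] in
theorem uni_apply (u : K) (v : K × K) : uni (F := F) u v = (v.1 + u * v.2, v.2) := by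
  simp [uni, Prod.ext_iff]

omit [Module.Finite F K] [Algebra.IsSeparable F K] in
theorem frm_uni (u : K) (v w : K × K) : frm (F := F) (uni (F := F) u v) (uni (F := F) u w) = frm v w := by
  rw [frm_apply, frm_apply, uni_apply, uni_apply]
  congr 1
  ring

/-- The unipotent subgroup. -/
noncomputable def uniHom : Multiplicative K →* symplecticGroup (Fin m) F where
  toFun u := spMk b (uni u.toAdd) (frm_uni _)
  map_one' := by
    apply spEnd_injective b
    rw [spEnd_spMk, MonoidHom.map_one (spEnd b)]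
    refine LinearMap.ext fun w => ?_
    rw [uni_apply]
    simp
  map_mul' u v := by
    apply spEnd_injective b
    rw [MonoidHom.map_mul (spEnd b), spEnd_spMk, spEnd_spMk, spEnd_spMk]
    refine LinearMap.ext fun w => ?_
    rw [Module.End.mul_apply, uni_apply, uni_apply, uni_apply]
    simp only [toAdd_mul, Prod.mk.injEq, and_true]
    ring

theorem spEnd_uniHom (u : Multiplicative K) : spEnd b (uniHom b u) = uni u.toAdd := spEnd_spMk b _ (frm_uni _)

/-- The torus element `(s, s⁻¹)`. -/
noncomputable def tor (s : K) : Module.End F (K × K) :=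
  LinearMap.prodMap (LinearMap.mulLeft F s) (LinearMap.mulLeft F s⁻¹)

omit [Module.Finite F K] [Algebra.IsSeparable F K] in
theorem tor_apply (s : K) (v : K × K) : tor (F := F) s v = (s * v.1, s⁻¹ * v.2) := rfl

omit [Module.Finite F K] [Algebra.IsSeparable F K] in
theorem frm_tor {s : K} (hs : s ≠ 0) (v w : K × K) :
    frm (F := F) (tor (F := F) s v) (tor (F := F) s w) = frm v w := by
  rw [frm_apply, frm_apply, tor_apply, tor_apply]
  congr 1
  field_simp

include b in
/-- Criterion F for `PSp` from the conjugacy properties of a generator `s` of `K`. -/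
theorem frob_of_gen {s : K} (hs0 : s ≠ 0) (hgen : Algebra.adjoin F {s} = ⊤)
    (h1 : ∀ ζ : F, ζ ^ 2 = 1 → ∀ θ : K ≃ₐ[F] K, θ s = algebraMap F K ζ * s → ζ = 1)
    (h2 : ∀ ζ : F, ζ ^ 2 = 1 → ∀ θ : K ≃ₐ[F] K, θ s ≠ algebraMap F K ζ * s⁻¹) : FrobCent (PSp m F) := by
  classical
  let x := spMk b (tor s) (frm_tor hs0)
  have hx : ∀ v, spEnd b x v = (s * v.1, s⁻¹ * v.2) := by
    intro v
    rw [spEnd_spMk]
    rfl
  have key : ∀ c z : symplecticGroup (Fin m) F,
      z ∈ Subgroup.center (symplecticGroup (Fin m) F) → c * x = z * (x * c) →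
      ∃ a a' : K, a * a' = 1 ∧ ∀ v, spEnd b c v = (a * v.1, a' * v.2) := by
    intro c z hz hcx
    obtain ⟨ζ, hζ2, hζ⟩ := smul_of_mem_center b hz
    have hζζ : ζ * ζ = 1 := by rw [← sq, hζ2]
    have e0 : ∀ v, spEnd b c (spEnd b x v) = ζ • spEnd b x (spEnd b c v) := by
      intro v
      have := congrArg (fun g => spEnd b g v) hcx
      simp only [map_mul, Module.End.mul_apply, hζ] at this
      exact this
    have hcinj := spEnd_apply_injective b c
    let T11 : K →ₗ[F] K := LinearMap.fst F K K ∘ₗ spEnd b c ∘ₗ LinearMap.inl F K K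
    let T21 : K →ₗ[F] K := LinearMap.snd F K K ∘ₗ spEnd b c ∘ₗ LinearMap.inl F K K
    let T12 : K →ₗ[F] K := LinearMap.fst F K K ∘ₗ spEnd b c ∘ₗ LinearMap.inr F K K
    let T22 : K →ₗ[F] K := LinearMap.snd F K K ∘ₗ spEnd b c ∘ₗ LinearMap.inr F K K
    have hT1 : ∀ k : K, spEnd b c (k, 0) = (T11 k, T21 k) := fun k => rfl
    have hT2 : ∀ k : K, spEnd b c (0, k) = (T12 k, T22 k) := fun k => rfl
    have a1 : ∀ k, T11 (s * k) = (algebraMap F K ζ * s) * T11 k ∧
        T21 (s * k) = (algebraMap F K ζ * s⁻¹) * T21 k := by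
      intro k
      have := e0 (k, 0)
      rw [hx, hx] at this
      simp only [mul_zero] at this
      rw [hT1, hT1] at this
      refine ⟨?_, ?_⟩
      · have h := congrArg Prod.fst this
        simp only [Prod.smul_fst] at h
        rw [h, Algebra.smul_def, mul_assoc]
      · have h := congrArg Prod.snd this
        simp only [Prod.smul_snd] at h
        rw [h, Algebra.smul_def, mul_assoc]
    have a2 : ∀ k, T12 (s⁻¹ * k) = (algebraMap F K ζ * s) * T12 k ∧
        T22 (s⁻¹ * k) = (algebraMap F K ζ * s⁻¹) * T22 k := by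
      intro k
      have := e0 (0, k)
      rw [hx, hx] at this
      simp only [mul_zero] at this
      rw [hT2, hT2] at this
      refine ⟨?_, ?_⟩
      · have h := congrArg Prod.fst this
        simp only [Prod.smul_fst] at h
        rw [h, Algebra.smul_def, mul_assoc]
      · have h := congrArg Prod.snd this
        simp only [Prod.smul_snd] at h
        rw [h, Algebra.smul_def, mul_assoc]
    have hzz : algebraMap F K ζ * algebraMap F K ζ = 1 := by rw [← map_mul, hζζ, map_one]
    have a3 : ∀ k, T12 (s * k) = (algebraMap F K ζ * s⁻¹) * T12 k := by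
      intro k
      have := (a2 (s * k)).1
      rw [← mul_assoc, inv_mul_cancel₀ hs0, one_mul] at this
      rw [this]
      calc T12 (s * k) = (algebraMap F K ζ * algebraMap F K ζ) * (s⁻¹ * s) * T12 (s * k) := by
            rw [hzz, inv_mul_cancel₀ hs0, one_mul, one_mul]
        _ = _ := by ring
    have a4 : ∀ k, T22 (s * k) = (algebraMap F K ζ * s) * T22 k := by
      intro k
      have := (a2 (s * k)).2
      rw [← mul_assoc, inv_mul_cancel₀ hs0, one_mul] at this
      rw [this]
      calc T22 (s * k) = (algebraMap F K ζ * algebraMap F K ζ) * (s * s⁻¹) * T22 (s * k) := by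
            rw [hzz, mul_inv_cancel₀ hs0, one_mul, one_mul]
        _ = _ := by ring
    have hT21 : T21 = 0 := by
      by_contra hne
      obtain ⟨θ, hθ, _⟩ := conj_gen hgen T21 hne fun k => (a1 k).2
      exact h2 ζ hζ2 θ hθ
    have hT12 : T12 = 0 := by
      by_contra hne
      obtain ⟨θ, hθ, _⟩ := conj_gen hgen T12 hne a3
      exact h2 ζ hζ2 θ hθ
    have hT11 : T11 ≠ 0 := by
      intro h
      have : spEnd b c ((1 : K), (0 : K)) = spEnd b c 0 := by
        rw [map_zero, hT1, h, hT21]; rfl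
      have := hcinj this
      simp at this
    obtain ⟨θ, hθ, _⟩ := conj_gen hgen T11 hT11 fun k => (a1 k).1
    have hζ1 : ζ = 1 := h1 ζ hζ2 θ hθ
    subst hζ1
    simp only [map_one, one_mul] at a1 a4
    have b1 : ∀ k, T11 k = T11 1 * k := comm_gen hgen T11 fun k => (a1 k).1
    have b2 : ∀ k, T22 k = T22 1 * k := comm_gen hgen T22 a4
    have hC : ∀ v, spEnd b c v = (T11 1 * v.1, T22 1 * v.2) := by
      intro v
      have hv : v = (v.1, 0) + (0, v.2) := by ext <;> simp
      conv_lhs => rw [hv]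
      rw [map_add, hT1, hT2, hT21, hT12, b1, b2]
      simp
    refine ⟨T11 1, T22 1, ?_, hC⟩
    have hnd := traceForm_nondegenerate F K
    have h5 : ∀ l : K, Algebra.traceForm F K (T11 1 * T22 1 - 1) l = 0 := by
      intro l
      have h6 := frm_spEnd b c (1, 0) (0, l)
      rw [hC, hC, frm_apply, frm_apply] at h6
      simp only [mul_one, mul_zero, sub_zero, one_mul] at h6
      rw [Algebra.traceForm_apply, sub_mul, map_sub, one_mul, mul_assoc, h6, sub_self]
    have h7 := hnd.1 _ h5
    exact sub_eq_zero.1 h7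
  have hconj : ∀ (c : symplecticGroup (Fin m) F) (a a' : K), a * a' = 1 →
      (∀ v, spEnd b c v = (a * v.1, a' * v.2)) → ∀ u : K,
      c * uniHom b (Multiplicative.ofAdd u) = uniHom b (Multiplicative.ofAdd (a * a * u)) * c := by
    intro c a a' haa hc u
    apply spEnd_injective b
    rw [map_mul, map_mul, spEnd_uniHom, spEnd_uniHom]
    refine LinearMap.ext fun v => ?_
    rw [Module.End.mul_apply, Module.End.mul_apply, hc, hc, uni_apply, uni_apply]
    simp only [toAdd_ofAdd, Prod.mk.injEq, and_true]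
    calc a * (v.1 + u * v.2) = a * v.1 + a * u * v.2 * 1 := by ring
      _ = a * v.1 + a * u * v.2 * (a * a') := by rw [haa]
      _ = _ := by ring
  refine frob_quot _ x (uniHom b).range ?_ ?_ ?_ ?_
  · intro h0
    have e1 : uniHom b (Multiplicative.ofAdd (1 : K)) ∈ (uniHom b).range := ⟨_, rfl⟩
    rw [h0, Subgroup.mem_bot] at e1
    have e2 := congrArg (fun g => (spEnd b g (0, 1)).1) e1
    simp only [spEnd_uniHom, uni_apply, map_one] at e2
    simp at e2
  · rintro _ ⟨u, rfl⟩ _ ⟨v, rfl⟩
    rw [← map_mul, ← map_mul, mul_comm]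
  · rintro _ ⟨u, rfl⟩ hu
    obtain ⟨ζ, -, hζ⟩ := smul_of_mem_center b hu
    have e2 := hζ (0, 1)
    rw [spEnd_uniHom, uni_apply] at e2
    have e4 := congrArg Prod.fst e2
    simp at e4
    rw [e4, map_one]
  · intro c z hz hcx
    obtain ⟨a, a', haa, hc⟩ := key c z hz hcx
    constructor
    · rintro _ ⟨u, rfl⟩
      refine ⟨Multiplicative.ofAdd (a * a * u.toAdd), ?_⟩
      rw [eq_mul_inv_iff_mul_eq]
      exact (hconj c a a' haa hc u.toAdd).symm
    · rintro _ ⟨u, rfl⟩ hcu
      have e1 := hconj c a a' haa hc u.toAdd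
      rw [ofAdd_toAdd, hcu] at e1
      have e2 := mul_right_cancel e1
      have e3 := congrArg (fun g => (spEnd b g (0, 1)).1) e2
      simp only [spEnd_uniHom, uni_apply, toAdd_ofAdd, zero_add, mul_one] at e3
      by_cases hu : u.toAdd = 0
      · left
        rw [← ofAdd_toAdd u, hu, ofAdd_zero, map_one]
      · right
        have e4 : a * a = 1 := by
          apply mul_right_cancel₀ hu
          rw [one_mul, ← e3]
        have e5 : a' = a := by
          calc a' = (a * a) * a' := by rw [e4, one_mul]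
            _ = a * (a * a') := by ring
            _ = a := by rw [haa, mul_one]
        rcases mul_self_eq_one_iff.1 e4 with e6 | e6
        · apply mem_center_of_smul b (ζ := 1)
          intro v
          rw [hc, e5, e6, one_smul, one_mul, one_mul]
        · apply mem_center_of_smul b (ζ := -1)
          intro v
          rw [hc, e5, e6, neg_smul, one_smul]
          ext <;> simp

end form

/-! ### Numerics -/

theorem pow_lt_aux {q n i : ℕ} (hq : 2 ≤ q) (hi : i < n) : 2 * (q ^ i - 1) < q ^ n - 1 := by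
  have h1 : q ^ i * 2 ≤ q ^ n := by
    calc q ^ i * 2 ≤ q ^ i * q := Nat.mul_le_mul_left _ hq
      _ = q ^ (i + 1) := by ring
      _ ≤ q ^ n := Nat.pow_le_pow_right (by omega) hi
  have h2 : 1 ≤ q ^ i := Nat.one_le_pow _ _ (by omega)
  omega

theorem not_dvd_aux {q n i : ℕ} (hq : 3 ≤ q) (hn : 2 ≤ n) (hi : i < n) (h3 : q = 3 → 3 ≤ n) :
    ¬ q ^ n - 1 ∣ 2 * (q ^ i + 1) := by
  intro h
  have h1 := Nat.le_of_dvd (by positivity) h
  obtain ⟨k, rfl⟩ : ∃ k, n = k + 1 := ⟨n - 1, by omega⟩
  have h2 : q ^ i ≤ q ^ k := Nat.pow_le_pow_right (by omega) (by omega)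
  have h4 : q ^ (k + 1) ≤ 2 * q ^ k + 3 := by
    have : 1 ≤ q ^ (k + 1) := Nat.one_le_pow _ _ (by omega)
    omega
  rw [pow_succ] at h4
  rcases Nat.lt_or_ge q 4 with h5 | h5
  · have h6 : q = 3 := by omega
    subst h6
    have h7 : 3 ^ 2 ≤ 3 ^ k := Nat.pow_le_pow_right (by norm_num) (by have := h3 rfl; omega)
    omega
  · have h7 : q ^ 1 ≤ q ^ k := Nat.pow_le_pow_right (by omega) (by omega)
    have h8 : q ^ k * 4 ≤ q ^ k * q := Nat.mul_le_mul_left _ h5
    rw [pow_one] at h7
    omega

theorem not_dvd_aux2 {n i : ℕ} (hn : 3 ≤ n) (hi : i < n) : ¬ 2 ^ n - 1 ∣ 2 ^ i + 1 := by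
  intro h
  have h1 := Nat.le_of_dvd (by positivity) h
  obtain ⟨k, rfl⟩ : ∃ k, n = k + 1 := ⟨n - 1, by omega⟩
  have h2 : 2 ^ i ≤ 2 ^ k := Nat.pow_le_pow_right (by omega) (by omega)
  rw [pow_succ] at h1
  have h7 : 2 ^ 2 ≤ 2 ^ k := Nat.pow_le_pow_right (by norm_num) (by omega)
  omega

theorem frob_psp {F : Type*} [Field F] [Finite F] {m : ℕ} (hm : 2 ≤ m) (h2 : Nat.card F = 2 → 3 ≤ m)
    (h3 : Nat.card F = 3 → 3 ≤ m) : FrobCent (PSp m F) := by
  obtain ⟨K, _, _, _, hK⟩ := exists_ext F m (by omega)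
  have hfd : Module.Finite F K := Module.Finite.of_finite
  have := Fintype.ofFinite F
  have := Fintype.ofFinite K
  obtain ⟨s, hs⟩ := IsCyclic.exists_generator (α := Kˣ)
  have hord : orderOf s = Nat.card F ^ m - 1 := by
    rw [orderOf_eq_card_of_forall_mem_zpowers hs, Nat.card_units, Module.natCard_eq_pow_finrank (K := F), hK]
  have hq : 2 ≤ Nat.card F := Finite.one_lt_card
  have hs0 : (s : K) ≠ 0 := s.ne_zero
  refine frob_of_gen (Module.finBasisOfFinrankEq F K hK) hs0 (adjoin_primitive hs) ?_ ?_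
  · intro ζ hζ θ hθ
    obtain ⟨i, hi, hθi⟩ := aut_eq_pow_lt θ
    rw [hK] at hi
    rw [hθi] at hθ
    -- `s ^ (q ^ i - 1) = ζ`
    have h1 : (s : K) ^ (Nat.card F ^ i - 1) = algebraMap F K ζ := by
      apply mul_right_cancel₀ hs0
      rw [← hθ, ← pow_succ]
      congr 1
      have : 1 ≤ Nat.card F ^ i := Nat.one_le_pow _ _ (by omega)
      omega
    have h4 : (s : K) ^ (2 * (Nat.card F ^ i - 1)) = 1 := by
      rw [mul_comm, pow_mul, h1, ← map_pow, hζ, map_one]
    have h5 : s ^ (2 * (Nat.card F ^ i - 1)) = 1 := by ext; simpa using h4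
    have h6 := orderOf_dvd_of_pow_eq_one h5
    rw [hord] at h6
    have h7 := Nat.eq_zero_of_dvd_of_lt h6 (pow_lt_aux hq hi)
    have h8 : Nat.card F ^ i - 1 = 0 := by omega
    rw [h8, pow_zero] at h1
    exact (map_eq_one_iff _ (algebraMap F K).injective).1 h1.symm
  · intro ζ hζ θ hθ
    obtain ⟨i, hi, hθi⟩ := aut_eq_pow_lt θ
    rw [hK] at hi
    rw [hθi] at hθ
    have h1 : (s : K) ^ (Nat.card F ^ i + 1) = algebraMap F K ζ := by
      rw [pow_succ, hθ, mul_assoc, inv_mul_cancel₀ hs0, mul_one]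
    have h4 : (s : K) ^ (2 * (Nat.card F ^ i + 1)) = 1 := by
      rw [mul_comm, pow_mul, h1, ← map_pow, hζ, map_one]
    rcases Nat.lt_or_ge (Nat.card F) 3 with h5 | h5
    · have hq2 : Nat.card F = 2 := by omega
      have hζ1 : ζ = 1 := by
        classical
        by_contra hne
        have hζ0 : ζ ≠ 0 := by rintro rfl; simp at hζ
        have h7 : ({0, 1, ζ} : Finset F).card ≤ Fintype.card F := Finset.card_le_univ _
        rw [← Nat.card_eq_fintype_card, hq2, Finset.card_eq_three.2
          ⟨0, 1, ζ, zero_ne_one, Ne.symm hζ0, Ne.symm hne, rfl⟩] at h7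
        omega
      rw [hζ1, map_one] at h1
      have h8 : s ^ (Nat.card F ^ i + 1) = 1 := by ext; simpa using h1
      have h9 := orderOf_dvd_of_pow_eq_one h8
      rw [hord, hq2] at h9
      exact not_dvd_aux2 (h2 hq2) hi h9
    · have h8 : s ^ (2 * (Nat.card F ^ i + 1)) = 1 := by ext; simpa using h4
      have h9 := orderOf_dvd_of_pow_eq_one h8
      rw [hord] at h9
      exact not_dvd_aux h5 hm hi h3 h9

end Cfsg.Agent.H917.CJ.Sp
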