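import Mathlib

/-!
# Arithmetic for the rows `PSU_2m(q)` of S4792
-/

set_option autoImplicit false

namespace Cfsg.Agent.H917.CJ.Su

theorem numA {q m j : ℕ} (hq : 2 ≤ q) (hj : Even j) (hj2 : 2 ≤ j) (hjm : j ≤ m) :
    ¬ q ^ (2 * m) - 1 ∣ (q ^ j - 1) * (q + 1) ^ 2 := by
  intro h
  have hm1 : 1 ≤ q ^ m := Nat.one_le_pow _ _ (by omega)
  have hj1 : q ^ 2 ≤ q ^ j := Nat.pow_le_pow_right (by omega) hj2
  have hq4 : 2 ^ 2 ≤ q ^ 2 := Nat.pow_le_pow_left hq 2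
  rcases Nat.lt_or_ge j m with hlt | hge
  · -- size
    have h1 := Nat.le_of_dvd (Nat.mul_pos (by omega) (by positivity)) h
    obtain ⟨k, rfl⟩ : ∃ k, m = k + 1 := ⟨m - 1, by omega⟩
    have h2 : q ^ j ≤ q ^ k := Nat.pow_le_pow_right (by omega) (by omega)
    have h3 : q ^ (2 * (k + 1)) = q ^ 2 * (q ^ k * q ^ k) := by ring
    have h4 : q ^ 2 ≤ q ^ k := le_trans hj1 h2
    have h5 : (q ^ j - 1) * (q + 1) ^ 2 ≤ q ^ k * (q + 1) ^ 2 - (q + 1) ^ 2 := by
      rw [Nat.sub_mul, one_mul]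
      exact Nat.sub_le_sub_right (Nat.mul_le_mul_right _ h2) _
    have h6 : q + 1 ≤ q ^ 2 := by nlinarith
    have h7 : (q + 1) ^ 2 ≤ q ^ 2 * q ^ 2 := by nlinarith
    have h8 : q ^ k * (q + 1) ^ 2 ≤ q ^ (2 * (k + 1)) := by
      rw [h3]
      calc q ^ k * (q + 1) ^ 2 ≤ q ^ k * (q ^ 2 * q ^ 2) := Nat.mul_le_mul_left _ h7
        _ ≤ q ^ k * (q ^ 2 * q ^ k) := Nat.mul_le_mul_left _ (Nat.mul_le_mul_left _ h4)
        _ = _ := by ring
    have h9 : 2 ≤ (q + 1) ^ 2 := by nlinarith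
    have h10 : (q + 1) ^ 2 ≤ q ^ k * (q + 1) ^ 2 := Nat.le_mul_of_pos_left _ (by positivity)
    omega
  · have hjm' : j = m := by omega
    subst hjm'
    have h1 : q ^ (2 * j) - 1 = (q ^ j - 1) * (q ^ j + 1) := by
      have : q ^ (2 * j) = q ^ j * q ^ j := by rw [two_mul, pow_add]
      rw [this]
      obtain ⟨c, hc⟩ : ∃ c, q ^ j = c + 1 := ⟨q ^ j - 1, by omega⟩
      rw [hc, Nat.add_sub_cancel]
      have : (c + 1) * (c + 1) = c * (c + 1 + 1) + 1 := by ring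
      rw [this, Nat.add_sub_cancel]
    rw [h1] at h
    have h2 : q ^ j + 1 ∣ (q + 1) ^ 2 := Nat.dvd_of_mul_dvd_mul_left (by omega) h
    rcases Nat.lt_or_ge 2 j with h3 | h3
    · have h4 : 4 ≤ j := by
        obtain ⟨t, ht⟩ := hj
        omega
      have h5 : q ^ 4 ≤ q ^ j := Nat.pow_le_pow_right (by omega) h4
      have h6 := Nat.le_of_dvd (by positivity) h2
      have h7 : q ^ 4 = q ^ 2 * q ^ 2 := by ring
      nlinarith
    · have h4 : j = 2 := by omega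
      subst h4
      have h5 : (q + 1) ^ 2 = (q ^ 2 + 1) + 2 * q := by ring
      rw [h5, Nat.dvd_add_right (dvd_refl _)] at h2
      have h6 := Nat.le_of_dvd (by omega) h2
      nlinarith

theorem numB {q m j : ℕ} (hq : 2 ≤ q) (hm : 2 ≤ m) (hj : Odd j) (hjm : j ≤ m) :
    ¬ q ^ (2 * m) - 1 ∣ (q ^ j + 1) * (q + 1) ^ 2 := by
  intro h
  have hm1 : 1 ≤ q ^ m := Nat.one_le_pow _ _ (by omega)
  have hq4 : 2 ^ 2 ≤ q ^ 2 := Nat.pow_le_pow_left hq 2
  have hsplit : q ^ (2 * m) - 1 = (q ^ m + 1) * (q ^ m - 1) := by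
    have : q ^ (2 * m) = q ^ m * q ^ m := by rw [two_mul, pow_add]
    rw [this]
    obtain ⟨c, hc⟩ : ∃ c, q ^ m = c + 1 := ⟨q ^ m - 1, by omega⟩
    rw [hc, Nat.add_sub_cancel]
    have : (c + 1) * (c + 1) = (c + 1 + 1) * c + 1 := by ring
    rw [this, Nat.add_sub_cancel]
  rcases Nat.lt_or_ge j m with hlt | hge
  · rcases Nat.lt_or_ge 2 m with hm3 | hm3
    · have h1 := Nat.le_of_dvd (by positivity) h
      obtain ⟨k, rfl⟩ : ∃ k, m = k + 1 := ⟨m - 1, by omega⟩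
      have h2 : q ^ j ≤ q ^ k := Nat.pow_le_pow_right (by omega) (by omega)
      have h3 : q ^ (2 * (k + 1)) = q ^ 2 * (q ^ k * q ^ k) := by ring
      have h4 : q ^ 2 ≤ q ^ k := Nat.pow_le_pow_right (by omega) (by omega)
      have h5 : (q ^ j + 1) * (q + 1) ^ 2 ≤ q ^ k * (q + 1) ^ 2 + (q + 1) ^ 2 := by
        rw [Nat.add_mul, one_mul]
        exact Nat.add_le_add_right (Nat.mul_le_mul_right _ h2) _
      have h6 : q + 2 ≤ q ^ 2 := by nlinarith
      have h7 : (q + 1) ^ 2 + (2 * q + 3) ≤ q ^ 2 * q ^ 2 := by nlinarith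
      have h8 : q ^ k * (q + 1) ^ 2 + q ^ k * (2 * q + 3) ≤ q ^ (2 * (k + 1)) := by
        rw [h3]
        calc q ^ k * (q + 1) ^ 2 + q ^ k * (2 * q + 3) = q ^ k * ((q + 1) ^ 2 + (2 * q + 3)) := by ring
          _ ≤ q ^ k * (q ^ 2 * q ^ 2) := Nat.mul_le_mul_left _ h7
          _ ≤ q ^ k * (q ^ 2 * q ^ k) := Nat.mul_le_mul_left _ (Nat.mul_le_mul_left _ h4)
          _ = _ := by ring
      have h9 : q ^ 2 * (2 * q + 3) ≤ q ^ k * (2 * q + 3) := Nat.mul_le_mul_right _ h4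
      have h10 : (q + 1) ^ 2 + 2 ≤ q ^ 2 * (2 * q + 3) := by nlinarith
      omega
    · have h4 : m = 2 := by omega
      subst h4
      have h5 : j = 1 := by
        obtain ⟨t, ht⟩ := hj
        omega
      subst h5
      have h6 : q ^ (2 * 2) - 1 = (q + 1) * ((q - 1) * (q ^ 2 + 1)) := by
        obtain ⟨c, rfl⟩ : ∃ c, q = c + 1 := ⟨q - 1, by omega⟩
        rw [Nat.add_sub_cancel]
        have : (c + 1) ^ (2 * 2) = (c + 1 + 1) * (c * ((c + 1) ^ 2 + 1)) + 1 := by ring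
        rw [this, Nat.add_sub_cancel]
      rw [h6, pow_one] at h
      have h7 := Nat.dvd_of_mul_dvd_mul_left (by omega) h
      rcases Nat.lt_or_ge 2 q with h8 | h8
      · have h9 := Nat.le_of_dvd (by positivity) h7
        obtain ⟨c, rfl⟩ : ∃ c, q = c + 3 := ⟨q - 3, by omega⟩
        have h10 : (c + 3 - 1) = c + 2 := by omega
        rw [h10] at h9
        nlinarith
      · have h9 : q = 2 := by omega
        subst h9
        revert h7
        decide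
  · have hjm' : j = m := by omega
    subst hjm'
    rw [hsplit] at h
    have h2 : q ^ j - 1 ∣ (q + 1) ^ 2 := Nat.dvd_of_mul_dvd_mul_left (by omega) h
    have h3 : 3 ≤ j := by
      obtain ⟨t, ht⟩ := hj
      omega
    have h4 := Nat.le_of_dvd (by positivity) h2
    rcases Nat.lt_or_ge 2 q with h8 | h8
    · have h5 : q ^ 3 ≤ q ^ j := Nat.pow_le_pow_right (by omega) h3
      have h6 : q ^ 3 = q * q ^ 2 := by ring
      have h7 : 3 * q ^ 2 ≤ q * q ^ 2 := Nat.mul_le_mul_right _ h8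
      have h10 : q ^ j ≤ (q + 1) ^ 2 + 1 := by omega
      nlinarith
    · have h9 : q = 2 := by omega
      subst h9
      rcases Nat.lt_or_ge 3 j with h10 | h10
      · have h5 : 2 ^ 4 ≤ 2 ^ j := Nat.pow_le_pow_right (by omega) h10
        omega
      · have h11 : j = 3 := by omega
        subst h11
        revert h2
        decide

theorem numA' {q m i : ℕ} (hq : 2 ≤ q) (hi : 0 < i) (him : i < m) :
    ¬ q ^ (2 * m) - 1 ∣ (q ^ (2 * i) - 1) * (q + 1) ^ 2 := by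
  intro h
  rcases Nat.lt_or_ge m (2 * i) with h1 | h1
  · refine numA (m := m) (j := 2 * (m - i)) hq ⟨m - i, by ring⟩ (by omega) (by omega) ?_
    have h2 := Dvd.dvd.mul_left h (q ^ (2 * (m - i)))
    have h3 : q ^ (2 * (m - i)) * ((q ^ (2 * i) - 1) * (q + 1) ^ 2) + (q ^ (2 * (m - i)) - 1) * (q + 1) ^ 2
        = (q ^ (2 * m) - 1) * (q + 1) ^ 2 := by
      have h4 : q ^ (2 * m) = q ^ (2 * (m - i)) * q ^ (2 * i) := by rw [← pow_add]; congr 1; omega
      rw [h4]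
      obtain ⟨a, ha⟩ : ∃ a, q ^ (2 * (m - i)) = a + 1 := ⟨q ^ (2 * (m - i)) - 1, by
        have : 1 ≤ q ^ (2 * (m - i)) := Nat.one_le_pow _ _ (by omega)
        omega⟩
      obtain ⟨b, hb⟩ : ∃ b, q ^ (2 * i) = b + 1 := ⟨q ^ (2 * i) - 1, by
        have : 1 ≤ q ^ (2 * i) := Nat.one_le_pow _ _ (by omega)
        omega⟩
      rw [ha, hb, Nat.add_sub_cancel, Nat.add_sub_cancel]
      have : (a + 1) * (b + 1) - 1 = a * b + a + b := by
        have : (a + 1) * (b + 1) = a * b + a + b + 1 := by ring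
        rw [this, Nat.add_sub_cancel]
      rw [this]
      ring
    exact (Nat.dvd_add_right h2).1 (h3 ▸ Dvd.intro _ rfl)
  · exact numA hq ⟨i, by ring⟩ (by omega) h1 h

theorem numB' {q m i : ℕ} (hq : 2 ≤ q) (hm : 2 ≤ m) (him : i < m) :
    ¬ q ^ (2 * m) - 1 ∣ (q ^ (2 * i) + q) * (q + 1) ^ 2 := by
  intro h
  rcases Nat.eq_zero_or_pos i with rfl | hi
  · refine numB (m := m) (j := 1) hq hm odd_one (by omega) ?_
    rw [mul_zero, pow_zero, add_comm] at h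
    rwa [pow_one]
  · obtain ⟨k, rfl⟩ : ∃ k, i = k + 1 := ⟨i - 1, by omega⟩
    have h1 : q ^ (2 * (k + 1)) + q = q * (q ^ (2 * k + 1) + 1) := by ring
    rw [h1, mul_assoc] at h
    have hN : 1 ≤ q ^ (2 * m) := Nat.one_le_pow _ _ (by omega)
    have hcop : Nat.Coprime (q ^ (2 * m) - 1) q := by
      have h2 : Nat.Coprime (q ^ (2 * m) - 1) (q ^ (2 * m)) := by
        have h3 : q ^ (2 * m) = (q ^ (2 * m) - 1) + 1 := by omega
        rw [h3, Nat.add_sub_cancel]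
        exact Nat.coprime_self_add_right.2 (Nat.coprime_one_right _)
      exact Nat.Coprime.coprime_dvd_right (dvd_pow_self q (by omega)) h2
    have h2 := hcop.dvd_of_dvd_mul_left h
    rcases Nat.lt_or_ge m (2 * k + 1) with h4 | h4
    · refine numB (m := m) (j := 2 * (m - k) - 1) hq hm ⟨m - k - 1, by omega⟩ (by omega) ?_
      have h5 := Dvd.dvd.mul_left h2 (q ^ (2 * (m - k) - 1))
      have h6 : q ^ (2 * (m - k) - 1) * ((q ^ (2 * k + 1) + 1) * (q + 1) ^ 2)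
          = (q ^ (2 * m) - 1) * (q + 1) ^ 2 + (q ^ (2 * (m - k) - 1) + 1) * (q + 1) ^ 2 := by
        have h7 : q ^ (2 * m) = q ^ (2 * (m - k) - 1) * q ^ (2 * k + 1) := by rw [← pow_add]; congr 1; omega
        obtain ⟨c, hc⟩ : ∃ c, q ^ (2 * m) = c + 1 := ⟨q ^ (2 * m) - 1, by omega⟩
        rw [← mul_assoc, mul_add, ← h7, hc, Nat.add_sub_cancel]
        ring
      rw [h6] at h5
      exact (Nat.dvd_add_right (Dvd.intro _ rfl)).1 h5
    · exact numB hq hm ⟨k, by ring⟩ h4 h2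

end Cfsg.Agent.H917.CJ.Su
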