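import Cfsg.Agent.H917.CJ.Frame
import Cfsg.Agent.H917.CJ.PsuNum
import Cfsg.Agent.ClassicalGeometry.HermOrthonormal
import Cfsg.Agent.LieClassical.SUBasic

/-!
# The rows `PSU_2m(q)` of S4792

`F = 𝔽_{q²}`, `K = 𝔽_{q^2m}`, `V = K ⊕ K` with the Hermitian form `Tr (a d^q) + (Tr (c b^q))^q`,
`x = (r^{-q}, r)` with `r = ω^{q+1}`, `ω` a generator of `Kˣ`, `A = {(a, b) ↦ (a + u b - u^q b^{q²}, b)}`.
-/

set_option autoImplicit false

open Cfsg Module Matrix

namespace Cfsg.Agent.H917.CJ.Su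

open Cfsg.Agent.H430.Conj Cfsg.Agent.H917.CJ

section tr

variable {F K : Type*} [Field F] [Fintype F] [Field K] [Algebra F K] [Finite K] {q : ℕ}

theorem exists_char (hF : Fintype.card F = q ^ 2) : ∃ p e : ℕ, p.Prime ∧ CharP F p ∧ q = p ^ e := by
  obtain ⟨p, hp⟩ := CharP.exists F
  obtain ⟨n, hpp, hcard⟩ := FiniteField.card F p
  have h1 : q ∣ p ^ (n : ℕ) := by rw [← hcard, hF]; exact dvd_pow_self q (by norm_num)
  obtain ⟨e, -, he⟩ := (Nat.dvd_prime_pow hpp).1 h1
  exact ⟨p, e, hpp, hp, he⟩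

theorem q_pos (hF : Fintype.card F = q ^ 2) : q ≠ 0 := by
  rintro rfl
  have : 0 < Fintype.card F := Fintype.card_pos
  omega

theorem two_le_q (hF : Fintype.card F = q ^ 2) : 2 ≤ q := by
  have h1 : 1 < Fintype.card F := Fintype.one_lt_card
  by_contra h
  have h2 : q ≤ 1 := by omega
  have h3 : q ^ 2 ≤ 1 ^ 2 := Nat.pow_le_pow_left h2 2
  omega

omit [Finite K] in
theorem add_q (hF : Fintype.card F = q ^ 2) (a b : K) : (a + b) ^ q = a ^ q + b ^ q := by
  obtain ⟨p, e, hp, hc, rfl⟩ := exists_char hF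
  have := Fact.mk hp
  have : CharP K p := charP_of_injective_algebraMap (algebraMap F K).injective p
  exact add_pow_char_pow a b p e

omit [Finite K] in
theorem sub_q (hF : Fintype.card F = q ^ 2) (a b : K) : (a - b) ^ q = a ^ q - b ^ q := by
  obtain ⟨p, e, hp, hc, rfl⟩ := exists_char hF
  have := Fact.mk hp
  have : CharP K p := charP_of_injective_algebraMap (algebraMap F K).injective p
  exact sub_pow_char_pow a b e

theorem pow_qq (hF : Fintype.card F = q ^ 2) (a : F) : (a ^ q) ^ q = a := by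
  rw [← pow_mul, ← sq, ← hF]
  exact FiniteField.pow_card a

theorem tr_q (hF : Fintype.card F = q ^ 2) (w : K) :
    Algebra.trace F K (w ^ q) = (Algebra.trace F K w) ^ q := by
  obtain ⟨p, e, hp, hc, rfl⟩ := exists_char hF
  have := Fact.mk hp
  have : CharP K p := charP_of_injective_algebraMap (algebraMap F K).injective p
  apply (algebraMap F K).injective
  rw [map_pow (algebraMap F K), FiniteField.algebraMap_trace_eq_sum_pow, FiniteField.algebraMap_trace_eq_sum_pow,
    sum_pow_char_pow]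
  refine Finset.sum_congr rfl fun i _ => ?_
  rw [← pow_mul, ← pow_mul, mul_comm]

theorem tr_qq (hF : Fintype.card F = q ^ 2) (w : K) :
    Algebra.trace F K ((w ^ q) ^ q) = Algebra.trace F K w := by
  rw [tr_q hF, tr_q hF, pow_qq hF]

/-- The `q`-power map on `F`. -/
noncomputable def sg (hF : Fintype.card F = q ^ 2) : F →+* F where
  toFun a := a ^ q
  map_one' := one_pow q
  map_mul' a b := mul_pow a b q
  map_zero' := zero_pow (q_pos hF)
  map_add' a b := add_q (F := F) (K := F) hF a b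

theorem sg_apply (hF : Fintype.card F = q ^ 2) (a : F) : sg hF a = a ^ q := rfl

theorem sg_sg (hF : Fintype.card F = q ^ 2) (a : F) : sg hF (sg hF a) = a := pow_qq hF a

theorem sg_ne (hF : Fintype.card F = q ^ 2) : sg hF ≠ RingHom.id F := by
  intro h
  have h1 : ∀ a : F, a ^ q = a := fun a => by
    have := DFunLike.congr_fun h a
    rwa [sg_apply, RingHom.id_apply] at this
  have h2q := two_le_q hF
  obtain ⟨g, hg⟩ := IsCyclic.exists_ofOrder_eq_natCard (α := Fˣ)
  rw [Nat.card_units, Nat.card_eq_fintype_card, hF] at hg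
  have h2 : g ^ (q - 1) = 1 := by
    apply Units.ext
    have h3 := h1 g
    have h4 : (g : F) ^ (q - 1) * g = 1 * g := by
      rw [one_mul, ← pow_succ, Nat.sub_add_cancel (by omega), h3]
    have h5 := mul_right_cancel₀ g.ne_zero h4
    rw [Units.val_pow_eq_pow_val, h5, Units.val_one]
  have h3 := Nat.le_of_dvd (by omega) (orderOf_dvd_of_pow_eq_one h2)
  have h4 : q * 2 ≤ q ^ 2 := by rw [sq]; exact Nat.mul_le_mul_left _ h2q
  omega

/-- The Hermitian form, conjugate linear in the first variable. -/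
noncomputable def B (K : Type*) [Field K] [Algebra F K] [Finite K] (hF : Fintype.card F = q ^ 2) :
    (K × K) →ₛₗ[sg hF] (K × K) →ₗ[F] F :=
  LinearMap.mk₂'ₛₗ (sg hF) (RingHom.id F)
    (fun u v => Algebra.trace F K (v.1 * u.2 ^ q) + Algebra.trace F K (u.1 ^ q * (v.2 ^ q) ^ q))
    (fun u u' v => by
      rw [Prod.snd_add, Prod.fst_add, add_q hF, add_q hF, mul_add, add_mul, map_add, map_add]; ring)
    (fun c u v => by
      rw [Prod.smul_snd, Prod.smul_fst, smul_pow, smul_pow, mul_smul_comm, smul_mul_assoc, map_smul, map_smul,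
        sg_apply, smul_add])
    (fun u v v' => by
      rw [Prod.snd_add, Prod.fst_add, add_q hF, add_q hF, mul_add, add_mul, map_add, map_add]; ring)
    (fun c u v => by
      rw [Prod.smul_snd, Prod.smul_fst, smul_pow, smul_pow, mul_smul_comm, smul_mul_assoc, map_smul, map_smul,
        pow_qq hF, RingHom.id_apply, smul_add])

theorem B_apply (hF : Fintype.card F = q ^ 2) (u v : K × K) :
    B K hF u v = Algebra.trace F K (v.1 * u.2 ^ q) + Algebra.trace F K (u.1 ^ q * (v.2 ^ q) ^ q) := rfl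

theorem B_symm (hF : Fintype.card F = q ^ 2) : (B K hF).IsSymm := by
  refine ⟨fun u v => ?_⟩
  rw [sg_apply, B_apply, B_apply, add_q (F := F) (K := F) hF, ← tr_q hF, ← tr_q hF, add_comm]
  congr 1
  · rw [← tr_qq hF (u.1 * v.2 ^ q)]
    congr 1
    simp only [mul_pow]
  · congr 1
    simp only [mul_pow]

theorem exists_root (hF : Fintype.card F = q ^ 2) (z : K) : ∃ z' : K, z' ^ q = z := by
  obtain ⟨p, e, hp, hc, rfl⟩ := exists_char hF
  have := Fact.mk hp
  have : CharP K p := charP_of_injective_algebraMap (algebraMap F K).injective p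
  have hb : Function.Bijective (iterateFrobenius K p e) := by
    rw [← Finite.injective_iff_bijective]
    exact (iterateFrobenius K p e).injective
  obtain ⟨a, ha⟩ := hb.2 z
  exact ⟨a, by rwa [iterateFrobenius_def] at ha⟩

theorem B_sep (hF : Fintype.card F = q ^ 2) : (B K hF).SeparatingLeft := by
  intro u hu
  have hfd : FiniteDimensional F K := Module.Finite.of_finite
  have hq0 := q_pos hF
  have : Algebra.IsSeparable F K := inferInstance
  have hnd := traceForm_nondegenerate F K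
  have h1 : ∀ w : K, (∀ z : K, Algebra.trace F K (w * z) = 0) → w = 0 := fun w hw =>
    hnd.1 w fun z => by rw [Algebra.traceForm_apply]; exact hw z
  have h2 : u.2 ^ q = 0 := by
    apply h1
    intro z
    have := hu (z, 0)
    rw [B_apply] at this
    rwa [zero_pow hq0, zero_pow hq0, mul_zero, map_zero, add_zero, mul_comm] at this
  have h3 : u.1 ^ q = 0 := by
    apply h1
    intro z
    obtain ⟨z₁, hz₁⟩ := exists_root hF z
    obtain ⟨z₂, hz₂⟩ := exists_root hF z₁
    have := hu (0, z₂)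
    rw [B_apply] at this
    rwa [zero_mul, map_zero, zero_add, hz₂, hz₁] at this
  exact Prod.ext (pow_eq_zero_iff hq0 |>.1 h3) (pow_eq_zero_iff hq0 |>.1 h2)

/-- The isometry with the standard space. -/
theorem exists_std {n : ℕ} (hF : Fintype.card F = q ^ 2) (hn : Module.finrank F K + Module.finrank F K = n) :
    ∃ ψ : (K × K) ≃ₗ[F] (Fin n → F), ∀ u v, hermForm n F q (ψ u) (ψ v) = B K hF v u := by
  have : FiniteDimensional F K := Module.Finite.of_finite
  obtain ⟨b, hb⟩ := Cfsg.Agent.ClassicalGeometry.HermOrthonormal.exists_orthonormal_basis (sg_ne hF) (sg_sg hF)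
    (B K hF) (B_symm hF) (B_sep hF)
  have hd : Module.finrank F (K × K) = n := by rw [Module.finrank_prod, hn]
  let b' := b.reindex (finCongr hd)
  have hb' : ∀ i j, B K hF (b' i) (b' j) = if i = j then 1 else 0 := by
    intro i j
    have h1 := hb ((finCongr hd).symm i) ((finCongr hd).symm j)
    simp only [b', Module.Basis.reindex_apply]
    rw [h1]
    simp only [EmbeddingLike.apply_eq_iff_eq]
  refine ⟨b'.equivFun, fun u v => ?_⟩
  conv_rhs => rw [← b'.sum_equivFun u, ← b'.sum_equivFun v]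
  rw [LinearMap.map_sum₂]
  unfold hermForm
  refine Finset.sum_congr rfl fun i _ => ?_
  rw [LinearMap.map_smulₛₗ₂, map_sum]
  have h1 : ∀ j, B K hF (b' i) (b'.equivFun u j • b' j) = if i = j then b'.equivFun u j else 0 := by
    intro j
    rw [map_smul, hb', smul_eq_mul, mul_ite, mul_one, mul_zero]
  rw [Finset.sum_congr rfl fun j _ => h1 j, Finset.sum_ite_eq, if_pos (Finset.mem_univ i), smul_eq_mul, sg_apply,
    mul_comm]

end tr

section su

variable {F K : Type*} [Field F] [Fintype F] [Field K] [Algebra F K] [Finite K] {q n : ℕ}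
  (hF : Fintype.card F = q ^ 2) (ψ : (K × K) ≃ₗ[F] (Fin n → F))

/-- The matrix of an element of `SU`. -/
abbrev mt (g : SU n F q) : Matrix (Fin n) (Fin n) F := ((g : Matrix.SpecialLinearGroup (Fin n) F) : Matrix (Fin n) (Fin n) F)

/-- `SU` acting on `K × K`. -/
noncomputable def suEnd : SU n F q →* Module.End F (K × K) where
  toFun g := (ψ.symm : (Fin n → F) →ₗ[F] (K × K)) ∘ₗ Matrix.toLin' (mt g) ∘ₗ (ψ : (K × K) →ₗ[F] (Fin n → F))
  map_one' := by
    refine LinearMap.ext fun v => ?_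
    simp [mt]
  map_mul' g h := by
    refine LinearMap.ext fun v => ?_
    simp [mt]

omit [Fintype F] [Finite K] in
theorem suEnd_apply (g : SU n F q) (v : K × K) : suEnd ψ g v = ψ.symm (mt g *ᵥ ψ v) := rfl

omit [Fintype F] [Finite K] in
theorem psi_suEnd (g : SU n F q) (v : K × K) : ψ (suEnd ψ g v) = mt g *ᵥ ψ v := by
  rw [suEnd_apply, ψ.apply_symm_apply]

omit [Fintype F] [Finite K] in
theorem suEnd_injective : Function.Injective (suEnd (q := q) ψ) := by
  intro g h hgh
  apply Subtype.ext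
  apply Subtype.ext
  apply Matrix.toLin'.injective
  refine LinearMap.ext fun w => ?_
  have h1 := congrArg (fun T : Module.End F (K × K) => ψ (T (ψ.symm w))) hgh
  simp only [psi_suEnd, ψ.apply_symm_apply] at h1
  exact h1

omit [Fintype F] [Finite K] in
theorem suEnd_apply_injective (g : SU n F q) : Function.Injective (suEnd ψ g) := by
  intro v w h
  have h1 : ∀ v, suEnd ψ g⁻¹ (suEnd ψ g v) = v := by
    intro v
    rw [← Module.End.mul_apply, ← map_mul, inv_mul_cancel, map_one]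
    rfl
  rw [← h1 v, h, h1]

omit [Fintype F] [Finite K] in
theorem mem_center_of_smul {g : SU n F q} {ζ : F} (h : ∀ v, suEnd ψ g v = ζ • v) :
    g ∈ Subgroup.center (SU n F q) := by
  rw [Subgroup.mem_center_iff]
  intro k
  apply suEnd_injective ψ
  rw [map_mul, map_mul]
  refine LinearMap.ext fun v => ?_
  simp only [Module.End.mul_apply, h, map_smul]

omit [Finite K] in
include hF in
theorem smul_of_mem_center (hn : 3 ≤ n) {g : SU n F q} (h : g ∈ Subgroup.center (SU n F q)) :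
    ∃ ζ : F, ζ ^ (q + 1) = 1 ∧ ∀ v, suEnd ψ g v = ζ • v := by
  obtain ⟨c, h1, h2, rfl⟩ := (Cfsg.Agent.LieClassical.SUBasic.mem_center_SU_iff hF hn g).1 h
  refine ⟨c, h2, fun v => ?_⟩
  apply ψ.injective
  rw [psi_suEnd, map_smul]
  change Matrix.diagonal (fun _ => c) *ᵥ ψ v = c • ψ v
  funext i
  rw [Matrix.mulVec_diagonal]
  rfl

variable (hψ : ∀ u v, hermForm n F q (ψ u) (ψ v) = B K hF v u)
include hψ

theorem B_suEnd (g : SU n F q) (u v : K × K) : B K hF (suEnd ψ g u) (suEnd ψ g v) = B K hF u v := by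
  rw [← hψ, ← hψ, psi_suEnd, psi_suEnd]
  exact g.2 _ _

omit hψ [Fintype F] [Finite K] in
theorem conj_mulVec (X : Module.End F (K × K)) (u : Fin n → F) :
    LinearMap.toMatrix' ((ψ : (K × K) →ₗ[F] (Fin n → F)) ∘ₗ X ∘ₗ (ψ.symm : (Fin n → F) →ₗ[F] (K × K))) *ᵥ u
      = ψ (X (ψ.symm u)) := by
  rw [LinearMap.toMatrix'_mulVec]
  rfl

omit hψ [Fintype F] [Finite K] in
theorem conj_det (X : Module.End F (K × K)) :
    Matrix.det (LinearMap.toMatrix' ((ψ : (K × K) →ₗ[F] (Fin n → F)) ∘ₗ X ∘ₗ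
      (ψ.symm : (Fin n → F) →ₗ[F] (K × K)))) = LinearMap.det X := by
  rw [LinearMap.det_toMatrix', LinearMap.det_conj]

/-- Elements of `SU` from isometries of determinant one. -/
theorem exists_su (X : Module.End F (K × K)) (h : ∀ u v, B K hF (X u) (X v) = B K hF u v)
    (hd : LinearMap.det X = 1) : ∃ g : SU n F q, suEnd ψ g = X := by
  let M := LinearMap.toMatrix' ((ψ : (K × K) →ₗ[F] (Fin n → F)) ∘ₗ X ∘ₗ (ψ.symm : (Fin n → F) →ₗ[F] (K × K)))
  have hM : ∀ u, M *ᵥ u = ψ (X (ψ.symm u)) := conj_mulVec ψ X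
  have hdM : M.det = 1 := (conj_det ψ X).trans hd
  let g₀ : Matrix.SpecialLinearGroup (Fin n) F := ⟨M, hdM⟩
  have hg₀ : g₀ ∈ SU n F q := by
    rw [Cfsg.Agent.LieClassical.SUBasic.mem_SU_iff]
    intro u v
    have h1 := hM u
    have h2 := hM v
    have e1 : (g₀ : Matrix (Fin n) (Fin n) F) *ᵥ u = ψ (X (ψ.symm u)) := h1
    have e2 : (g₀ : Matrix (Fin n) (Fin n) F) *ᵥ v = ψ (X (ψ.symm v)) := h2
    rw [e1, e2, hψ, h, ← hψ, ψ.apply_symm_apply, ψ.apply_symm_apply]
  refine ⟨⟨g₀, hg₀⟩, ?_⟩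
  refine LinearMap.ext fun v => ?_
  rw [suEnd_apply]
  have h3 : mt (⟨g₀, hg₀⟩ : SU n F q) *ᵥ ψ v = ψ (X (ψ.symm (ψ v))) := hM (ψ v)
  rw [h3, ψ.symm_apply_apply, ψ.symm_apply_apply]

/-- Elements of `SU` from isometries of determinant one. -/
noncomputable def suMk (X : Module.End F (K × K)) (h : ∀ u v, B K hF (X u) (X v) = B K hF u v)
    (hd : LinearMap.det X = 1) : SU n F q := (exists_su hF ψ hψ X h hd).choose

theorem suEnd_suMk (X : Module.End F (K × K)) (h : ∀ u v, B K hF (X u) (X v) = B K hF u v)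
    (hd : LinearMap.det X = 1) : suEnd ψ (suMk hF ψ hψ X h hd) = X :=
  (exists_su hF ψ hψ X h hd).choose_spec

end su

section uni

variable {F K : Type*} [Field F] [Fintype F] [Field K] [Algebra F K] [Finite K] {q n : ℕ}
  (hF : Fintype.card F = q ^ 2)

/-- `b ↦ u b - u^q b^{q²}`. -/
noncomputable def tw (u : K) : K →ₗ[F] K where
  toFun b := u * b - u ^ q * (b ^ q) ^ q
  map_add' a b := by
    rw [add_q hF, add_q hF]; ring
  map_smul' c b := by
    rw [smul_pow, smul_pow, pow_qq hF, mul_smul_comm, mul_smul_comm, ← smul_sub]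
    rfl

omit [Finite K] in
theorem tw_apply (u b : K) : tw hF u b = u * b - u ^ q * (b ^ q) ^ q := rfl

/-- The unipotent map `(k, l) ↦ (k + T_u l, l)`. -/
noncomputable def uni (u : K) : Module.End F (K × K) :=
  LinearMap.id + (LinearMap.inl F K K) ∘ₗ (tw hF u) ∘ₗ (LinearMap.snd F K K)

omit [Finite K] in
theorem uni_apply (u : K) (v : K × K) : uni hF u v = (v.1 + tw hF u v.2, v.2) := by
  simp [uni, Prod.ext_iff]

omit [Finite K] in
theorem tw_add (u v b : K) : tw hF (u + v) b = tw hF u b + tw hF v b := by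
  rw [tw_apply, tw_apply, tw_apply, add_q hF]; ring

omit [Finite K] in
theorem tw_zero (b : K) : tw hF 0 b = 0 := by
  rw [tw_apply, zero_pow (q_pos hF)]; ring

omit [Finite K] in
theorem uni_mul (u v : K) : uni hF (u + v) = uni hF u * uni hF v := by
  refine LinearMap.ext fun w => ?_
  rw [Module.End.mul_apply, uni_apply, uni_apply, uni_apply, tw_add]
  simp only [Prod.mk.injEq, and_true]
  ring

omit [Finite K] in
theorem uni_zero : uni hF (0 : K) = 1 := by
  refine LinearMap.ext fun w => ?_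
  rw [uni_apply, tw_zero]
  simp

omit [Finite K] in
theorem det_uni (u : K) : LinearMap.det (uni hF u) = 1 := by
  refine eq_one_of_add (F := F) (fun u : K => LinearMap.det (uni hF u)) ?_ ?_ u
  · rw [uni_zero, map_one]
  · intro u v
    rw [uni_mul, map_mul]

theorem B_uni (u : K) (v w : K × K) : B K hF (uni hF u v) (uni hF u w) = B K hF v w := by
  rw [B_apply, B_apply, uni_apply, uni_apply]
  simp only
  have h1 : (tw hF u v.2) ^ q = u ^ q * v.2 ^ q - (u ^ q) ^ q * ((v.2 ^ q) ^ q) ^ q := by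
    rw [tw_apply, sub_q hF, mul_pow, mul_pow]
  rw [add_q hF, add_mul, add_mul, map_add, map_add, h1, tw_apply]
  have h2 : Algebra.trace F K ((u * w.2 - u ^ q * (w.2 ^ q) ^ q) * v.2 ^ q)
      + Algebra.trace F K ((u ^ q * v.2 ^ q - (u ^ q) ^ q * ((v.2 ^ q) ^ q) ^ q) * (w.2 ^ q) ^ q) = 0 := by
    have h3 : (u ^ q * v.2 ^ q - (u ^ q) ^ q * ((v.2 ^ q) ^ q) ^ q) * (w.2 ^ q) ^ q
        = u ^ q * v.2 ^ q * (w.2 ^ q) ^ q - ((u * v.2 ^ q * w.2) ^ q) ^ q := by
      simp only [mul_pow]; ring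
    have h4 : (u * w.2 - u ^ q * (w.2 ^ q) ^ q) * v.2 ^ q
        = u * v.2 ^ q * w.2 - u ^ q * v.2 ^ q * (w.2 ^ q) ^ q := by ring
    rw [h3, h4, map_sub, map_sub, tr_qq hF]
    ring
  linear_combination h2

/-- The torus element `(r^{-q}, r)`. -/
noncomputable def tor (q : ℕ) (r : K) : Module.End F (K × K) :=
  LinearMap.prodMap (LinearMap.mulLeft F (r ^ q)⁻¹) (LinearMap.mulLeft F r)

omit [Fintype F] [Finite K] in
theorem tor_apply (r : K) (v : K × K) : tor (F := F) q r v = ((r ^ q)⁻¹ * v.1, r * v.2) := rfl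

theorem B_tor {r : K} (hr : r ≠ 0) (v w : K × K) :
    B K hF (tor (F := F) q r v) (tor (F := F) q r w) = B K hF v w := by
  rw [B_apply, B_apply, tor_apply, tor_apply]
  simp only
  have h1 : (r ^ q)⁻¹ * w.1 * (r * v.2) ^ q = w.1 * v.2 ^ q := by
    rw [mul_pow]
    field_simp
  have h2 : ((r ^ q)⁻¹ * v.1) ^ q * ((r * w.2) ^ q) ^ q = v.1 ^ q * (w.2 ^ q) ^ q := by
    rw [mul_pow, mul_pow, mul_pow, inv_pow]
    field_simp
  rw [h1, h2]

omit [Fintype F] in
theorem det_tor [Module.Finite F K] {r : K} (hr : r ≠ 0) (hN : (Algebra.norm F r) ^ q = Algebra.norm F r) :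
    LinearMap.det (tor (F := F) q r) = 1 := by
  rw [tor, LinearMap.det_prodMap]
  have h1 : ∀ s : K, LinearMap.det (LinearMap.mulLeft F s) = Algebra.norm F s := fun s => rfl
  have h2 : r ^ q ≠ 0 := pow_ne_zero _ hr
  rw [h1, h1]
  calc Algebra.norm F (r ^ q)⁻¹ * Algebra.norm F r = Algebra.norm F (r ^ q)⁻¹ * Algebra.norm F r ^ q := by rw [hN]
    _ = Algebra.norm F ((r ^ q)⁻¹ * r ^ q) := by rw [map_mul, map_pow]
    _ = 1 := by rw [inv_mul_cancel₀ h2, map_one]

end uni

end Cfsg.Agent.H917.CJ.Su
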