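import Cfsg.Agent.H917.CJ.PsuOddMain

/-!
# The rows `PSU_n(q)`, `n ≥ 4`, of S4792
-/

set_option autoImplicit false

open Cfsg Module Matrix

namespace Cfsg.Agent.H917.CJ

open Cfsg.Agent.H430.Conj

/-- Rows `PSU_n(q)`, `n ≥ 4`, `n` not coprime to `2 (q + 1)`. -/
theorem row_psu {S : Type*} [Group S] [Finite S] (hs : IsSimpleGroup S) {F : Type*} [Field F] [Fintype F] {n q : ℕ}
    (hF : Fintype.card F = q ^ 2) (hn : 4 ≤ n) (hex : ¬ Nat.Coprime n (2 * (q + 1))) (e : S ≃* PSU n F q) :
    Row S := by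
  have hfin : Finite (PSU n F q) := Finite.of_equiv _ e.toEquiv
  have hnt : Nontrivial (PSU n F q) := e.symm.toEquiv.nontrivial
  have hs' : IsSimpleGroup (PSU n F q) := IsSimpleGroup.isSimpleGroup_of_surjective e.toMonoidHom e.surjective
  rcases Nat.even_or_odd n with h | h
  · obtain ⟨m, rfl⟩ := h
    have h1 : m + m = 2 * m := by ring
    rw [h1] at e hs' hfin hn
    exact ((frob_psu_even hF (by omega)).of_equiv e.symm).row
  · obtain ⟨m, rfl⟩ := h
    have hd : 1 < Nat.gcd (2 * m + 1) (q + 1) := by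
      by_contra hle
      apply hex
      apply Nat.Coprime.mul_right
      · exact (Nat.coprime_two_right).2 ⟨m, rfl⟩
      · have hpos : 0 < Nat.gcd (2 * m + 1) (q + 1) := Nat.gcd_pos_of_pos_left _ (by omega)
        rw [Nat.coprime_iff_gcd_eq_one]
        omega
    exact Row.of_equiv e.symm (SuO.row_psu_odd hF (by omega) hd hs')

end Cfsg.Agent.H917.CJ
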