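import Cfsg.Agent.H917.CJ.Psu

/-!
# The rows `PSU_2m(q)` of S4792: the Frobenius group
-/

set_option autoImplicit false

open Cfsg Module Matrix

namespace Cfsg.Agent.H917.CJ.Su

open Cfsg.Agent.H430.Conj Cfsg.Agent.H917.CJ

section main

variable {F K : Type*} [Field F] [Fintype F] [Field K] [Algebra F K] [Finite K] {q n : ℕ}
  (hF : Fintype.card F = q ^ 2)

include hF in
/-- Criterion F for `PSU_2m(q)`. -/
theorem frob_of_gen (hn : Module.finrank F K + Module.finrank F K = n) (hn3 : 3 ≤ n) {r : K} (hr0 : r ≠ 0)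
    (hN : (Algebra.norm F r) ^ q = Algebra.norm F r) (hgen : Algebra.adjoin F {r} = ⊤)
    (hbig : ∃ w : K, (w ^ q) ^ q ≠ w)
    (hA : ∀ ζ : F, ζ ^ (q + 1) = 1 → ∀ θ : K ≃ₐ[F] K, θ r = algebraMap F K ζ * r → ζ = 1)
    (hB : ∀ ζ : F, ζ ^ (q + 1) = 1 → ∀ θ : K ≃ₐ[F] K, θ r * r ^ q ≠ algebraMap F K ζ) : FrobCent (PSU n F q) := by
  classical
  obtain ⟨ψ, hψ⟩ := exists_std (K := K) hF hn
  have hfd : Module.Finite F K := Module.Finite.of_finite
  have hq0 := q_pos hF
  have hrq : r ^ q ≠ 0 := pow_ne_zero _ hr0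
  -- injectivity of `u ↦ T_u`
  have htw : ∀ u : K, (∀ b, tw hF u b = 0) → u = 0 := by
    intro u hu
    by_contra hne
    obtain ⟨w, hw⟩ := hbig
    have h1 := hu 1
    rw [tw_apply, one_pow, one_pow, mul_one, mul_one, sub_eq_zero] at h1
    have h2 := hu w
    rw [tw_apply, ← h1, ← mul_sub] at h2
    rcases mul_eq_zero.1 h2 with h3 | h3
    · exact hne h3
    · exact hw (sub_eq_zero.1 h3).symm
  let x := suMk hF ψ hψ (tor q r) (B_tor hF hr0) (det_tor hr0 hN)
  have hx : ∀ v, suEnd ψ x v = ((r ^ q)⁻¹ * v.1, r * v.2) := by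
    intro v
    rw [suEnd_suMk]
    rfl
  let U : K → SU n F q := fun u => suMk hF ψ hψ (uni hF u) (B_uni hF u) (det_uni hF u)
  have hU : ∀ u, suEnd ψ (U u) = uni hF u := fun u => suEnd_suMk hF ψ hψ _ (B_uni hF u) (det_uni hF u)
  let UH : Multiplicative K →* SU n F q :=
    { toFun := fun u => U u.toAdd
      map_one' := by
        apply suEnd_injective ψ
        rw [hU, MonoidHom.map_one (suEnd ψ)]
        exact uni_zero hF
      map_mul' := by
        intro u v
        apply suEnd_injective ψ
        rw [MonoidHom.map_mul (suEnd ψ), hU, hU, hU]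
        exact uni_mul hF _ _ }
  have hUH : ∀ u : Multiplicative K, suEnd ψ (UH u) = uni hF u.toAdd := fun u => hU _
  -- `s = r^{-q}` generates `K` as well
  have hsgen : Algebra.adjoin F {(r ^ q)⁻¹} = ⊤ := by
    rw [eq_top_iff, ← hgen, Algebra.adjoin_le_iff]
    intro y hy
    rw [Set.mem_singleton_iff] at hy
    rw [hy]
    -- `r` is a power of `r ^ q`, hence of its inverse
    have hfin : Finite Kˣ := inferInstance
    have h1 : ∃ k : ℕ, ((r ^ q)⁻¹) ^ k = r := by
      obtain ⟨p, e, hp, hc, hqe⟩ := exists_char hF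
      have := Fact.mk hp
      have : CharP K p := charP_of_injective_algebraMap (algebraMap F K).injective p
      let R : Kˣ := Units.mk0 r hr0
      have hcop : Nat.Coprime (orderOf R) q := by
        rw [hqe]
        apply Nat.Coprime.pow_right
        rw [Nat.coprime_comm, hp.coprime_iff_not_dvd]
        intro hdvd
        have h2 : p ∣ Nat.card Kˣ := hdvd.trans (orderOf_dvd_natCard R)
        have : Fintype K := Fintype.ofFinite K
        rw [Nat.card_units, Nat.card_eq_fintype_card] at h2
        have h3 : p ∣ Fintype.card K := by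
          obtain ⟨k, -, hk⟩ := FiniteField.card K p
          rw [hk]
          exact dvd_pow_self p k.2.ne'
        have h4 : p ∣ 1 := by
          have h5 : 1 ≤ Fintype.card K := Fintype.card_pos
          have h6 : Fintype.card K - (Fintype.card K - 1) = 1 := by omega
          rw [← h6]
          exact Nat.dvd_sub h3 h2
        exact hp.one_lt.ne' (Nat.dvd_one.1 h4)
      have h2 : R ∈ Submonoid.powers (R ^ q)⁻¹ := by
        rw [mem_powers_iff_mem_zpowers, Subgroup.zpowers_inv]
        have h3 : Subgroup.zpowers (R ^ q) = Subgroup.zpowers R := by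
          apply Subgroup.eq_of_le_of_card_ge
          · rw [Subgroup.zpowers_le]
            exact Subgroup.pow_mem _ (Subgroup.mem_zpowers R) q
          · rw [Nat.card_zpowers, Nat.card_zpowers, hcop.orderOf_pow]
        rw [h3]
        exact Subgroup.mem_zpowers R
      obtain ⟨k, hk⟩ := (Submonoid.mem_powers_iff _ _).1 h2
      refine ⟨k, ?_⟩
      have h3 := congrArg Units.val hk
      simpa [R] using h3
    obtain ⟨k, hk⟩ := h1
    have h2 : ((r ^ q)⁻¹) ^ k ∈ Algebra.adjoin F {(r ^ q)⁻¹} :=
      Subalgebra.pow_mem (Algebra.adjoin F {(r ^ q)⁻¹}) (Algebra.subset_adjoin (Set.mem_singleton _)) k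
    rwa [hk] at h2
  have key : ∀ c z : SU n F q, z ∈ Subgroup.center (SU n F q) → c * x = z * (x * c) →
      ∃ a a' : K, a * a' ^ q = 1 ∧ ∀ v, suEnd ψ c v = (a * v.1, a' * v.2) := by
    intro c z hz hcx
    obtain ⟨ζ, hζ2, hζ⟩ := smul_of_mem_center hF ψ hn3 hz
    have hζ0 : ζ ≠ 0 := by
      rintro rfl
      rw [zero_pow (by omega)] at hζ2
      exact zero_ne_one hζ2
    have hζK : algebraMap F K ζ ≠ 0 := by rwa [Ne, map_eq_zero]
    have hζq : (algebraMap F K ζ) ^ q = (algebraMap F K ζ)⁻¹ := by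
      apply eq_inv_of_mul_eq_one_left
      rw [← pow_succ, ← map_pow, hζ2, map_one]
    have hζi2 : ζ⁻¹ ^ (q + 1) = 1 := by rw [inv_pow, hζ2, inv_one]
    have e0 : ∀ v, suEnd ψ c (suEnd ψ x v) = ζ • suEnd ψ x (suEnd ψ c v) := by
      intro v
      have := congrArg (fun g => suEnd ψ g v) hcx
      simp only [map_mul, Module.End.mul_apply, hζ] at this
      exact this
    have hcinj := suEnd_apply_injective ψ c
    let T11 : K →ₗ[F] K := LinearMap.fst F K K ∘ₗ suEnd ψ c ∘ₗ LinearMap.inl F K K
    let T21 : K →ₗ[F] K := LinearMap.snd F K K ∘ₗ suEnd ψ c ∘ₗ LinearMap.inl F K K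
    let T12 : K →ₗ[F] K := LinearMap.fst F K K ∘ₗ suEnd ψ c ∘ₗ LinearMap.inr F K K
    let T22 : K →ₗ[F] K := LinearMap.snd F K K ∘ₗ suEnd ψ c ∘ₗ LinearMap.inr F K K
    have hT1 : ∀ k : K, suEnd ψ c (k, 0) = (T11 k, T21 k) := fun k => rfl
    have hT2 : ∀ k : K, suEnd ψ c (0, k) = (T12 k, T22 k) := fun k => rfl
    have a1 : ∀ k, T11 ((r ^ q)⁻¹ * k) = (algebraMap F K ζ * (r ^ q)⁻¹) * T11 k ∧
        T21 ((r ^ q)⁻¹ * k) = (algebraMap F K ζ * r) * T21 k := by
      intro k
      have := e0 (k, 0)
      rw [hx, hx] at this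
      simp only [mul_zero] at this
      rw [hT1, hT1] at this
      refine ⟨?_, ?_⟩
      · have h := congrArg Prod.fst this
        simp only [Prod.smul_fst] at h
        rw [h, Algebra.smul_def, mul_assoc]
      · have h := congrArg Prod.snd this
        simp only [Prod.smul_snd] at h
        rw [h, Algebra.smul_def, mul_assoc]
    have a2 : ∀ k, T12 (r * k) = (algebraMap F K ζ * (r ^ q)⁻¹) * T12 k ∧
        T22 (r * k) = (algebraMap F K ζ * r) * T22 k := by
      intro k
      have := e0 (0, k)
      rw [hx, hx] at this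
      simp only [mul_zero] at this
      rw [hT2, hT2] at this
      refine ⟨?_, ?_⟩
      · have h := congrArg Prod.fst this
        simp only [Prod.smul_fst] at h
        rw [h, Algebra.smul_def, mul_assoc]
      · have h := congrArg Prod.snd this
        simp only [Prod.smul_snd] at h
        rw [h, Algebra.smul_def, mul_assoc]
    -- off-diagonal blocks vanish
    have hT12 : T12 = 0 := by
      by_contra hne
      obtain ⟨θ, hθ, _⟩ := conj_gen hgen T12 hne fun k => (a2 k).1
      apply hB ζ hζ2 θ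
      rw [hθ, mul_assoc, inv_mul_cancel₀ hrq, mul_one]
    have hT21 : T21 = 0 := by
      by_contra hne
      obtain ⟨θ, hθ, _⟩ := conj_gen hsgen T21 hne fun k => (a1 k).2
      apply hB ζ⁻¹ hζi2 θ.symm
      -- `θ (r^{-q}) = ζ r`, so `r^{-q} = ζ θ⁻¹(r)`
      have h1 : (r ^ q)⁻¹ = algebraMap F K ζ * θ.symm r := by
        have h2 := congrArg θ.symm hθ
        rw [AlgEquiv.symm_apply_apply, map_mul, AlgEquiv.commutes] at h2
        exact h2
      have h3 : θ.symm r = (algebraMap F K ζ)⁻¹ * (r ^ q)⁻¹ := by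
        rw [h1, ← mul_assoc, inv_mul_cancel₀ hζK, one_mul]
      rw [h3, mul_assoc, inv_mul_cancel₀ hrq, mul_one, map_inv₀]
    have hT22 : T22 ≠ 0 := by
      intro h
      have : suEnd ψ c ((0 : K), (1 : K)) = suEnd ψ c 0 := by
        rw [map_zero, hT2, h, hT12]; rfl
      have := hcinj this
      simp at this
    obtain ⟨θ, hθ, _⟩ := conj_gen hgen T22 hT22 fun k => (a2 k).2
    have hζ1 : ζ = 1 := hA ζ hζ2 θ hθ
    subst hζ1
    simp only [map_one, one_mul] at a1 a2
    have b1 : ∀ k, T11 k = T11 1 * k := comm_gen hsgen T11 fun k => (a1 k).1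
    have b2 : ∀ k, T22 k = T22 1 * k := comm_gen hgen T22 fun k => (a2 k).2
    have hC : ∀ v, suEnd ψ c v = (T11 1 * v.1, T22 1 * v.2) := by
      intro v
      have hv : v = (v.1, 0) + (0, v.2) := by ext <;> simp
      conv_lhs => rw [hv]
      rw [map_add, hT1, hT2, hT21, hT12, b1, b2]
      simp
    refine ⟨T11 1, T22 1, ?_, hC⟩
    have hnd := traceForm_nondegenerate F K
    have h5 : ∀ l : K, Algebra.traceForm F K (T11 1 * T22 1 ^ q - 1) l = 0 := by
      intro l
      have h6 := B_suEnd hF ψ hψ c (0, 1) (l, 0)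
      rw [hC, hC, B_apply, B_apply] at h6
      simp only [mul_one, mul_zero, zero_pow hq0, add_zero, one_pow, map_zero] at h6
      rw [Algebra.traceForm_apply, sub_mul, map_sub, one_mul, sub_eq_zero, ← h6]
      congr 1
      ring
    have h7 := hnd.1 _ h5
    exact sub_eq_zero.1 h7
  have hconj : ∀ (c : SU n F q) (a a' : K), a * a' ^ q = 1 →
      (∀ v, suEnd ψ c v = (a * v.1, a' * v.2)) → ∀ u : K,
      c * UH (Multiplicative.ofAdd u) = UH (Multiplicative.ofAdd (a * a'⁻¹ * u)) * c := by
    intro c a a' haa hc u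
    apply suEnd_injective ψ
    rw [map_mul, map_mul, hUH, hUH]
    refine LinearMap.ext fun v => ?_
    rw [Module.End.mul_apply, Module.End.mul_apply, hc, hc, uni_apply, uni_apply]
    simp only [toAdd_ofAdd, Prod.mk.injEq, and_true]
    have ha' : a' ≠ 0 := by
      rintro rfl
      rw [zero_pow hq0, mul_zero] at haa
      exact zero_ne_one haa
    have haq : a = (a' ^ q)⁻¹ := eq_inv_of_mul_eq_one_left haa
    rw [tw_apply, tw_apply, mul_add, add_right_inj, haq]
    simp only [mul_pow, inv_pow]
    field_simp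
  have hUinj : ∀ u v : Multiplicative K, UH u = UH v → u = v := by
    intro u v h
    have h1 : ∀ b, tw hF u.toAdd b = tw hF v.toAdd b := by
      intro b
      have h2 := congrArg (fun g => (suEnd ψ g (0, b)).1) h
      simp only [hUH, uni_apply, zero_add] at h2
      exact h2
    have h3 : u.toAdd - v.toAdd = 0 := by
      apply htw
      intro b
      rw [tw_apply, sub_q hF]
      have h4 := h1 b
      rw [tw_apply, tw_apply] at h4
      linear_combination h4
    have h5 : u.toAdd = v.toAdd := sub_eq_zero.1 h3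
    exact h5
  refine frob_quot _ x UH.range ?_ ?_ ?_ ?_
  · intro h0
    have e1 : UH (Multiplicative.ofAdd (1 : K)) ∈ UH.range := ⟨_, rfl⟩
    rw [h0, Subgroup.mem_bot, ← map_one UH] at e1
    have e2 := hUinj _ _ e1
    have e3 : (1 : K) = 0 := e2
    exact one_ne_zero e3
  · rintro _ ⟨u, rfl⟩ _ ⟨v, rfl⟩
    rw [← map_mul, ← map_mul, mul_comm]
  · rintro _ ⟨u, rfl⟩ hu
    obtain ⟨ζ, -, hζ⟩ := smul_of_mem_center hF ψ hn3 hu
    have h1 : ∀ b, tw hF u.toAdd b = 0 := by
      intro b
      have e2 := hζ (0, b)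
      rw [hUH, uni_apply] at e2
      have e4 := congrArg Prod.fst e2
      simpa using e4
    have h2 := htw _ h1
    have h3 : u = 1 := h2
    rw [h3, map_one]
  · intro c z hz hcx
    obtain ⟨a, a', haa, hc⟩ := key c z hz hcx
    constructor
    · rintro _ ⟨u, rfl⟩
      refine ⟨Multiplicative.ofAdd (a * a'⁻¹ * u.toAdd), ?_⟩
      rw [eq_mul_inv_iff_mul_eq]
      exact (hconj c a a' haa hc u.toAdd).symm
    · rintro _ ⟨u, rfl⟩ hcu
      have e1 := hconj c a a' haa hc u.toAdd
      rw [ofAdd_toAdd, hcu] at e1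
      have e2 := hUinj _ _ (mul_right_cancel e1)
      have e3 : u.toAdd = a * a'⁻¹ * u.toAdd := e2
      have ha' : a' ≠ 0 := by
        rintro rfl
        rw [zero_pow hq0, mul_zero] at haa
        exact zero_ne_one haa
      by_cases hu : u.toAdd = 0
      · left
        rw [← ofAdd_toAdd u, hu]
        exact map_one UH
      · right
        have e4 : a * a'⁻¹ = 1 := by
          apply mul_right_cancel₀ hu
          rw [one_mul, ← e3]
        have e5 : a = a' := by
          rw [mul_inv_eq_one₀ ha'] at e4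
          exact e4
        -- `a` lies in `F`
        have e6 : a ^ (q + 1) = 1 := by rw [pow_succ']; nth_rewrite 2 [e5]; exact haa
        have e7 : ∃ ζ : F, algebraMap F K ζ = a := by
          have e8 : a ^ Fintype.card F = a := by
            rw [hF]
            have h2q := two_le_q hF
            have e9 : q ^ 2 = (q + 1) * (q - 1) + 1 := by
              obtain ⟨d, rfl⟩ : ∃ d, q = d + 1 := ⟨q - 1, by omega⟩
              rw [Nat.add_sub_cancel]; ring
            rw [e9, pow_succ, pow_mul, e6, one_pow, one_mul]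
          have e9 : ∀ i : ℕ, a ^ (Nat.card F ^ i) = a := by
            intro i
            induction i with
            | zero => rw [pow_zero, pow_one]
            | succ i ih => rw [pow_succ, pow_mul, ih, Nat.card_eq_fintype_card, e8]
          have e10 : a ∈ (⊥ : IntermediateField F K) := by
            rw [IsGalois.mem_bot_iff_fixed]
            intro θ
            obtain ⟨i, hi⟩ := aut_eq_pow θ
            rw [hi, e9]
          exact IntermediateField.mem_bot.1 e10
        obtain ⟨ζ, hζ⟩ := e7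
        apply mem_center_of_smul ψ (ζ := ζ)
        intro v
        rw [hc, ← e5, ← hζ, ← Algebra.smul_def, ← Algebra.smul_def]
        rfl

end main

end Cfsg.Agent.H917.CJ.Su
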