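import Cfsg.Agent.H917.CJ.PsuMain
import Cfsg.Agent.H917.CJ.Psp
import Cfsg.Agent.S0822

/-!
# The rows `PSU_2m(q)` and `PSp_2m(q)` of S4792
-/

set_option autoImplicit false

open Cfsg Module Matrix

namespace Cfsg.Agent.H917.CJ

open Cfsg.Agent.H430.Conj

/-- A generator criterion for extensions of finite fields. -/
theorem adjoin_of_pow {F K : Type*} [Field F] [Finite F] [Field K] [Algebra F K] [Finite K] (r : K)
    (h : ∀ i, 0 < i → i < Module.finrank F K → r ^ (Nat.card F ^ i) ≠ r) : Algebra.adjoin F {r} = ⊤ := by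
  have hfd : Module.Finite F K := Module.Finite.of_finite
  have hint : IsIntegral F r := Algebra.IsIntegral.isIntegral r
  have h1 : IntermediateField.adjoin F {r} = ⊤ := by
    by_contra hne
    set L := IntermediateField.adjoin F {r} with hL
    have hlt : Module.finrank F L < Module.finrank F K := by
      refine lt_of_le_of_ne (Submodule.finrank_le (Subalgebra.toSubmodule L.toSubalgebra)) fun he => ?_
      apply hne
      apply IntermediateField.toSubalgebra_injective
      apply Subalgebra.toSubmodule_injective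
      exact Submodule.eq_top_of_finrank_eq he
    have hpos : 0 < Module.finrank F L := Module.finrank_pos
    have hLfin : Finite L := inferInstance
    have := Fintype.ofFinite L
    have h2 : Nat.card L = Nat.card F ^ Module.finrank F L := Module.natCard_eq_pow_finrank
    have hr : r ∈ L := IntermediateField.mem_adjoin_simple_self F r
    have h3 : (⟨r, hr⟩ : L) ^ Fintype.card L = ⟨r, hr⟩ := FiniteField.pow_card _
    rw [← Nat.card_eq_fintype_card, h2] at h3
    exact h _ hpos hlt (congrArg Subtype.val h3)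
  rw [← IntermediateField.adjoin_simple_toSubalgebra_of_isAlgebraic hint.isAlgebraic, h1]
  rfl

theorem frob_psu_even {F : Type*} [Field F] [Fintype F] {q m : ℕ} (hF : Fintype.card F = q ^ 2) (hm : 2 ≤ m) :
    FrobCent (PSU (2 * m) F q) := by
  obtain ⟨K, _, _, _, hK⟩ := exists_ext F m (by omega)
  have hfd : Module.Finite F K := Module.Finite.of_finite
  have := Fintype.ofFinite K
  have hq2 := Su.two_le_q hF
  obtain ⟨ω, hω⟩ := IsCyclic.exists_generator (α := Kˣ)
  have hcF : Nat.card F = q ^ 2 := by rw [Nat.card_eq_fintype_card, hF]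
  have hord : orderOf ω = q ^ (2 * m) - 1 := by
    rw [orderOf_eq_card_of_forall_mem_zpowers hω, Nat.card_units, Module.natCard_eq_pow_finrank (K := F), hK, hcF,
      ← pow_mul]
  have hω0 : (ω : K) ≠ 0 := ω.ne_zero
  have hωpow : ∀ k : ℕ, (ω : K) ^ k = 1 → q ^ (2 * m) - 1 ∣ k := by
    intro k hk
    rw [← hord]
    apply orderOf_dvd_of_pow_eq_one
    ext
    simpa using hk
  let r : K := (ω : K) ^ (q + 1)
  have hr0 : r ≠ 0 := pow_ne_zero _ hω0
  have hcard : ∀ i, Nat.card F ^ i = q ^ (2 * i) := fun i => by rw [hcF, ← pow_mul]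
  have hone : ∀ i, 1 ≤ q ^ (2 * i) := fun i => Nat.one_le_pow _ _ (by omega)
  have hrpow : ∀ (i : ℕ) (ζ : F), ζ ^ (q + 1) = 1 → r ^ (q ^ (2 * i)) = algebraMap F K ζ * r →
      q ^ (2 * m) - 1 ∣ (q ^ (2 * i) - 1) * (q + 1) ^ 2 := by
    intro i ζ hζ hi
    apply hωpow
    have h1 : r ^ (q ^ (2 * i) - 1) = algebraMap F K ζ := by
      apply mul_right_cancel₀ hr0
      rw [← hi, ← pow_succ, Nat.sub_add_cancel (hone i)]
    have h2 : (r ^ (q ^ (2 * i) - 1)) ^ (q + 1) = 1 := by rw [h1, ← map_pow, hζ, map_one]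
    rw [← h2, ← pow_mul, ← pow_mul]
    congr 1
    ring
  refine Su.frob_of_gen (K := K) hF (r := r) (by rw [hK]; omega) (by omega) hr0 ?_ ?_ ?_ ?_ ?_
  · change (Algebra.norm F ((ω : K) ^ (q + 1))) ^ q = Algebra.norm F ((ω : K) ^ (q + 1))
    rw [map_pow, pow_succ, mul_pow, Su.pow_qq hF, mul_comm]
  · apply adjoin_of_pow
    intro i hi him h
    rw [hK] at him
    rw [hcard] at h
    exact Su.numA' hq2 hi him (hrpow i 1 (one_pow _) (by rw [map_one, one_mul, h]))
  · refine ⟨ω, fun h => ?_⟩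
    rw [← pow_mul] at h
    have h1 : (ω : K) ^ (q * q - 1) = 1 := by
      apply mul_right_cancel₀ hω0
      rw [← pow_succ, Nat.sub_add_cancel (by nlinarith), h, one_mul]
    have h2 := Nat.le_of_dvd (by nlinarith [Nat.sub_add_cancel (show 1 ≤ q * q by nlinarith)]) (hωpow _ h1)
    have h3 : q ^ (2 * 2) ≤ q ^ (2 * m) := Nat.pow_le_pow_right (by omega) (by omega)
    have h4 : q ^ (2 * 2) = (q * q) * (q * q) := by ring
    have h5 : q * q * 2 ≤ (q * q) * (q * q) := Nat.mul_le_mul_left _ (by nlinarith)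
    have h6 : 4 ≤ q * q := by nlinarith
    omega
  · intro ζ hζ θ hθ
    obtain ⟨i, hi, hθi⟩ := aut_eq_pow_lt θ
    rw [hK] at hi
    rw [hθi, hcard] at hθ
    rcases Nat.eq_zero_or_pos i with rfl | hi0
    · rw [mul_zero, pow_zero, pow_one] at hθ
      have h1 : algebraMap F K ζ = 1 := by
        apply mul_right_cancel₀ hr0
        rw [one_mul, ← hθ]
      exact (map_eq_one_iff _ (algebraMap F K).injective).1 h1
    · exact absurd (hrpow i ζ hζ hθ) (Su.numA' hq2 hi0 hi)
  · intro ζ hζ θ hθ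
    obtain ⟨i, hi, hθi⟩ := aut_eq_pow_lt θ
    rw [hK] at hi
    rw [hθi, hcard, ← pow_add] at hθ
    refine Su.numB' hq2 hm hi (hωpow _ ?_)
    have h2 : (r ^ (q ^ (2 * i) + q)) ^ (q + 1) = 1 := by rw [hθ, ← map_pow, hζ, map_one]
    rw [← h2, ← pow_mul, ← pow_mul]
    congr 1
    ring

/-- Row `PSU_2m(q)` of S4792. -/
theorem row_psu_even {F : Type*} [Field F] [Fintype F] {q m : ℕ} (hF : Fintype.card F = q ^ 2) (hm : 2 ≤ m)
    (hs : IsSimpleGroup (PSU (2 * m) F q)) : Row (PSU (2 * m) F q) :=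
  (frob_psu_even hF hm).row

/-- Criterion F for all simple `PSp_2m(q)`. -/
theorem frob_isPSp {S : Type*} [Group S] (h : IsPSp S) : FrobCent S := by
  obtain ⟨F, _, _, m, hm, hm2, ⟨e⟩⟩ := h
  refine FrobCent.of_equiv ?_ e.symm
  by_cases h3 : m = 2 ∧ Fintype.card F = 3
  · obtain ⟨rfl, h3⟩ := h3
    have : Fintype (GaloisField 2 2) := Fintype.ofFinite _
    have hc : Fintype.card (GaloisField 2 2) = 4 := by
      rw [← Nat.card_eq_fintype_card, GaloisField.card 2 2 (by norm_num)]; norm_num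
    obtain ⟨e'⟩ := S0822.result (F := GaloisField 2 2) (K := F) hc h3
    exact FrobCent.of_equiv (frob_psu_even (m := 2) (by rw [hc]; norm_num) le_rfl) e'
  · refine Sp.frob_psp hm ?_ ?_
    · intro h2
      rw [Nat.card_eq_fintype_card] at h2
      by_contra hlt
      have := hm2 (by omega)
      omega
    · intro h2
      rw [Nat.card_eq_fintype_card] at h2
      by_contra hlt
      exact h3 ⟨by omega, h2⟩

/-- Row `PSp` of S4792. -/
theorem row_isPSp {S : Type*} [Group S] [Finite S] (hs : IsSimpleGroup S) (h : IsPSp S) : Row S :=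
  (frob_isPSp h).row

end Cfsg.Agent.H917.CJ
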