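import Cfsg.Agent.H917.CJ.PsuOddModel
import Cfsg.Agent.H917.CJ.HeisQuot
import Cfsg.Agent.H917.CJ.PsuRow
import Cfsg.Agent.S0279

/-!
# The rows `PSU_{2m+1}(q)`, `m ≥ 2`, `gcd(2m+1, q+1) > 1`, of S4792
-/

set_option autoImplicit false
set_option linter.unusedSectionVars false

open Cfsg Module Matrix

namespace Cfsg.Agent.H917.CJ.SuO

open Cfsg.Agent.H430.Conj Cfsg.Agent.H917.CJ Cfsg.Agent.H917.CJ.Su

section main

variable {F K : Type*} [Field F] [Fintype F] [Field K] [Algebra F K] [Finite K] {q n : ℕ}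
  (hF : Fintype.card F = q ^ 2) (ψ : (K × K × F) ≃ₗ[F] (Fin n → F))

/-- The group `Z` of all `[0, τ]`. -/
noncomputable def ZZ : Subgroup (SU n F q) where
  carrier := {g | ∃ τ : K →ₗ[F] K, SuG.suEnd ψ g = uq hF 0 τ}
  mul_mem' := by
    rintro a b ⟨τ, hτ⟩ ⟨τ', hτ'⟩
    refine ⟨τ + τ' + rk hF 0 0, ?_⟩
    rw [map_mul, hτ, hτ', uq_mul, add_zero]
  one_mem' := ⟨0, by rw [map_one, uq_one]⟩
  inv_mem' := by
    rintro a ⟨τ, hτ⟩
    refine ⟨-τ, ?_⟩
    have h1 : uq hF 0 (-τ) * uq hF 0 τ = 1 := by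
      rw [uq_mul, add_zero, neg_add_cancel, zero_add, ← uq_one hF]
      congr 1
      refine LinearMap.ext fun b => ?_
      rw [rk_apply, smul_zero]; rfl
    have h2 : SuG.suEnd ψ a⁻¹ = uq hF 0 (-τ) * (uq hF 0 τ * SuG.suEnd ψ a⁻¹) := by
      rw [← mul_assoc, h1, one_mul]
    rw [h2, ← hτ, ← map_mul, mul_inv_cancel, map_one, mul_one]

theorem mem_ZZ {g : SU n F q} : g ∈ ZZ hF ψ ↔ ∃ τ : K →ₗ[F] K, SuG.suEnd ψ g = uq hF 0 τ := Iff.rfl

/-- The group `Q_0` of all `[λ w, τ]`, `λ ∈ F`. -/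
noncomputable def QQ (w : K) : Subgroup (SU n F q) where
  carrier := {g | ∃ (c : F) (τ : K →ₗ[F] K), SuG.suEnd ψ g = uq hF (c • w) τ}
  mul_mem' := by
    rintro a b ⟨c, τ, hτ⟩ ⟨c', τ', hτ'⟩
    refine ⟨c + c', τ + τ' + rk hF (c' • w) (c • w), ?_⟩
    rw [map_mul, hτ, hτ', uq_mul, add_smul]
  one_mem' := ⟨0, 0, by rw [map_one, zero_smul, uq_one]⟩
  inv_mem' := by
    rintro a ⟨c, τ, hτ⟩
    refine ⟨-c, -τ + rk hF (c • w) (c • w), ?_⟩
    have h1 : uq hF (-c • w) (-τ + rk hF (c • w) (c • w)) * uq hF (c • w) τ = 1 := by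
      rw [uq_mul, ← add_smul, neg_add_cancel, zero_smul, ← uq_one hF]
      congr 1
      refine LinearMap.ext fun b => ?_
      simp only [LinearMap.add_apply, LinearMap.neg_apply, rk_apply, neg_smul, smul_neg, LinearMap.zero_apply]
      ring
    have h2 : SuG.suEnd ψ a⁻¹ = uq hF (-c • w) (-τ + rk hF (c • w) (c • w)) * (uq hF (c • w) τ * SuG.suEnd ψ a⁻¹) := by
      rw [← mul_assoc, h1, one_mul]
    rw [h2, ← hτ, ← map_mul, mul_inv_cancel, map_one, mul_one]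

theorem mem_QQ {w : K} {g : SU n F q} :
    g ∈ QQ hF ψ w ↔ ∃ (c : F) (τ : K →ₗ[F] K), SuG.suEnd ψ g = uq hF (c • w) τ := Iff.rfl

/-- The group `A` of all `τ_u`. -/
noncomputable def AA : Subgroup (SU n F q) where
  carrier := {g | ∃ u : K, SuG.suEnd ψ g = uq hF 0 (tw hF u)}
  mul_mem' := by
    rintro a b ⟨u, hu⟩ ⟨v, hv⟩
    refine ⟨u + v, ?_⟩
    rw [map_mul, hu, hv, uq_mul, add_zero]
    congr 1
    refine LinearMap.ext fun b => ?_
    simp only [LinearMap.add_apply, rk_apply, smul_zero, add_zero, tw_add]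
  one_mem' := ⟨0, by
    rw [map_one, ← uq_one hF]
    congr 1
    refine LinearMap.ext fun b => ?_
    rw [tw_zero]; rfl⟩
  inv_mem' := by
    rintro a ⟨u, hu⟩
    refine ⟨-u, ?_⟩
    have h1 : uq hF 0 (tw hF (-u)) * uq hF 0 (tw hF u) = 1 := by
      rw [uq_mul, add_zero, ← uq_one hF]
      congr 1
      refine LinearMap.ext fun b => ?_
      simp only [LinearMap.add_apply, rk_apply, smul_zero, add_zero, ← tw_add, neg_add_cancel, tw_zero,
        LinearMap.zero_apply]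
    have h2 : SuG.suEnd ψ a⁻¹ = uq hF 0 (tw hF (-u)) * (uq hF 0 (tw hF u) * SuG.suEnd ψ a⁻¹) := by
      rw [← mul_assoc, h1, one_mul]
    rw [h2, ← hu, ← map_mul, mul_inv_cancel, map_one, mul_one]

theorem mem_AA {g : SU n F q} : g ∈ AA hF ψ ↔ ∃ u : K, SuG.suEnd ψ g = uq hF 0 (tw hF u) := Iff.rfl

/-- The group `D` of all `(e, e, s)`, `e, s ∈ F`. -/
def DD : Subgroup (SU n F q) where
  carrier := {g | ∃ e s : F, e ≠ 0 ∧ s ≠ 0 ∧ ∀ v, SuG.suEnd ψ g v = (e • v.1, e • v.2.1, s * v.2.2)}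
  mul_mem' := by
    rintro a b ⟨e, s, he0, hs0, h⟩ ⟨e', s', he0', hs0', h'⟩
    refine ⟨e * e', s * s', mul_ne_zero he0 he0', mul_ne_zero hs0 hs0', fun v => ?_⟩
    rw [map_mul, Module.End.mul_apply, h', h]
    simp only [smul_smul, mul_assoc]
  one_mem' := ⟨1, 1, one_ne_zero, one_ne_zero, fun v => by rw [map_one]; simp⟩
  inv_mem' := by
    rintro a ⟨e, s, he0, hs0, h⟩
    refine ⟨e⁻¹, s⁻¹, inv_ne_zero he0, inv_ne_zero hs0, fun v => ?_⟩
    have h1 : v = SuG.suEnd ψ a (e⁻¹ • v.1, e⁻¹ • v.2.1, s⁻¹ * v.2.2) := by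
      rw [h]
      simp only [smul_smul, ← mul_assoc, mul_inv_cancel₀ he0, mul_inv_cancel₀ hs0, one_smul, one_mul]
    conv_lhs => rw [h1]
    rw [SuG.suEnd_inv]

theorem mem_DD {g : SU n F q} : g ∈ DD ψ ↔
    ∃ e s : F, e ≠ 0 ∧ s ≠ 0 ∧ ∀ v, SuG.suEnd ψ g v = (e • v.1, e • v.2.1, s * v.2.2) := Iff.rfl

theorem uq_inj {w w' : K} {τ τ' : K →ₗ[F] K} (h : uq hF w τ = uq hF w' τ') : w = w' ∧ τ = τ' := by
  have h1 : w = w' := by
    have h2 := congrArg (fun T : Module.End F (K × K × F) => (T (0, 0, 1)).1) h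
    simp only [uq_apply, map_zero, zero_add, one_smul] at h2
    exact h2
  refine ⟨h1, LinearMap.ext fun b => ?_⟩
  have h2 := congrArg (fun T : Module.End F (K × K × F) => (T (0, b, 0)).1) h
  simp only [uq_apply, zero_add, zero_smul, add_zero] at h2
  exact h2

/-- Conjugation by diagonal elements. -/
theorem dg_uq {a a' : K} {s : F} (ha : a * a' ^ q = 1) (hs : s ^ (q + 1) = 1) (w : K) (τ : K →ₗ[F] K) :
    dg a a' s * uq hF w τ = uq hF (s⁻¹ • (a * w)) ((LinearMap.mulLeft F a) ∘ₗ τ ∘ₗ (LinearMap.mulLeft F a'⁻¹)) *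
      dg a a' s := by
  have hq0 := q_pos hF
  have ha' : a' ≠ 0 := by
    rintro rfl
    rw [zero_pow hq0, mul_zero] at ha
    exact zero_ne_one ha
  have hs0 : s ≠ 0 := by
    rintro rfl
    rw [zero_pow (by omega)] at hs
    exact zero_ne_one hs
  refine LinearMap.ext fun v => ?_
  rw [Module.End.mul_apply, Module.End.mul_apply, dg_apply, dg_apply, uq_apply, uq_apply]
  refine Prod.ext ?_ (Prod.ext rfl ?_)
  · change a * (v.1 + τ v.2.1 + v.2.2 • w)
      = a * v.1 + a * τ (a'⁻¹ * (a' * v.2.1)) + (s * v.2.2) • s⁻¹ • (a * w)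
    rw [← mul_assoc a'⁻¹, inv_mul_cancel₀ ha', one_mul, smul_smul, mul_comm s, mul_assoc, mul_inv_cancel₀ hs0, mul_one,
      mul_add, mul_add, mul_smul_comm]
  · change s * (v.2.2 + ph hF w v.2.1) = s * v.2.2 + ph hF (s⁻¹ • (a * w)) (a' * v.2.1)
    have h1 : ph hF (a * w) (a' * v.2.1) = ph hF w v.2.1 := by
      rw [ph_apply, ph_apply, mul_pow, mul_pow, mul_pow]
      congr 2
      have h3 : a ^ q * (a' ^ q) ^ q = 1 := by rw [← mul_pow, ha, one_pow]
      linear_combination (w ^ q * (v.2.1 ^ q) ^ q) * h3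
    have h2 : (s⁻¹) ^ q = s := by
      rw [inv_pow]
      rw [pow_succ] at hs
      exact inv_eq_of_mul_eq_one_right hs
    rw [ph_smul, h1, h2, mul_add]

variable (hψ : ∀ u v, hermForm n F q (ψ u) (ψ v) = BO K hF v u)
include hψ

theorem exists_zel {τ : K →ₗ[F] K} (h : Skew hF 0 τ) : ∃ z : ZZ hF ψ, SuG.suEnd ψ (z : SU n F q) = uq hF 0 τ := by
  obtain ⟨g, hg⟩ := SuG.exists_su hF ψ hψ (uq hF 0 τ) (BO_uq hF h) (det_uq hF 0 τ)
  exact ⟨⟨g, τ, hg⟩, hg⟩

theorem exists_qel (w : K) (c : F) : ∃ g ∈ QQ hF ψ w, ∃ τ, SuG.suEnd ψ (g : SU n F q) = uq hF (c • w) τ := by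
  obtain ⟨τ, hτ⟩ := exists_skew hF (c • w)
  obtain ⟨g, hg⟩ := SuG.exists_su hF ψ hψ (uq hF (c • w) τ) (BO_uq hF hτ) (det_uq hF _ τ)
  exact ⟨g, ⟨c, τ, hg⟩, τ, hg⟩

/-- If a weight of `Z` is nontrivial on `A` then it is nontrivial on some `c(w, ν w)`. -/
theorem exists_line (l : ZZ hF ψ →* ℂˣ) (hl : ∃ a : ZZ hF ψ, (a : SU n F q) ∈ AA hF ψ ∧ l a ≠ 1) :
    ∃ (w : K) (ν : F) (z : ZZ hF ψ), SuG.suEnd ψ (z : SU n F q) = uq hF 0 (cm hF w (ν • w)) ∧ l z ≠ 1 := by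
  classical
  by_contra hcon
  push Not at hcon
  choose zc hzc using fun w w' : K => exists_zel hF ψ hψ (skew_cm hF w w')
  have hzinj : ∀ z z' : ZZ hF ψ, SuG.suEnd ψ (z : SU n F q) = SuG.suEnd ψ (z' : SU n F q) → z = z' :=
    fun z z' h => Subtype.ext (SuG.suEnd_injective ψ h)
  have hrk0 : rk hF (0 : K) (0 : K) = 0 := by
    refine LinearMap.ext fun b => ?_
    rw [rk_apply, smul_zero]; rfl
  have hmul : ∀ (z z' z'' : ZZ hF ψ) (τ τ' : K →ₗ[F] K), SuG.suEnd ψ (z : SU n F q) = uq hF 0 τ →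
      SuG.suEnd ψ (z' : SU n F q) = uq hF 0 τ' → SuG.suEnd ψ (z'' : SU n F q) = uq hF 0 (τ + τ') → z'' = z * z' := by
    intro z z' z'' τ τ' h h' h''
    apply hzinj
    rw [Subgroup.coe_mul, map_mul, h, h', h'', uq_mul, add_zero, hrk0, add_zero]
  -- bimultiplicativity of `g w w' = l (zc w w')`
  have hgadd : ∀ w₁ w₂ w', l (zc (w₁ + w₂) w') = l (zc w₁ w') * l (zc w₂ w') := by
    intro w₁ w₂ w'
    rw [← map_mul]
    congr 1
    exact hmul _ _ _ _ _ (hzc _ _) (hzc _ _) (by rw [hzc, cm_add_left])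
  have hgadd' : ∀ w w₁ w₂, l (zc w (w₁ + w₂)) = l (zc w w₁) * l (zc w w₂) := by
    intro w w₁ w₂
    rw [← map_mul]
    congr 1
    exact hmul _ _ _ _ _ (hzc _ _) (hzc _ _) (by rw [hzc, cm_add_right])
  have hone : ∀ z : ZZ hF ψ, SuG.suEnd ψ (z : SU n F q) = uq hF 0 0 → z = 1 := by
    intro z hz
    apply hzinj
    rw [hz, uq_one, Subgroup.coe_one, map_one]
  have hgswap : ∀ w w', l (zc w w') * l (zc w' w) = 1 := by
    intro w w'
    rw [← map_mul]
    have : zc w w' * zc w' w = 1 := by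
      apply hzinj
      rw [Subgroup.coe_mul, map_mul, hzc, hzc, uq_mul, add_zero, hrk0, add_zero, cm_swap, neg_add_cancel, uq_one,
        Subgroup.coe_one, map_one]
    rw [this, map_one]
  have hgsm : ∀ (c : F) (w w' : K), l (zc (c • w) w') = l (zc w (c ^ q • w')) := by
    intro c w w'
    congr 1
    apply hzinj
    rw [hzc, hzc, cm_smul]
  have hself : ∀ (w : K) (ν : F), l (zc w (ν • w)) = 1 := fun w ν => hcon w ν _ (hzc _ _)
  -- a scalar outside the fixed field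
  obtain ⟨ν, hν⟩ : ∃ ν : F, ν - ν ^ q ≠ 0 := by
    by_contra hc
    push Not at hc
    apply sg_ne hF
    ext a
    exact (sub_eq_zero.1 (hc a)).symm
  have hall : ∀ w w', l (zc w w') = 1 := by
    have h1 : ∀ w w', l (zc w ((ν - ν ^ q) • w')) = 1 := by
      intro w w'
      have h2 := hself (w + w') ν
      rw [smul_add, hgadd, hgadd', hgadd', hself, hself, one_mul, mul_one] at h2
      -- `g(w, ν w') g(w', ν w) = 1`
      have h3 : l (zc w' (ν • w)) = (l (zc w (ν ^ q • w')))⁻¹ := by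
        rw [eq_inv_iff_mul_eq_one, ← hgsm, ]
        exact hgswap _ _
      have h4 : l (zc w (ν • w')) = l (zc w (ν ^ q • w')) := by
        rw [h3] at h2
        exact mul_inv_eq_one.1 h2
      have h5 : l (zc w (ν • w')) = l (zc w ((ν - ν ^ q) • w')) * l (zc w (ν ^ q • w')) := by
        rw [← hgadd', ← add_smul, sub_add_cancel]
      rw [h4] at h5
      exact (mul_eq_right.1 h5.symm)
    intro w w'
    have h2 := h1 w ((ν - ν ^ q)⁻¹ • w')
    rwa [smul_smul, mul_inv_cancel₀ hν, one_smul] at h2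
  obtain ⟨a, ⟨u, hu⟩, hla⟩ := hl
  apply hla
  obtain ⟨ι, _, w, w', hsum⟩ := tw_eq_sum hF u
  have h2 : ∀ s : Finset ι, ∀ z : ZZ hF ψ, SuG.suEnd ψ (z : SU n F q) = uq hF 0 (∑ i ∈ s, cm hF (w i) (w' i)) →
      l z = 1 := by
    intro s
    induction s using Finset.induction_on with
    | empty =>
      intro z hz
      rw [Finset.sum_empty] at hz
      rw [hone z hz, map_one]
    | insert i s hi ih =>
      intro z hz
      rw [Finset.sum_insert hi] at hz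
      have h3 : SuG.suEnd ψ (((zc (w i) (w' i))⁻¹ * z : ZZ hF ψ) : SU n F q)
          = uq hF 0 (∑ i ∈ s, cm hF (w i) (w' i)) := by
        have h4 : uq hF 0 (cm hF (w i) (w' i)) * SuG.suEnd ψ (((zc (w i) (w' i))⁻¹ * z : ZZ hF ψ) : SU n F q)
            = uq hF 0 (cm hF (w i) (w' i)) * uq hF 0 (∑ i ∈ s, cm hF (w i) (w' i)) := by
          rw [← hzc, ← map_mul, ← Subgroup.coe_mul, mul_inv_cancel_left, hz, hzc, uq_mul, add_zero, hrk0, add_zero]
        rw [← hzc] at h4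
        refine LinearMap.ext fun v => ?_
        exact SuG.suEnd_apply_injective ψ _ (congrArg (fun T : Module.End F (K × K × F) => T v) h4)
      have h5 := ih _ h3
      rw [map_mul, map_inv, hall, inv_one, one_mul] at h5
      exact h5
  exact h2 Finset.univ a (by rw [hu, hsum])

end main

end Cfsg.Agent.H917.CJ.SuO
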