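import Cfsg.Agent.H917.CJ.PsuOddRow

/-!
# The rows `PSU_{2m+1}(q)`, `m ≥ 2`, `gcd(2m+1, q+1) > 1`, of S4792: conclusion
-/

set_option autoImplicit false
set_option linter.unusedSectionVars false

open Cfsg Module Matrix

namespace Cfsg.Agent.H917.CJ.SuO

open Cfsg.Agent.H430.Conj Cfsg.Agent.H917.CJ Cfsg.Agent.H917.CJ.Su

/-- `|π(D)| |N| = |D|`. -/
theorem card_map_mul {G : Type*} [Group G] [Finite G] (N D : Subgroup G) [N.Normal] (h : N ≤ D) :
    Nat.card (D.map (QuotientGroup.mk' N)) * Nat.card N = Nat.card D := by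
  let f := (QuotientGroup.mk' N).subgroupMap D
  have hf : Function.Surjective f := (QuotientGroup.mk' N).subgroupMap_surjective D
  have h1 : Nat.card (D.map (QuotientGroup.mk' N)) = Nat.card (D ⧸ f.ker) :=
    (Nat.card_congr (QuotientGroup.quotientKerEquivOfSurjective f hf).toEquiv).symm
  have h2 : f.ker = N.subgroupOf D := by
    ext d
    rw [MonoidHom.mem_ker, Subgroup.mem_subgroupOf]
    constructor
    · intro hd
      have := congrArg Subtype.val hd
      exact (QuotientGroup.eq_one_iff (d : G)).1 this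
    · intro hd
      apply Subtype.ext
      exact (QuotientGroup.eq_one_iff (d : G)).2 hd
  have h3 : Nat.card N = Nat.card f.ker := by
    rw [h2]
    exact (Nat.card_congr (Subgroup.subgroupOfEquivOfLe h).toEquiv).symm
  rw [h1, h3, ← Subgroup.card_eq_card_quotient_mul_card_subgroup]

section main

variable {F K : Type*} [Field F] [Fintype F] [Field K] [Algebra F K] [Finite K] {q n : ℕ}
  (hF : Fintype.card F = q ^ 2) (ψ : (K × K × F) ≃ₗ[F] (Fin n → F))
  (hψ : ∀ u v, hermForm n F q (ψ u) (ψ v) = BO K hF v u)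

include hψ in
/-- Elements of `D` as diagonal elements, with their relations. -/
theorem DD_rel {d : SU n F q} {e s : F} (h : ∀ v, SuG.suEnd ψ d v = (e • v.1, e • v.2.1, s * v.2.2)) :
    algebraMap F K e * (algebraMap F K e) ^ q = 1 ∧ s ^ (q + 1) = 1 ∧ e ^ (q + 1) = 1 ∧
      e ^ (2 * Module.finrank F K) * s = 1 := by
  have h1 : ∀ v, SuG.suEnd ψ d v = (algebraMap F K e * v.1, algebraMap F K e * v.2.1, s * v.2.2) := by
    intro v
    rw [h, Algebra.smul_def, Algebra.smul_def]
  obtain ⟨h2, h3, h4⟩ := dg_rel hF ψ hψ h1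
  refine ⟨h2, h3, ?_, ?_⟩
  · apply (algebraMap F K).injective
    rw [map_pow, pow_succ', h2, map_one]
  · rw [Algebra.norm_algebraMap] at h4
    rw [two_mul, pow_add, mul_assoc]
    exact h4

include hψ in
theorem card_DD_le : Nat.card (DD (q := q) ψ) ≤ q + 1 := by
  classical
  choose e s he0 hs0 hes using fun d : DD (q := q) ψ => (mem_DD ψ).1 d.2
  have hinj : Function.Injective e := by
    intro d d' hdd
    apply Subtype.ext
    apply SuG.suEnd_injective ψ
    refine LinearMap.ext fun v => ?_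
    have h1 := (DD_rel hF ψ hψ (hes d)).2.2.2
    have h2 := (DD_rel hF ψ hψ (hes d')).2.2.2
    have h3 : s d = s d' := by
      rw [← hdd] at h2
      exact mul_left_cancel₀ (pow_ne_zero _ (he0 d)) (h1.trans h2.symm)
    rw [hes d, hes d', hdd, h3]
  have hroot : ∀ d, e d ∈ (Polynomial.nthRoots (q + 1) (1 : F)).toFinset := by
    intro d
    rw [Multiset.mem_toFinset, Polynomial.mem_nthRoots (by omega)]
    exact (DD_rel hF ψ hψ (hes d)).2.2.1
  have hfin := Fintype.ofFinite (DD (q := q) ψ)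
  rw [Nat.card_eq_fintype_card]
  calc Fintype.card (DD (q := q) ψ) = (Finset.univ : Finset (DD (q := q) ψ)).card := rfl
    _ ≤ (Polynomial.nthRoots (q + 1) (1 : F)).toFinset.card :=
        Finset.card_le_card_of_injOn e (fun d _ => hroot d) hinj.injOn
    _ ≤ Multiset.card (Polynomial.nthRoots (q + 1) (1 : F)) := Multiset.toFinset_card_le _
    _ ≤ q + 1 := Polynomial.card_nthRoots _ _

include hψ in
theorem card_QQ_ge {w : K} (hw : w ≠ 0) : q ^ 2 * Nat.card (ZZ hF ψ) ≤ Nat.card (QQ hF ψ w) := by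
  classical
  choose y hy τ hyτ using fun c : F => exists_qel hF ψ hψ w c
  have hZQ : ZZ hF ψ ≤ QQ hF ψ w := by
    rintro g ⟨τ, hτ⟩
    exact ⟨0, τ, by rw [zero_smul]; exact hτ⟩
  let f : F × ZZ hF ψ → QQ hF ψ w := fun p => ⟨(p.2 : SU n F q) * y p.1, (QQ hF ψ w).mul_mem (hZQ p.2.2) (hy p.1)⟩
  have hf : Function.Injective f := by
    rintro ⟨c, z⟩ ⟨c', z'⟩ h
    have h1 : (z : SU n F q) * y c = (z' : SU n F q) * y c' := congrArg Subtype.val h
    obtain ⟨τz, hτz⟩ := z.2
    obtain ⟨τz', hτz'⟩ := z'.2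
    have h2 := congrArg (SuG.suEnd ψ) h1
    rw [map_mul, map_mul, hτz, hτz', hyτ, hyτ, uq_mul, uq_mul, zero_add, zero_add] at h2
    have h3 := (uq_inj hF h2).1
    have h4 : c = c' := smul_left_injective F hw h3
    subst h4
    have h5 : z = z' := Subtype.ext (mul_right_cancel h1)
    rw [h5]
  have h1 := Nat.card_le_card_of_injective f hf
  rwa [Nat.card_prod, Nat.card_eq_fintype_card (α := F), hF] at h1

end main

theorem row_psu_odd {F : Type*} [Field F] [Fintype F] {q m : ℕ} (hF : Fintype.card F = q ^ 2) (hm : 2 ≤ m)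
    (hd : 1 < Nat.gcd (2 * m + 1) (q + 1)) (hs : IsSimpleGroup (PSU (2 * m + 1) F q)) :
    Row (PSU (2 * m + 1) F q) := by
  classical
  obtain ⟨K, _, _, _, hK⟩ := exists_ext F m (by omega)
  have hfd : Module.Finite F K := Module.Finite.of_finite
  have := Fintype.ofFinite K
  have hq2 := two_le_q hF
  have hq0 := q_pos hF
  have hn3 : 3 ≤ 2 * m + 1 := by omega
  obtain ⟨ω, hω⟩ := IsCyclic.exists_generator (α := Kˣ)
  have hcF : Nat.card F = q ^ 2 := by rw [Nat.card_eq_fintype_card, hF]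
  have hord : orderOf ω = q ^ (2 * m) - 1 := by
    rw [orderOf_eq_card_of_forall_mem_zpowers hω, Nat.card_units, Module.natCard_eq_pow_finrank (K := F), hK, hcF,
      ← pow_mul]
  set r : K := (ω : K) with hr
  have hr0 : r ≠ 0 := ω.ne_zero
  have hrq : r ^ q ≠ 0 := pow_ne_zero _ hr0
  have hωpow : ∀ k : ℕ, r ^ k = 1 → q ^ (2 * m) - 1 ∣ k := by
    intro k hk
    rw [← hord]
    apply orderOf_dvd_of_pow_eq_one
    ext
    simpa using hk
  have hgen : Algebra.adjoin F {r} = ⊤ := adjoin_primitive hω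
  have hcard : ∀ i, Nat.card F ^ i = q ^ (2 * i) := fun i => by rw [hcF, ← pow_mul]
  have hrF : ∀ t : F, r ≠ algebraMap F K t := by
    intro t ht
    have h1 : (⊥ : Subalgebra F K) = ⊤ := by
      rw [← hgen, eq_comm, ← le_bot_iff, Algebra.adjoin_le_iff, ht]
      intro y hy
      rw [Set.mem_singleton_iff] at hy
      rw [hy]
      exact Subalgebra.algebraMap_mem _ _
    have h2 : Module.finrank F K = 1 := Subalgebra.bot_eq_top_iff_finrank_eq_one.1 h1
    omega
  -- the inverse of the `q`-th power is also a generator of the cyclic group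
  have hsgen : Algebra.adjoin F {(r ^ q)⁻¹} = ⊤ := by
    apply adjoin_of_pow
    intro i hi him h
    rw [hK] at him
    rw [hcard] at h
    have h1 : (r ^ q) ^ (q ^ (2 * i)) = r ^ q := by
      rw [inv_pow] at h
      exact inv_injective h
    -- `r^(q (q^(2i) - 1)) = 1`
    have h2 : r ^ (q * (q ^ (2 * i) - 1)) = 1 := by
      apply mul_right_cancel₀ hrq
      have hone : 1 ≤ q ^ (2 * i) := Nat.one_le_pow _ _ (by omega)
      rw [one_mul, ← pow_add, ← h1, ← pow_mul]
      congr 1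
      rw [Nat.mul_sub, mul_one, Nat.sub_add_cancel]
      exact Nat.le_mul_of_pos_right _ (by omega)
    have h3 := hωpow _ h2
    have hN : 1 ≤ q ^ (2 * m) := Nat.one_le_pow _ _ (by omega)
    have hcop : Nat.Coprime (q ^ (2 * m) - 1) q := by
      have h2 : Nat.Coprime (q ^ (2 * m) - 1) (q ^ (2 * m)) := by
        have h3 : q ^ (2 * m) = (q ^ (2 * m) - 1) + 1 := by omega
        rw [h3, Nat.add_sub_cancel]
        exact Nat.coprime_self_add_right.2 (Nat.coprime_one_right _)
      exact Nat.Coprime.coprime_dvd_right (dvd_pow_self q (by omega)) h2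
    have h4 := hcop.dvd_of_dvd_mul_left h3
    have h5 := pow_lt_pow_right₀ (show 1 < q by omega) (show 2 * i < 2 * m by omega)
    have h6 : 2 ^ 1 ≤ q ^ (2 * i) := by
      calc 2 ^ 1 ≤ q ^ 1 := Nat.pow_le_pow_left hq2 1
        _ ≤ q ^ (2 * i) := Nat.pow_le_pow_right (by omega) (by omega)
    have h7 := Nat.le_of_dvd (by omega) h4
    omega
  have hB : ∀ θ : K ≃ₐ[F] K, θ r * r ^ q ≠ 1 := by
    intro θ hθ
    obtain ⟨i, hi, hθi⟩ := aut_eq_pow_lt θ
    rw [hK] at hi
    rw [hθi, hcard, ← pow_add] at hθ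
    exact numO hq2 hm hi (hωpow _ hθ)
  -- `u ↦ T_u` is injective
  have hbig : (r ^ q) ^ q ≠ r := by
    intro h
    rw [← pow_mul] at h
    have h1 : r ^ (q * q - 1) = 1 := by
      apply mul_right_cancel₀ hr0
      rw [← pow_succ, Nat.sub_add_cancel (by nlinarith), h, one_mul]
    have h2 := Nat.le_of_dvd (by nlinarith [Nat.sub_add_cancel (show 1 ≤ q * q by nlinarith)]) (hωpow _ h1)
    have h3 : q ^ (2 * 2) ≤ q ^ (2 * m) := Nat.pow_le_pow_right (by omega) (by omega)
    have h4 : q ^ (2 * 2) = (q * q) * (q * q) := by ring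
    have h5 : q * q * 2 ≤ (q * q) * (q * q) := Nat.mul_le_mul_left _ (by nlinarith)
    have h6 : 4 ≤ q * q := by nlinarith
    omega
  have htw : ∀ u : K, (∀ b, tw hF u b = 0) → u = 0 := by
    intro u hu
    by_contra hne
    have h1 := hu 1
    rw [tw_apply, one_pow, one_pow, mul_one, mul_one, sub_eq_zero] at h1
    have h2 := hu r
    rw [tw_apply, ← h1, ← mul_sub] at h2
    rcases mul_eq_zero.1 h2 with h3 | h3
    · exact hne h3
    · exact hbig (sub_eq_zero.1 h3).symm
  -- the isometry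
  obtain ⟨ψ, hψ⟩ := SuG.exists_std hF (BO K hF) (BO_symm hF) (BO_sep hF)
    (show Module.finrank F (K × K × F) = 2 * m + 1 by
      rw [Module.finrank_prod, Module.finrank_prod, Module.finrank_self, hK]; omega)
  -- the torus element
  let c₀ : F := (Algebra.norm F r) ^ (q - 1)
  have hN0 : Algebra.norm F r ≠ 0 := by rwa [Ne, Algebra.norm_eq_zero_iff]
  have hc0 : c₀ ≠ 0 := pow_ne_zero _ hN0
  have hc1 : c₀ ^ (q + 1) = 1 := by
    have h1 : (q - 1) * (q + 1) = Fintype.card F - 1 := by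
      rw [hF]
      obtain ⟨d, rfl⟩ : ∃ d, q = d + 1 := ⟨q - 1, by omega⟩
      rw [Nat.add_sub_cancel]
      have : (d + 1) ^ 2 = d * (d + 1 + 1) + 1 := by ring
      rw [this, Nat.add_sub_cancel]
    rw [← pow_mul, h1]
    exact FiniteField.pow_card_sub_one_eq_one _ hN0
  have hdetx : LinearMap.det (dg (r ^ q)⁻¹ r c₀) = 1 := by
    rw [det_dg]
    have h1 : Algebra.norm F r * c₀ = Algebra.norm F (r ^ q) := by
      rw [map_pow, ← pow_succ', Nat.sub_add_cancel (by omega)]
    rw [h1, ← map_mul, inv_mul_cancel₀ hrq, map_one]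
  obtain ⟨x, hx⟩ := SuG.exists_su hF ψ hψ (dg (r ^ q)⁻¹ r c₀)
    (BO_dg hF (inv_mul_cancel₀ hrq) hc1) hdetx
  have hx' : ∀ v, SuG.suEnd ψ x v = ((r ^ q)⁻¹ * v.1, r * v.2.1, c₀ * v.2.2) := fun v => by rw [hx, dg_apply]
  have hkey := fun c z hz hcx => key hF ψ hψ hn3 hr0 hc0 hgen hsgen hrF hB hx' c z hz hcx
  -- scalars of the centre
  have hsc : ∀ g : SU (2 * m + 1) F q, g ∈ Subgroup.center (SU (2 * m + 1) F q) →
      ∃ ζ : F, ζ ^ (q + 1) = 1 ∧ ∀ v, SuG.suEnd ψ g v = ζ • v := fun g hg => SuG.smul_of_mem_center hF ψ hn3 hg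
  have hrk : ∀ (w : K), rk hF w 0 = 0 := by
    intro w
    refine LinearMap.ext fun b => ?_
    rw [rk_apply, smul_zero]; rfl
  have hrk' : ∀ (w : K), rk hF 0 w = 0 := by
    intro w
    refine LinearMap.ext fun b => ?_
    rw [rk_apply, ph_zero, zero_smul]; rfl
  have hZQ : ∀ w : K, ZZ hF ψ ≤ QQ hF ψ w := by
    rintro w g ⟨τ, hτ⟩
    exact ⟨0, τ, by rw [zero_smul]; exact hτ⟩
  have hQN : ∀ w : K, ∀ y ∈ QQ hF ψ w, y ∈ Subgroup.center (SU (2 * m + 1) F q) → y = 1 := by
    rintro w y ⟨c, τ, hy⟩ hyN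
    obtain ⟨ζ, -, hζ⟩ := hsc y hyN
    have h1 := hζ (1, 0, 0)
    rw [hy, uq_apply] at h1
    simp only [map_zero, add_zero, zero_smul] at h1
    have h2 : (1 : K) = ζ • (1 : K) := congrArg (fun v : K × K × F => v.1) h1
    have h3 : ζ = 1 := by
      rw [Algebra.smul_def, mul_one] at h2
      exact ((map_eq_one_iff _ (algebraMap F K).injective).1 h2.symm)
    apply SuG.suEnd_injective ψ
    rw [map_one]
    refine LinearMap.ext fun v => ?_
    rw [hζ, h3, one_smul]
    rfl
  -- conjugation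
  have hconj : ∀ (c g : SU (2 * m + 1) F q) (a a' : K) (s : F), (∀ v, SuG.suEnd ψ c v = (a * v.1, a' * v.2.1, s * v.2.2)) →
      ∀ (w : K) (τ : K →ₗ[F] K), SuG.suEnd ψ g = uq hF w τ → SuG.suEnd ψ (c * g * c⁻¹)
        = uq hF (s⁻¹ • (a * w)) ((LinearMap.mulLeft F a) ∘ₗ τ ∘ₗ (LinearMap.mulLeft F a'⁻¹)) := by
    intro c g a a' s hc w τ hg
    obtain ⟨h1, h2, -⟩ := dg_rel hF ψ hψ hc
    have hc' : SuG.suEnd ψ c = dg a a' s := LinearMap.ext fun v => by rw [hc, dg_apply]
    rw [map_mul, map_mul, hg, hc', dg_uq hF h1 h2, ← hc', mul_assoc, ← map_mul, mul_inv_cancel, map_one, mul_one]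
  have htwc : ∀ (a a' u : K), a * a' ^ q = 1 →
      (LinearMap.mulLeft F a) ∘ₗ tw hF u ∘ₗ (LinearMap.mulLeft F a'⁻¹) = tw hF (a * a'⁻¹ * u) := by
    intro a a' u haa
    have ha' : a' ≠ 0 := by
      rintro rfl
      rw [zero_pow hq0, mul_zero] at haa
      exact zero_ne_one haa
    refine LinearMap.ext fun b => ?_
    change a * tw hF u (a'⁻¹ * b) = tw hF (a * a'⁻¹ * u) b
    rw [tw_apply, tw_apply]
    have haq : a = (a' ^ q)⁻¹ := eq_inv_of_mul_eq_one_left haa
    rw [haq]
    simp only [mul_pow, inv_pow]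
    field_simp
  refine row_heis (Subgroup.center (SU (2 * m + 1) F q)) x (AA hF ψ) (ZZ hF ψ) (DD ψ) ?_ ?_ ?_ ?_ ?_ ?_ ?_
  · rintro g ⟨u, hu⟩
    exact ⟨_, hu⟩
  · -- `A ≠ 1`
    intro h0
    have hsk : Skew hF 0 (tw hF (1 : K)) := by
      obtain ⟨ι, _, w, w', hsum⟩ := tw_eq_sum (K := K) hF (1 : K)
      rw [hsum]
      have : ∀ s : Finset ι, Skew hF 0 (∑ i ∈ s, cm hF (w i) (w' i)) := by
        intro s
        induction s using Finset.induction_on with
        | empty =>
          intro b b'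
          rw [Finset.sum_empty, ph_zero, ph_zero]
          simp [hq0]
        | insert i s hi ih =>
          rw [Finset.sum_insert hi]
          exact skew_add hF (skew_cm hF _ _) ih
      exact this _
    obtain ⟨g, hg⟩ := SuG.exists_su hF ψ hψ (uq hF 0 (tw hF (1 : K))) (BO_uq hF hsk) (det_uq hF 0 _)
    have h1 : g ∈ AA hF ψ := ⟨1, hg⟩
    rw [h0, Subgroup.mem_bot] at h1
    rw [h1, map_one, ← uq_one hF] at hg
    have h2 := (uq_inj hF hg).2
    have h3 := htw 1 fun b => by rw [← h2]; rfl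
    exact one_ne_zero h3
  · rintro a ⟨τ, hτ⟩ b ⟨τ', hτ'⟩
    apply SuG.suEnd_injective ψ
    rw [map_mul, map_mul, hτ, hτ', uq_mul, uq_mul, hrk, add_comm τ τ']
  · intro c z hz hcx
    obtain ⟨a, a', s, hc⟩ := hkey c z hz hcx
    obtain ⟨haa, hss, -⟩ := dg_rel hF ψ hψ hc
    have ha' : a' ≠ 0 := by
      rintro rfl
      rw [zero_pow hq0, mul_zero] at haa
      exact zero_ne_one haa
    have hs0 : s ≠ 0 := by
      rintro rfl
      rw [zero_pow (by omega)] at hss
      exact zero_ne_one hss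
    refine ⟨?_, ?_, ?_⟩
    · rintro g ⟨u, hu⟩
      refine ⟨a * a'⁻¹ * u, ?_⟩
      rw [hconj c g a a' s hc _ _ hu, htwc a a' u haa, mul_zero, smul_zero]
    · rintro g ⟨τ, hτ⟩
      refine ⟨(LinearMap.mulLeft F a) ∘ₗ τ ∘ₗ (LinearMap.mulLeft F a'⁻¹), ?_⟩
      rw [hconj c g a a' s hc _ _ hτ, mul_zero, smul_zero]
    · by_cases haeq : a = a'
      · left
        have e6 : a ^ (q + 1) = 1 := by rw [pow_succ']; nth_rewrite 2 [haeq]; exact haa
        have e8 : a ^ Fintype.card F = a := by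
          rw [hF]
          have e9 : q ^ 2 = (q + 1) * (q - 1) + 1 := by
            obtain ⟨d, rfl⟩ : ∃ d, q = d + 1 := ⟨q - 1, by omega⟩
            rw [Nat.add_sub_cancel]; ring
          rw [e9, pow_succ, pow_mul, e6, one_pow, one_mul]
        have e9 : ∀ i : ℕ, a ^ (Nat.card F ^ i) = a := by
          intro i
          induction i with
          | zero => rw [pow_zero, pow_one]
          | succ i ih => rw [pow_succ, pow_mul, ih, Nat.card_eq_fintype_card, e8]
        have e10 : a ∈ (⊥ : IntermediateField F K) := by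
          rw [IsGalois.mem_bot_iff_fixed]
          intro θ
          obtain ⟨i, hi⟩ := aut_eq_pow θ
          rw [hi, e9]
        obtain ⟨e, he⟩ := IntermediateField.mem_bot.1 e10
        refine ⟨e, s, ?_, hs0, fun v => ?_⟩
        · rintro rfl
          rw [map_zero] at he
          exact ha' (haeq ▸ he.symm)
        · rw [hc, ← haeq, ← he, ← Algebra.smul_def, ← Algebra.smul_def]
      · right
        rintro g ⟨u, hu⟩ hcg
        have h1 := hconj c g a a' s hc _ _ hu
        rw [hcg, mul_inv_cancel_right, hu, htwc a a' u haa, mul_zero, smul_zero] at h1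
        have h2 := (uq_inj hF h1).2
        have h3 : u - a * a'⁻¹ * u = 0 := by
          apply htw
          intro b
          have h4 := congrArg (fun T : K →ₗ[F] K => T b) h2
          simp only [tw_apply] at h4
          rw [tw_apply, sub_q hF]
          linear_combination h4
        have h4 : u = 0 := by
          by_contra hu0
          apply haeq
          have h5 : a * a'⁻¹ = 1 := by
            apply mul_right_cancel₀ hu0
            rw [one_mul]
            exact (sub_eq_zero.1 h3).symm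
          rw [mul_inv_eq_one₀ ha'] at h5
          exact h5
        apply SuG.suEnd_injective ψ
        rw [hu, h4, map_one, ← uq_one hF]
        congr 1
        refine LinearMap.ext fun b => ?_
        rw [tw_zero]; rfl
  · intro y hy hyN
    exact hQN 0 y (hZQ 0 hy) hyN
  · rintro d ⟨e, s, he0, hs0, hd⟩ z ⟨τ, hτ⟩
    apply SuG.suEnd_injective ψ
    rw [map_mul, map_mul, hτ]
    refine LinearMap.ext fun v => ?_
    rw [Module.End.mul_apply, Module.End.mul_apply, hd, hd, uq_apply, uq_apply]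
    simp only [ph_zero, add_zero, smul_zero, map_smul, smul_add]
  · intro l hl
    obtain ⟨w, ν, z₀, hz₀, hlz₀⟩ := exists_line hF ψ hψ l hl
    have hw0 : w ≠ 0 := by
      rintro rfl
      apply hlz₀
      have : z₀ = 1 := by
        apply Subtype.ext
        apply SuG.suEnd_injective ψ
        rw [hz₀, Subgroup.coe_one, map_one, ← uq_one hF]
        congr 1
        rw [cm, smul_zero, hrk, sub_self]
      rw [this, map_one]
    refine ⟨QQ hF ψ w, hZQ w, ?_, ?_, hQN w, ?_, ?_, ?_⟩
    · rintro z ⟨τ, hτ⟩ y ⟨c, τ', hτ'⟩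
      apply SuG.suEnd_injective ψ
      rw [map_mul, map_mul, hτ, hτ', uq_mul, uq_mul, hrk, hrk', add_comm τ τ', add_comm (0 : K)]
    · rintro d ⟨e, s, he0, hs0, hd⟩ y ⟨c, τ, hτ⟩
      have hd' : ∀ v, SuG.suEnd ψ d v = (algebraMap F K e * v.1, algebraMap F K e * v.2.1, s * v.2.2) := by
        intro v
        rw [hd, Algebra.smul_def, Algebra.smul_def]
      refine ⟨s⁻¹ * (e * c),
        (LinearMap.mulLeft F (algebraMap F K e)) ∘ₗ τ ∘ₗ (LinearMap.mulLeft F (algebraMap F K e)⁻¹), ?_⟩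
      rw [hconj d y _ _ s hd' _ _ hτ, ← Algebra.smul_def, smul_smul, smul_smul, mul_assoc]
    · rintro d ⟨e, s, he0, hs0, hd⟩ hdN y ⟨c, τ, hτ⟩ hdy
      have hd' : ∀ v, SuG.suEnd ψ d v = (algebraMap F K e * v.1, algebraMap F K e * v.2.1, s * v.2.2) := by
        intro v
        rw [hd, Algebra.smul_def, Algebra.smul_def]
      obtain ⟨τz, hτz⟩ := hdy
      have h1 := hconj d y _ _ s hd' _ _ hτ
      have h2 : d * y * d⁻¹ = (d * y * d⁻¹ * y⁻¹) * y := by group
      rw [h2, map_mul, hτz, hτ, uq_mul, zero_add] at h1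
      have h3 := (uq_inj hF h1).1
      rw [← Algebra.smul_def, smul_smul, smul_smul] at h3
      have h4 : c = s⁻¹ * (e * c) := by
        have := smul_left_injective F hw0 h3
        simpa [mul_assoc] using this
      by_cases hc : c = 0
      · exact ⟨τ, by rw [hτ, hc, zero_smul]⟩
      · exfalso
        apply hdN
        have h5 : s⁻¹ * e = 1 := by
          apply mul_right_cancel₀ hc
          rw [one_mul, mul_assoc, ← h4]
        have h6 : s = e := inv_mul_eq_one₀ hs0 |>.1 h5
        apply SuG.mem_center_of_smul ψ (ζ := e)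
        intro v
        rw [hd, h6]
        rfl
    · rintro y ⟨c, τ, hτ⟩ hyZ
      have hc : c ≠ 0 := by
        rintro rfl
        exact hyZ ⟨τ, by rw [hτ, zero_smul]⟩
      obtain ⟨y', hy', τ', hτ'⟩ := exists_qel hF ψ hψ w ((c ^ q)⁻¹ * ν)
      refine ⟨y', hy', z₀, ?_, hlz₀⟩
      have h1 : y * y' = z₀ * (y' * y) := by
        apply SuG.suEnd_injective ψ
        rw [map_mul, map_mul, map_mul, hτ, hτ', hz₀, uq_mul, uq_mul, uq_mul, zero_add, hrk, add_zero,
          add_comm (c • w)]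
        congr 1
        have h2 : cm hF w (ν • w) = cm hF (c • w) (((c ^ q)⁻¹ * ν) • w) := by
          rw [cm_smul, smul_smul, ← mul_assoc, mul_inv_cancel₀ (pow_ne_zero _ hc), one_mul]
        rw [h2, cm]
        abel
      rw [mul_assoc, mul_assoc, ← mul_assoc y y', h1]
      group
    · -- cardinalities
      have h1 : Nat.card ((DD (q := q) ψ).map (QuotientGroup.mk' (Subgroup.center (SU (2 * m + 1) F q)))) *
          Nat.card (Subgroup.center (SU (2 * m + 1) F q)) = Nat.card (DD (q := q) ψ) := by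
        apply card_map_mul
        intro g hg
        obtain ⟨ζ, hζ2, hζ⟩ := hsc g hg
        have hζ0 : ζ ≠ 0 := by
          rintro rfl
          rw [zero_pow (by omega)] at hζ2
          exact zero_ne_one hζ2
        exact ⟨ζ, ζ, hζ0, hζ0, fun v => by rw [hζ]; rfl⟩
      have h2 := card_DD_le hF ψ hψ
      have h3 : Nat.card (Subgroup.center (SU (2 * m + 1) F q)) = Nat.gcd (2 * m + 1) (q + 1) :=
        Cfsg.Agent.S0279.result hF _ hn3
      rw [h3] at h1
      have h4 := card_QQ_ge hF ψ hψ hw0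
      set M := Nat.card ((DD (q := q) ψ).map (QuotientGroup.mk' (Subgroup.center (SU (2 * m + 1) F q))))
      have h5 : M * 2 ≤ q + 1 := by
        calc M * 2 ≤ M * Nat.gcd (2 * m + 1) (q + 1) := Nat.mul_le_mul_left _ hd
          _ ≤ q + 1 := by rw [h1]; exact h2
      have h6 : M ≤ q := by omega
      calc M ^ 2 * Nat.card (ZZ hF ψ) ≤ q ^ 2 * Nat.card (ZZ hF ψ) :=
            Nat.mul_le_mul_right _ (Nat.pow_le_pow_left h6 2)
        _ ≤ _ := h4

end Cfsg.Agent.H917.CJ.SuO
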