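import Cfsg.Agent.H917.CJ.SuGen

/-!
# The model `K × K × F` of the odd dimensional Hermitian space (S4792)
-/

set_option autoImplicit false
set_option linter.unusedSectionVars false

open Cfsg Module Matrix

namespace Cfsg.Agent.H917.CJ.SuO

open Cfsg.Agent.H430.Conj Cfsg.Agent.H917.CJ Cfsg.Agent.H917.CJ.Su

section form

variable {F K : Type*} [Field F] [Fintype F] [Field K] [Algebra F K] [Finite K] {q n : ℕ}
  (hF : Fintype.card F = q ^ 2)

/-- The Hermitian form on `K × K × F`. -/
noncomputable def BO (K : Type*) [Field K] [Algebra F K] [Finite K] (hF : Fintype.card F = q ^ 2) :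
    (K × K × F) →ₛₗ[sg hF] (K × K × F) →ₗ[F] F :=
  LinearMap.mk₂'ₛₗ (sg hF) (RingHom.id F)
    (fun u v => Algebra.trace F K (v.1 * u.2.1 ^ q) + Algebra.trace F K (u.1 ^ q * (v.2.1 ^ q) ^ q)
      + u.2.2 ^ q * v.2.2)
    (fun u u' v => by
      simp only [Prod.snd_add, Prod.fst_add]
      rw [add_q (F := F) hF, add_q (F := F) hF, add_q (F := F) (K := F) hF, mul_add, add_mul, add_mul, map_add,
        map_add]
      ring)
    (fun c u v => by
      simp only [Prod.smul_snd, Prod.smul_fst, smul_pow, mul_smul_comm, smul_mul_assoc, map_smul, sg_apply,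
        smul_add])
    (fun u v v' => by
      simp only [Prod.snd_add, Prod.fst_add]
      rw [add_q (F := F) hF, add_q (F := F) hF, mul_add, add_mul, mul_add, map_add, map_add]
      ring)
    (fun c u v => by
      simp only [Prod.smul_snd, Prod.smul_fst, smul_pow, mul_smul_comm, smul_mul_assoc, map_smul, pow_qq hF,
        RingHom.id_apply, smul_add])

theorem BO_apply (u v : K × K × F) : BO K hF u v = Algebra.trace F K (v.1 * u.2.1 ^ q)
    + Algebra.trace F K (u.1 ^ q * (v.2.1 ^ q) ^ q) + u.2.2 ^ q * v.2.2 := rfl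

theorem BO_symm : (BO K hF).IsSymm := by
  refine ⟨fun u v => ?_⟩
  rw [sg_apply, BO_apply, BO_apply, add_q (F := F) (K := F) hF, add_q (F := F) (K := F) hF, ← tr_q hF, ← tr_q hF]
  have h1 : Algebra.trace F K ((v.1 * u.2.1 ^ q) ^ q) = Algebra.trace F K (v.1 ^ q * (u.2.1 ^ q) ^ q) := by
    rw [mul_pow]
  have h2 : Algebra.trace F K ((u.1 ^ q * (v.2.1 ^ q) ^ q) ^ q) = Algebra.trace F K (u.1 * v.2.1 ^ q) := by
    rw [← tr_qq hF (u.1 * v.2.1 ^ q)]
    congr 1
    simp only [mul_pow]
  rw [h1, h2, mul_pow, pow_qq hF]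
  ring

theorem BO_sep : (BO K hF).SeparatingLeft := by
  intro u hu
  have hq0 := q_pos hF
  have h1 : ((u.1, u.2.1) : K × K) = 0 := by
    apply B_sep hF
    intro v
    have := hu (v.1, v.2, 0)
    rw [BO_apply, mul_zero, add_zero] at this
    rw [B_apply]
    exact this
  have h2 := hu (0, 0, 1)
  rw [BO_apply] at h2
  simp only [zero_mul, map_zero, zero_pow hq0, mul_zero, zero_add, mul_one, add_zero] at h2
  have h3 : u.2.2 = 0 := (pow_eq_zero_iff hq0).1 h2
  have h4 : u.1 = 0 := congrArg Prod.fst h1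
  have h5 : u.2.1 = 0 := congrArg Prod.snd h1
  exact Prod.ext h4 (Prod.ext h5 h3)

/-- The linear form `b ↦ -Tr (w^q b^{q²})`. -/
noncomputable def ph (w : K) : K →ₗ[F] F where
  toFun b := -Algebra.trace F K (w ^ q * (b ^ q) ^ q)
  map_add' a b := by
    rw [add_q hF, add_q hF, mul_add, map_add]; ring
  map_smul' c b := by
    rw [smul_pow, smul_pow, pow_qq hF, mul_smul_comm, map_smul, RingHom.id_apply, smul_neg]

theorem ph_apply (w b : K) : ph hF w b = -Algebra.trace F K (w ^ q * (b ^ q) ^ q) := rfl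

theorem ph_add (w w' b : K) : ph hF (w + w') b = ph hF w b + ph hF w' b := by
  rw [ph_apply, ph_apply, ph_apply, add_q hF, add_mul, map_add]; ring

theorem ph_smul (c : F) (w b : K) : ph hF (c • w) b = c ^ q * ph hF w b := by
  rw [ph_apply, ph_apply, smul_pow, smul_mul_assoc, map_smul, smul_eq_mul]; ring

theorem ph_zero (b : K) : ph hF 0 b = 0 := by
  rw [ph_apply, zero_pow (q_pos hF), zero_mul, map_zero, neg_zero]

theorem ph_pow (w b : K) : (ph hF w b) ^ q = -Algebra.trace F K (w * b ^ q) := by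
  have h1 : (-Algebra.trace F K (w ^ q * (b ^ q) ^ q)) ^ q = -(Algebra.trace F K (w ^ q * (b ^ q) ^ q)) ^ q := by
    have := sub_q (F := F) (K := F) hF 0 (Algebra.trace F K (w ^ q * (b ^ q) ^ q))
    rwa [zero_sub, zero_pow (q_pos hF), zero_sub] at this
  rw [ph_apply, h1, ← tr_q hF, ← tr_qq hF (w * b ^ q)]
  simp only [mul_pow]

/-- The skewness condition for `[w, τ]`. -/
def Skew (w : K) (τ : K →ₗ[F] K) : Prop :=
  ∀ b b' : K, Algebra.trace F K (τ b' * b ^ q) + Algebra.trace F K ((τ b) ^ q * (b' ^ q) ^ q)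
    + (ph hF w b) ^ q * ph hF w b' = 0

/-- The unipotent endomorphism `[w, τ] : (a, b, s) ↦ (a + τ b + s w, b, s + φ_w b)`. -/
noncomputable def uq (w : K) (τ : K →ₗ[F] K) : Module.End F (K × K × F) where
  toFun v := (v.1 + τ v.2.1 + v.2.2 • w, v.2.1, v.2.2 + ph hF w v.2.1)
  map_add' u v := by
    refine Prod.ext ?_ (Prod.ext ?_ ?_)
    · simp only [Prod.fst_add, Prod.snd_add, map_add, add_smul]; ring
    · simp only [Prod.fst_add, Prod.snd_add]
    · simp only [Prod.fst_add, Prod.snd_add, map_add]; ring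
  map_smul' c v := by
    refine Prod.ext ?_ (Prod.ext ?_ ?_)
    · simp only [Prod.smul_fst, Prod.smul_snd, map_smul, RingHom.id_apply, smul_add, smul_eq_mul, mul_smul]
    · simp only [Prod.smul_fst, Prod.smul_snd, RingHom.id_apply]
    · simp only [Prod.smul_fst, Prod.smul_snd, map_smul, RingHom.id_apply, smul_add]

theorem uq_apply (w : K) (τ : K →ₗ[F] K) (v : K × K × F) :
    uq hF w τ v = (v.1 + τ v.2.1 + v.2.2 • w, v.2.1, v.2.2 + ph hF w v.2.1) := rfl

/-- The map `b ↦ φ_w(b) w'`. -/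
noncomputable def rk (w w' : K) : K →ₗ[F] K := (LinearMap.toSpanSingleton F K w') ∘ₗ (ph hF w)

theorem rk_apply (w w' b : K) : rk hF w w' b = ph hF w b • w' := rfl

theorem uq_mul (w w' : K) (τ τ' : K →ₗ[F] K) :
    uq hF w τ * uq hF w' τ' = uq hF (w + w') (τ + τ' + rk hF w' w) := by
  refine LinearMap.ext fun v => ?_
  rw [Module.End.mul_apply, uq_apply, uq_apply, uq_apply]
  refine Prod.ext ?_ (Prod.ext ?_ ?_)
  · simp only [LinearMap.add_apply, rk_apply, smul_add, add_smul]; ring
  · rfl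
  · simp only [ph_add]; ring

theorem uq_one : uq hF (0 : K) 0 = 1 := by
  refine LinearMap.ext fun v => ?_
  rw [uq_apply, ph_zero]
  simp

theorem BO_uq {w : K} {τ : K →ₗ[F] K} (h : Skew hF w τ) (u v : K × K × F) :
    BO K hF (uq hF w τ u) (uq hF w τ v) = BO K hF u v := by
  rw [BO_apply, BO_apply, uq_apply, uq_apply]
  simp only
  have h1 := h u.2.1 v.2.1
  have h2 : Algebra.trace F K ((v.1 + τ v.2.1 + v.2.2 • w) * u.2.1 ^ q)
      = Algebra.trace F K (v.1 * u.2.1 ^ q) + Algebra.trace F K (τ v.2.1 * u.2.1 ^ q)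
        + v.2.2 * Algebra.trace F K (w * u.2.1 ^ q) := by
    rw [add_mul, add_mul, map_add, map_add, smul_mul_assoc, map_smul, smul_eq_mul]
  have h3 : Algebra.trace F K ((u.1 + τ u.2.1 + u.2.2 • w) ^ q * (v.2.1 ^ q) ^ q)
      = Algebra.trace F K (u.1 ^ q * (v.2.1 ^ q) ^ q) + Algebra.trace F K ((τ u.2.1) ^ q * (v.2.1 ^ q) ^ q)
        + u.2.2 ^ q * Algebra.trace F K (w ^ q * (v.2.1 ^ q) ^ q) := by
    rw [add_q hF, add_q hF, smul_pow, add_mul, add_mul, map_add, map_add, smul_mul_assoc, map_smul, smul_eq_mul]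
  have h4 : (u.2.2 + ph hF w u.2.1) ^ q = u.2.2 ^ q + (ph hF w u.2.1) ^ q := add_q (F := F) (K := F) hF _ _
  have h5 := ph_pow hF w u.2.1
  have h6 := ph_apply hF w v.2.1
  rw [h2, h3, h4]
  linear_combination h1 + v.2.2 * h5 + u.2.2 ^ q * h6

theorem det_uq (w : K) (τ : K →ₗ[F] K) : LinearMap.det (uq hF w τ) = 1 := by
  apply SuG.det_unip hF
  refine LinearMap.ext fun v => ?_
  have h1 : ∀ v : K × K × F, (uq hF w τ - 1) v = (τ v.2.1 + v.2.2 • w, 0, ph hF w v.2.1) := by
    intro v
    rw [LinearMap.sub_apply, uq_apply]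
    refine Prod.ext ?_ (Prod.ext ?_ ?_)
    · simp [add_assoc]
    · simp
    · simp
  rw [pow_succ, pow_succ, pow_one, Module.End.mul_apply, Module.End.mul_apply, h1, h1, h1]
  simp

/-- The diagonal map. -/
noncomputable def dg (a a' : K) (s : F) : Module.End F (K × K × F) :=
  LinearMap.prodMap (LinearMap.mulLeft F a) (LinearMap.prodMap (LinearMap.mulLeft F a') (s • LinearMap.id))

omit [Fintype F] [Finite K] in
theorem dg_apply (a a' : K) (s : F) (v : K × K × F) : dg a a' s v = (a * v.1, a' * v.2.1, s * v.2.2) := rfl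

theorem BO_dg {a a' : K} {s : F} (ha : a * a' ^ q = 1) (hs : s ^ (q + 1) = 1) (u v : K × K × F) :
    BO K hF (dg a a' s u) (dg a a' s v) = BO K hF u v := by
  rw [BO_apply, BO_apply, dg_apply, dg_apply]
  simp only
  have h1 : a * v.1 * (a' * u.2.1) ^ q = v.1 * u.2.1 ^ q := by
    rw [mul_pow]
    linear_combination (v.1 * u.2.1 ^ q) * ha
  have h2 : (a * u.1) ^ q * ((a' * v.2.1) ^ q) ^ q = u.1 ^ q * (v.2.1 ^ q) ^ q := by
    have h3 : a ^ q * (a' ^ q) ^ q = 1 := by rw [← mul_pow, ha, one_pow]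
    rw [mul_pow, mul_pow, mul_pow]
    linear_combination (u.1 ^ q * (v.2.1 ^ q) ^ q) * h3
  have h3 : (s * u.2.2) ^ q * (s * v.2.2) = u.2.2 ^ q * v.2.2 := by
    rw [mul_pow]
    rw [pow_succ] at hs
    linear_combination (u.2.2 ^ q * v.2.2) * hs
  rw [h1, h2, h3]

omit [Fintype F] in
theorem det_dg [Module.Finite F K] (a a' : K) (s : F) :
    LinearMap.det (dg a a' s) = Algebra.norm F a * (Algebra.norm F a' * s) := by
  rw [dg, LinearMap.det_prodMap, LinearMap.det_prodMap, LinearMap.det_smul, LinearMap.det_id, mul_one,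
    Module.finrank_self, pow_one]
  rfl

/-- The skew endomorphism `κ φ_w(b) w` correction: existence of elements of the Heisenberg group. -/
theorem exists_skew (w : K) : ∃ τ : K →ₗ[F] K, Skew hF w τ := by
  -- an element of `F` with `κ + κ^q = -1`
  have hκ : ∃ κ : F, κ + κ ^ q = 1 := by
    have hq2 := two_le_q hF
    -- some `κ₀` with `κ₀ + κ₀^q ≠ 0`
    obtain ⟨κ₀, hκ₀⟩ : ∃ κ₀ : F, κ₀ + κ₀ ^ q ≠ 0 := by
      by_contra hcon
      push Not at hcon
      have h1 := hcon 1
      rw [one_pow] at h1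
      have h3 : ∀ a : F, a ^ q = a := by
        intro a
        have h4 := hcon a
        have h5 : a + a = 0 := by linear_combination a * h1
        linear_combination h4 - h5
      apply sg_ne hF
      ext a
      exact h3 a
    have hfix : (κ₀ + κ₀ ^ q) ^ q = κ₀ + κ₀ ^ q := by
      rw [add_q (F := F) (K := F) hF, pow_qq hF, add_comm]
    refine ⟨κ₀ / (κ₀ + κ₀ ^ q), ?_⟩
    rw [div_pow, hfix, ← add_div, div_self hκ₀]
  obtain ⟨κ, hκ⟩ := hκ
  refine ⟨κ • rk hF w w, ?_⟩
  intro b b'
  simp only [LinearMap.smul_apply, rk_apply]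
  have h1 : Algebra.trace F K ((κ • ph hF w b' • w) * b ^ q) = κ * (ph hF w b' * Algebra.trace F K (w * b ^ q)) := by
    rw [smul_mul_assoc, smul_mul_assoc, map_smul, map_smul, smul_eq_mul, smul_eq_mul]
  have h2 : Algebra.trace F K ((κ • ph hF w b • w) ^ q * (b' ^ q) ^ q)
      = κ ^ q * ((ph hF w b) ^ q * Algebra.trace F K (w ^ q * (b' ^ q) ^ q)) := by
    rw [smul_pow, smul_pow, smul_mul_assoc, smul_mul_assoc, map_smul, map_smul, smul_eq_mul, smul_eq_mul]
  rw [h1, h2]
  have h3 := ph_pow hF w b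
  have h4 := ph_apply hF w b'
  have h5 : Algebra.trace F K (w * b ^ q) = -(ph hF w b) ^ q := by rw [h3, neg_neg]
  have h6 : Algebra.trace F K (w ^ q * (b' ^ q) ^ q) = -ph hF w b' := by rw [h4, neg_neg]
  rw [h5, h6]
  linear_combination (-(ph hF w b' * (ph hF w b) ^ q)) * hκ

/-- The commutator map `c(w, w') : b ↦ φ_{w'}(b) w - φ_w(b) w'`. -/
noncomputable def cm (w w' : K) : K →ₗ[F] K := rk hF w' w - rk hF w w'

theorem cm_apply (w w' b : K) : cm hF w w' b = ph hF w' b • w - ph hF w b • w' := rfl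

theorem skew_cm (w w' : K) : Skew hF 0 (cm hF w w') := by
  intro b b'
  rw [ph_zero, ph_zero, mul_zero, add_zero, cm_apply, cm_apply]
  have h1 : Algebra.trace F K ((ph hF w' b' • w - ph hF w b' • w') * b ^ q)
      = ph hF w' b' * Algebra.trace F K (w * b ^ q) - ph hF w b' * Algebra.trace F K (w' * b ^ q) := by
    rw [sub_mul, map_sub, smul_mul_assoc, smul_mul_assoc, map_smul, map_smul, smul_eq_mul, smul_eq_mul]
  have h2 : Algebra.trace F K ((ph hF w' b • w - ph hF w b • w') ^ q * (b' ^ q) ^ q)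
      = (ph hF w' b) ^ q * Algebra.trace F K (w ^ q * (b' ^ q) ^ q)
        - (ph hF w b) ^ q * Algebra.trace F K (w' ^ q * (b' ^ q) ^ q) := by
    rw [sub_q hF, smul_pow, smul_pow, sub_mul, map_sub, smul_mul_assoc, smul_mul_assoc, map_smul, map_smul,
      smul_eq_mul, smul_eq_mul]
  rw [h1, h2]
  have e1 := ph_pow hF w b
  have e2 := ph_pow hF w' b
  have e3 := ph_apply hF w b'
  have e4 := ph_apply hF w' b'
  rw [e1, e2, e3, e4]
  ring

theorem skew_add {w : K} {τ τ' : K →ₗ[F] K} (h : Skew hF w τ) (h' : Skew hF 0 τ') : Skew hF w (τ + τ') := by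
  intro b b'
  have h1 := h b b'
  have h2 := h' b b'
  rw [ph_zero, ph_zero, mul_zero, add_zero] at h2
  rw [LinearMap.add_apply, LinearMap.add_apply, add_mul, map_add, add_q hF, add_mul, map_add]
  linear_combination h1 + h2

/-- `c(λ w, w') = c(w, λ^q w')`. -/
theorem cm_smul (c : F) (w w' : K) : cm hF (c • w) w' = cm hF w (c ^ q • w') := by
  refine LinearMap.ext fun b => ?_
  rw [cm_apply, cm_apply, ph_smul, ph_smul, pow_qq hF]
  rw [smul_smul, smul_smul, mul_comm (ph hF w' b) c, mul_comm (c ^ q) (ph hF w b)]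

theorem cm_swap (w w' : K) : cm hF w' w = -cm hF w w' := by
  refine LinearMap.ext fun b => ?_
  rw [LinearMap.neg_apply, cm_apply, cm_apply]; ring

theorem cm_add_left (w₁ w₂ w' : K) : cm hF (w₁ + w₂) w' = cm hF w₁ w' + cm hF w₂ w' := by
  refine LinearMap.ext fun b => ?_
  rw [LinearMap.add_apply, cm_apply, cm_apply, cm_apply, ph_add, smul_add, add_smul]; ring

theorem cm_add_right (w w₁ w₂ : K) : cm hF w (w₁ + w₂) = cm hF w w₁ + cm hF w w₂ := by
  refine LinearMap.ext fun b => ?_
  rw [LinearMap.add_apply, cm_apply, cm_apply, cm_apply, ph_add, smul_add, add_smul]; ring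

/-- `τ_u` is a sum of commutators. -/
theorem tw_eq_sum (u : K) : ∃ (ι : Type) (_ : Fintype ι) (w w' : ι → K), tw hF u = ∑ i, cm hF (w i) (w' i) := by
  have hfd : Module.Finite F K := Module.Finite.of_finite
  have hnd := traceForm_nondegenerate F K
  let f := Module.finBasis F K
  let g := (Algebra.traceForm F K).dualBasis hnd f
  -- the two dual expansions
  have hfg : ∀ x : K, ∑ i, Algebra.trace F K (x * g i) • f i = x := by
    intro x
    have h1 : ∀ i, f.repr x i = Algebra.trace F K (x * g i) := by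
      intro i
      have h2 := f.sum_repr x
      have h3 : Algebra.trace F K (x * g i) = Algebra.trace F K ((∑ j, f.repr x j • f j) * g i) := by rw [h2]
      rw [h3, Finset.sum_mul, map_sum]
      have h4 : ∀ j, Algebra.trace F K (f.repr x j • f j * g i) = if j = i then f.repr x j else 0 := by
        intro j
        rw [smul_mul_assoc, map_smul, smul_eq_mul]
        have h5 : Algebra.trace F K (f j * g i) = if j = i then 1 else 0 :=
          LinearMap.BilinForm.apply_dualBasis_right hnd (Algebra.traceForm_isSymm F) f j i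
        rw [h5, mul_ite, mul_one, mul_zero]
      rw [Finset.sum_congr rfl fun j _ => h4 j, Finset.sum_ite_eq', if_pos (Finset.mem_univ i)]
    conv_rhs => rw [← f.sum_repr x]
    exact Finset.sum_congr rfl fun i _ => by rw [h1]
  have hgf : ∀ x : K, ∑ i, Algebra.trace F K (x * f i) • g i = x := by
    intro x
    have h1 : ∀ i, g.repr x i = Algebra.trace F K (x * f i) := by
      intro i
      rw [LinearMap.BilinForm.dualBasis_repr_apply]
      rfl
    conv_rhs => rw [← g.sum_repr x]
    exact Finset.sum_congr rfl fun i _ => by rw [h1]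
  refine ⟨_, inferInstance, fun i => (g i) ^ q, fun i => u * f i, ?_⟩
  refine LinearMap.ext fun b => ?_
  rw [LinearMap.sum_apply, tw_apply]
  simp only [cm_apply, Finset.sum_sub_distrib]
  -- the first sum
  have h1 : ∑ i, ph hF (g i ^ q) b • (u * f i) = -(u * b) := by
    have h2 : ∀ i, ph hF (g i ^ q) b • (u * f i) = -(u * (Algebra.trace F K (b * g i) • f i)) := by
      intro i
      have h3 : ph hF (g i ^ q) b = -Algebra.trace F K (b * g i) := by
        rw [ph_apply, ← tr_qq hF (b * g i)]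
        congr 2
        simp only [mul_pow]
        ring
      rw [h3, neg_smul, mul_smul_comm]
    rw [Finset.sum_congr rfl fun i _ => h2 i, Finset.sum_neg_distrib, ← Finset.mul_sum, hfg]
  have h2 : ∑ i, ph hF (u * f i) b • (g i ^ q) = -(u ^ q * (b ^ q) ^ q) := by
    obtain ⟨y, hy⟩ := exists_root hF (u ^ q * (b ^ q) ^ q)
    have h3 : ∀ i, ph hF (u * f i) b • (g i ^ q) = -((Algebra.trace F K (y * f i) • g i) ^ q) := by
      intro i
      have h4 : ph hF (u * f i) b = -(Algebra.trace F K (y * f i)) ^ q := by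
        rw [ph_apply, ← tr_q hF (y * f i), mul_pow y, hy]
        congr 2
        rw [mul_pow]
        ring
      rw [h4, neg_smul, smul_pow]
    have h5 : ∀ (s : Finset (Fin (Module.finrank F K))) (c : Fin (Module.finrank F K) → K),
        (∑ i ∈ s, c i) ^ q = ∑ i ∈ s, (c i) ^ q := by
      intro s c
      classical
      induction s using Finset.induction_on with
      | empty => rw [Finset.sum_empty, Finset.sum_empty, zero_pow (q_pos hF)]
      | insert a s ha ih => rw [Finset.sum_insert ha, Finset.sum_insert ha, add_q hF, ih]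
    rw [Finset.sum_congr rfl fun i _ => h3 i, Finset.sum_neg_distrib, ← h5, hgf, hy]
  rw [h1, h2]
  ring

end form

end Cfsg.Agent.H917.CJ.SuO
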