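import Cfsg.Agent.H917.CJ.PsuOdd

/-!
# The rows `PSU_{2m+1}(q)`, `m ≥ 2`, `gcd(2m+1, q+1) > 1`, of S4792: main theorem
-/

set_option autoImplicit false
set_option linter.unusedSectionVars false

open Cfsg Module Matrix

namespace Cfsg.Agent.H917.CJ.SuO

open Cfsg.Agent.H430.Conj Cfsg.Agent.H917.CJ Cfsg.Agent.H917.CJ.Su

theorem numO {q m i : ℕ} (hq : 2 ≤ q) (hm : 2 ≤ m) (hi : i < m) : ¬ q ^ (2 * m) - 1 ∣ q ^ (2 * i) + q := by
  intro h
  have h1 := Nat.le_of_dvd (by positivity) h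
  obtain ⟨k, rfl⟩ : ∃ k, m = k + 1 := ⟨m - 1, by omega⟩
  have h2 : q ^ (2 * i) ≤ q ^ (2 * k) := Nat.pow_le_pow_right (by omega) (by omega)
  have h3 : q ^ (2 * (k + 1)) = q ^ 2 * q ^ (2 * k) := by ring
  have h4 : q ^ 2 ≤ q ^ (2 * k) := Nat.pow_le_pow_right (by omega) (by omega)
  have h5 : 4 * q ^ (2 * k) ≤ q ^ 2 * q ^ (2 * k) := Nat.mul_le_mul_right _ (by nlinarith)
  have h6 : q * 2 ≤ q ^ 2 := by rw [sq]; exact Nat.mul_le_mul_left _ hq
  omega

section main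

variable {F K : Type*} [Field F] [Fintype F] [Field K] [Algebra F K] [Finite K] {q n : ℕ}
  (hF : Fintype.card F = q ^ 2) (ψ : (K × K × F) ≃ₗ[F] (Fin n → F))

theorem det_suEnd (g : SU n F q) : LinearMap.det (SuG.suEnd ψ g) = 1 := by
  have h1 : SuG.suEnd ψ g = (ψ.symm : (Fin n → F) →ₗ[F] (K × K × F)) ∘ₗ Matrix.toLin' (mt g) ∘ₗ
    (ψ.symm.symm : (K × K × F) →ₗ[F] (Fin n → F)) := rfl
  rw [h1, LinearMap.det_conj, LinearMap.det_toLin']
  exact (g : Matrix.SpecialLinearGroup (Fin n) F).2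

variable (hψ : ∀ u v, hermForm n F q (ψ u) (ψ v) = BO K hF v u)
include hψ

/-- Relations for diagonal elements of `SU`. -/
theorem dg_rel {g : SU n F q} {a a' : K} {s : F} (hg : ∀ v, SuG.suEnd ψ g v = (a * v.1, a' * v.2.1, s * v.2.2)) :
    a * a' ^ q = 1 ∧ s ^ (q + 1) = 1 ∧ Algebra.norm F a * (Algebra.norm F a' * s) = 1 := by
  have hfd : Module.Finite F K := Module.Finite.of_finite
  have hq0 := q_pos hF
  refine ⟨?_, ?_, ?_⟩
  · have hnd := traceForm_nondegenerate F K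
    have h5 : ∀ l : K, Algebra.traceForm F K (a * a' ^ q - 1) l = 0 := by
      intro l
      have h6 := SuG.B_suEnd hF ψ hψ g (0, 1, 0) (l, 0, 0)
      rw [hg, hg, BO_apply, BO_apply] at h6
      simp only [mul_one, mul_zero, zero_pow hq0, add_zero, one_pow, map_zero] at h6
      rw [Algebra.traceForm_apply, sub_mul, map_sub, one_mul, sub_eq_zero, ← h6]
      congr 1
      ring
    exact sub_eq_zero.1 (hnd.1 _ h5)
  · have h6 := SuG.B_suEnd hF ψ hψ g (0, 0, 1) (0, 0, 1)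
    rw [hg, BO_apply, BO_apply] at h6
    simp only [mul_one, mul_zero, zero_pow hq0, zero_add, one_pow, map_zero] at h6
    rw [pow_succ]
    exact h6
  · have h1 : SuG.suEnd ψ g = dg a a' s := LinearMap.ext fun v => by rw [hg, dg_apply]
    rw [← det_dg, ← h1]
    exact det_suEnd ψ g

/-- Structure of the centraliser (modulo scalars) of the torus generator. -/
theorem key (hn3 : 3 ≤ n) {r : K} {c₀ : F} (hr0 : r ≠ 0) (hc0 : c₀ ≠ 0) (hgen : Algebra.adjoin F {r} = ⊤)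
    (hsgen : Algebra.adjoin F {(r ^ q)⁻¹} = ⊤) (hrF : ∀ t : F, r ≠ algebraMap F K t)
    (hB : ∀ θ : K ≃ₐ[F] K, θ r * r ^ q ≠ 1) {x : SU n F q}
    (hx : ∀ v, SuG.suEnd ψ x v = ((r ^ q)⁻¹ * v.1, r * v.2.1, c₀ * v.2.2)) (c z : SU n F q)
    (hz : z ∈ Subgroup.center (SU n F q)) (hcx : c * x = z * (x * c)) :
    ∃ (a a' : K) (s : F), ∀ v, SuG.suEnd ψ c v = (a * v.1, a' * v.2.1, s * v.2.2) := by
  have hfd : Module.Finite F K := Module.Finite.of_finite
  have hq0 := q_pos hF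
  have hrq : r ^ q ≠ 0 := pow_ne_zero _ hr0
  have hrqF : ∀ t : F, (r ^ q)⁻¹ ≠ algebraMap F K t := by
    intro t ht
    -- take a `q`-th root
    obtain ⟨t', ht'⟩ := exists_root (F := F) (K := F) hF t⁻¹
    apply hrF t'
    have h1 : r ^ q = algebraMap F K t' ^ q := by
      rw [← map_pow, ht', map_inv₀, ← ht, inv_inv]
    have h2 : (r - algebraMap F K t') ^ q = 0 := by rw [sub_q hF, h1, sub_self]
    exact sub_eq_zero.1 ((pow_eq_zero_iff hq0).1 h2)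
  obtain ⟨ζ, hζ2, hζ⟩ := SuG.smul_of_mem_center hF ψ hn3 hz
  have hζ0 : ζ ≠ 0 := by
    rintro rfl
    rw [zero_pow (by omega)] at hζ2
    exact zero_ne_one hζ2
  have e0 : ∀ v, SuG.suEnd ψ c (SuG.suEnd ψ x v) = ζ • SuG.suEnd ψ x (SuG.suEnd ψ c v) := by
    intro v
    have := congrArg (fun g => SuG.suEnd ψ g v) hcx
    simp only [map_mul, Module.End.mul_apply, hζ] at this
    exact this
  have hcinj := SuG.suEnd_apply_injective ψ c
  -- the image of the third basis vector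
  set p := SuG.suEnd ψ c (0, 0, 1) with hp
  have hp0 : p ≠ 0 := by
    intro h
    have := hcinj (h.trans (map_zero (SuG.suEnd ψ c)).symm)
    simp at this
  have e1 := e0 (0, 0, 1)
  rw [hx, hx, ← hp] at e1
  simp only [mul_zero, mul_one] at e1
  have e2 : SuG.suEnd ψ c ((0 : K), (0 : K), c₀) = c₀ • p := by
    rw [hp, ← map_smul]; congr 1; ext <;> simp
  rw [e2] at e1
  have f1 : c₀ • p.1 = ζ • ((r ^ q)⁻¹ * p.1) := congrArg (fun v : K × K × F => v.1) e1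
  have f2 : c₀ • p.2.1 = ζ • (r * p.2.1) := congrArg (fun v : K × K × F => v.2.1) e1
  have f3 : c₀ * p.2.2 = ζ * (c₀ * p.2.2) := congrArg (fun v : K × K × F => v.2.2) e1
  have g1 : p.1 = 0 := by
    by_contra hne
    apply hrqF (ζ⁻¹ * c₀)
    rw [map_mul]
    have h4 : algebraMap F K c₀ = algebraMap F K ζ * (r ^ q)⁻¹ := by
      apply mul_right_cancel₀ hne
      rw [← Algebra.smul_def, f1, Algebra.smul_def, mul_assoc]
    rw [h4, ← mul_assoc, ← map_mul, inv_mul_cancel₀ hζ0, map_one, one_mul]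
  have g2 : p.2.1 = 0 := by
    by_contra hne
    apply hrF (ζ⁻¹ * c₀)
    rw [map_mul]
    have h4 : algebraMap F K c₀ = algebraMap F K ζ * r := by
      apply mul_right_cancel₀ hne
      rw [← Algebra.smul_def, f2, Algebra.smul_def, mul_assoc]
    rw [h4, ← mul_assoc, ← map_mul, inv_mul_cancel₀ hζ0, map_one, one_mul]
  have g3 : p.2.2 ≠ 0 := fun h => hp0 (Prod.ext g1 (Prod.ext g2 h))
  have hζ1 : ζ = 1 := by
    have h6 : c₀ * p.2.2 ≠ 0 := mul_ne_zero hc0 g3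
    have h7 : 1 * (c₀ * p.2.2) = ζ * (c₀ * p.2.2) := by rw [one_mul]; exact f3
    exact (mul_right_cancel₀ h6 h7).symm
  subst hζ1
  simp only [one_smul] at e0
  -- blocks
  let in1 : K →ₗ[F] (K × K × F) := LinearMap.inl F K (K × F)
  let in2 : K →ₗ[F] (K × K × F) := LinearMap.inr F K (K × F) ∘ₗ LinearMap.inl F K F
  let pr1 : (K × K × F) →ₗ[F] K := LinearMap.fst F K (K × F)
  let pr2 : (K × K × F) →ₗ[F] K := LinearMap.fst F K F ∘ₗ LinearMap.snd F K (K × F)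
  let pr3 : (K × K × F) →ₗ[F] F := LinearMap.snd F K F ∘ₗ LinearMap.snd F K (K × F)
  let T11 : K →ₗ[F] K := pr1 ∘ₗ SuG.suEnd ψ c ∘ₗ in1
  let T21 : K →ₗ[F] K := pr2 ∘ₗ SuG.suEnd ψ c ∘ₗ in1
  let T31 : K →ₗ[F] F := pr3 ∘ₗ SuG.suEnd ψ c ∘ₗ in1
  let T12 : K →ₗ[F] K := pr1 ∘ₗ SuG.suEnd ψ c ∘ₗ in2
  let T22 : K →ₗ[F] K := pr2 ∘ₗ SuG.suEnd ψ c ∘ₗ in2
  let T32 : K →ₗ[F] F := pr3 ∘ₗ SuG.suEnd ψ c ∘ₗ in2
  have hT1 : ∀ k : K, SuG.suEnd ψ c (k, 0, 0) = (T11 k, T21 k, T31 k) := fun k => rfl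
  have hT2 : ∀ k : K, SuG.suEnd ψ c (0, k, 0) = (T12 k, T22 k, T32 k) := fun k => rfl
  have a1 : ∀ k, T11 ((r ^ q)⁻¹ * k) = (r ^ q)⁻¹ * T11 k ∧ T21 ((r ^ q)⁻¹ * k) = r * T21 k ∧
      T31 ((r ^ q)⁻¹ * k) = c₀ * T31 k := by
    intro k
    have := e0 (k, 0, 0)
    rw [hx, hx] at this
    simp only [mul_zero] at this
    rw [hT1, hT1] at this
    exact ⟨congrArg (fun v : K × K × F => v.1) this, congrArg (fun v : K × K × F => v.2.1) this,
      congrArg (fun v : K × K × F => v.2.2) this⟩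
  have a2 : ∀ k, T12 (r * k) = (r ^ q)⁻¹ * T12 k ∧ T22 (r * k) = r * T22 k ∧ T32 (r * k) = c₀ * T32 k := by
    intro k
    have := e0 (0, k, 0)
    rw [hx, hx] at this
    simp only [mul_zero] at this
    rw [hT2, hT2] at this
    exact ⟨congrArg (fun v : K × K × F => v.1) this, congrArg (fun v : K × K × F => v.2.1) this,
      congrArg (fun v : K × K × F => v.2.2) this⟩
  have hvan : ∀ (t : K) (f : K →ₗ[F] F), (∀ y : F, t ≠ algebraMap F K y) → (∀ k, f (t * k) = c₀ * f k) → ∀ k, f k = 0 := by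
    intro t f ht hf k
    have hne : t - algebraMap F K c₀ ≠ 0 := sub_ne_zero.2 (ht c₀)
    have h9 : ∀ k, f ((t - algebraMap F K c₀) * k) = 0 := by
      intro k
      rw [sub_mul, map_sub, hf, ← Algebra.smul_def, map_smul, smul_eq_mul, sub_self]
    have := h9 ((t - algebraMap F K c₀)⁻¹ * k)
    rwa [← mul_assoc, mul_inv_cancel₀ hne, one_mul] at this
  have hT31 : ∀ k, T31 k = 0 := hvan _ T31 hrqF fun k => (a1 k).2.2
  have hT32 : ∀ k, T32 k = 0 := hvan _ T32 hrF fun k => (a2 k).2.2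
  have hT12 : T12 = 0 := by
    by_contra hne
    obtain ⟨θ, hθ, _⟩ := conj_gen hgen T12 hne fun k => (a2 k).1
    apply hB θ
    rw [hθ, inv_mul_cancel₀ hrq]
  have hT21 : T21 = 0 := by
    by_contra hne
    obtain ⟨θ, hθ, _⟩ := conj_gen hsgen T21 hne fun k => (a1 k).2.1
    apply hB θ.symm
    have h1 : (r ^ q)⁻¹ = θ.symm r := by
      have h2 := congrArg θ.symm hθ
      rwa [AlgEquiv.symm_apply_apply] at h2
    rw [← h1, inv_mul_cancel₀ hrq]
  have b1 : ∀ k, T11 k = T11 1 * k := comm_gen hsgen T11 fun k => (a1 k).1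
  have b2 : ∀ k, T22 k = T22 1 * k := comm_gen hgen T22 fun k => (a2 k).2.1
  refine ⟨T11 1, T22 1, p.2.2, fun v => ?_⟩
  have hv : v = (v.1, 0, 0) + (0, v.2.1, 0) + v.2.2 • ((0 : K), (0 : K), (1 : F)) := by
    ext <;> simp
  conv_lhs => rw [hv]
  rw [map_add, map_add, map_smul, hT1, hT2, ← hp, hT21, hT12, hT31, hT32, b1, b2]
  refine Prod.ext ?_ (Prod.ext ?_ ?_)
  · simp [g1]
  · simp [g2]
  · simp [mul_comm]

end main

end Cfsg.Agent.H917.CJ.SuO
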