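import Cfsg.Agent.H917.CJ.Psu

/-!
# `SU_n(q)` acting on a Hermitian space with an arbitrary model (S4792)
-/

set_option autoImplicit false

open Cfsg Module Matrix

namespace Cfsg.Agent.H917.CJ.SuG

open Cfsg.Agent.H430.Conj Cfsg.Agent.H917.CJ Cfsg.Agent.H917.CJ.Su

/-- The isometry with the standard space. -/
theorem exists_std {F : Type*} [Field F] [Fintype F] {V : Type*} [AddCommGroup V] [Module F V]
    [FiniteDimensional F V] {q n : ℕ} (hF : Fintype.card F = q ^ 2) (BV : V →ₛₗ[sg hF] V →ₗ[F] F)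
    (hsym : BV.IsSymm) (hsep : BV.SeparatingLeft) (hd : Module.finrank F V = n) :
    ∃ ψ : V ≃ₗ[F] (Fin n → F), ∀ u v, hermForm n F q (ψ u) (ψ v) = BV v u := by
  obtain ⟨b, hb⟩ := Cfsg.Agent.ClassicalGeometry.HermOrthonormal.exists_orthonormal_basis (sg_ne hF) (sg_sg hF)
    BV hsym hsep
  let b' := b.reindex (finCongr hd)
  have hb' : ∀ i j, BV (b' i) (b' j) = if i = j then 1 else 0 := by
    intro i j
    have h1 := hb ((finCongr hd).symm i) ((finCongr hd).symm j)
    simp only [b', Module.Basis.reindex_apply]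
    rw [h1]
    simp only [EmbeddingLike.apply_eq_iff_eq]
  refine ⟨b'.equivFun, fun u v => ?_⟩
  conv_rhs => rw [← b'.sum_equivFun u, ← b'.sum_equivFun v]
  rw [LinearMap.map_sum₂]
  unfold hermForm
  refine Finset.sum_congr rfl fun i _ => ?_
  rw [LinearMap.map_smulₛₗ₂, map_sum]
  have h1 : ∀ j, BV (b' i) (b'.equivFun u j • b' j) = if i = j then b'.equivFun u j else 0 := by
    intro j
    rw [map_smul, hb', smul_eq_mul, mul_ite, mul_one, mul_zero]
  rw [Finset.sum_congr rfl fun j _ => h1 j, Finset.sum_ite_eq, if_pos (Finset.mem_univ i), smul_eq_mul, sg_apply,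
    mul_comm]

variable {F : Type*} [Field F] [Fintype F] {V : Type*} [AddCommGroup V] [Module F V] {q n : ℕ}
  (hF : Fintype.card F = q ^ 2) (ψ : V ≃ₗ[F] (Fin n → F))

/-- `SU` acting on `V`. -/
noncomputable def suEnd : SU n F q →* Module.End F V where
  toFun g := (ψ.symm : (Fin n → F) →ₗ[F] V) ∘ₗ Matrix.toLin' (Su.mt g) ∘ₗ (ψ : V →ₗ[F] (Fin n → F))
  map_one' := by
    refine LinearMap.ext fun v => ?_
    simp [Su.mt]
  map_mul' g h := by
    refine LinearMap.ext fun v => ?_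
    simp [Su.mt]

omit [Fintype F] in
theorem suEnd_apply (g : SU n F q) (v : V) : suEnd ψ g v = ψ.symm (Su.mt g *ᵥ ψ v) := rfl

omit [Fintype F] in
theorem psi_suEnd (g : SU n F q) (v : V) : ψ (suEnd ψ g v) = Su.mt g *ᵥ ψ v := by
  rw [suEnd_apply, ψ.apply_symm_apply]

omit [Fintype F] in
theorem suEnd_injective : Function.Injective (suEnd (q := q) ψ) := by
  intro g h hgh
  apply Subtype.ext
  apply Subtype.ext
  apply Matrix.toLin'.injective
  refine LinearMap.ext fun w => ?_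
  have h1 := congrArg (fun T : Module.End F V => ψ (T (ψ.symm w))) hgh
  simp only [psi_suEnd, ψ.apply_symm_apply] at h1
  exact h1

omit [Fintype F] in
theorem suEnd_apply_injective (g : SU n F q) : Function.Injective (suEnd ψ g) := by
  intro v w h
  have h1 : ∀ v, suEnd ψ g⁻¹ (suEnd ψ g v) = v := by
    intro v
    rw [← Module.End.mul_apply, ← map_mul, inv_mul_cancel, map_one]
    rfl
  rw [← h1 v, h, h1]

omit [Fintype F] in
theorem suEnd_inv (g : SU n F q) (v : V) : suEnd ψ g⁻¹ (suEnd ψ g v) = v := by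
  rw [← Module.End.mul_apply, ← map_mul, inv_mul_cancel, map_one]
  rfl

omit [Fintype F] in
theorem mem_center_of_smul {g : SU n F q} {ζ : F} (h : ∀ v, suEnd ψ g v = ζ • v) :
    g ∈ Subgroup.center (SU n F q) := by
  rw [Subgroup.mem_center_iff]
  intro k
  apply suEnd_injective ψ
  rw [map_mul, map_mul]
  refine LinearMap.ext fun v => ?_
  simp only [Module.End.mul_apply, h, map_smul]

include hF in
theorem smul_of_mem_center (hn : 3 ≤ n) {g : SU n F q} (h : g ∈ Subgroup.center (SU n F q)) :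
    ∃ ζ : F, ζ ^ (q + 1) = 1 ∧ ∀ v, suEnd ψ g v = ζ • v := by
  obtain ⟨c, h1, h2, rfl⟩ := (Cfsg.Agent.LieClassical.SUBasic.mem_center_SU_iff hF hn g).1 h
  refine ⟨c, h2, fun v => ?_⟩
  apply ψ.injective
  rw [psi_suEnd, map_smul]
  change Matrix.diagonal (fun _ => c) *ᵥ ψ v = c • ψ v
  funext i
  rw [Matrix.mulVec_diagonal]
  rfl

variable {BV : V →ₛₗ[sg hF] V →ₗ[F] F} (hψ : ∀ u v, hermForm n F q (ψ u) (ψ v) = BV v u)
include hψ

theorem B_suEnd (g : SU n F q) (u v : V) : BV (suEnd ψ g u) (suEnd ψ g v) = BV u v := by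
  rw [← hψ, ← hψ, psi_suEnd, psi_suEnd]
  exact g.2 _ _

omit hψ [Fintype F] in
theorem conj_mulVec (X : Module.End F V) (u : Fin n → F) :
    LinearMap.toMatrix' ((ψ : V →ₗ[F] (Fin n → F)) ∘ₗ X ∘ₗ (ψ.symm : (Fin n → F) →ₗ[F] V)) *ᵥ u
      = ψ (X (ψ.symm u)) := by
  rw [LinearMap.toMatrix'_mulVec]
  rfl

omit hψ [Fintype F] in
theorem conj_det (X : Module.End F V) :
    Matrix.det (LinearMap.toMatrix' ((ψ : V →ₗ[F] (Fin n → F)) ∘ₗ X ∘ₗ
      (ψ.symm : (Fin n → F) →ₗ[F] V))) = LinearMap.det X := by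
  rw [LinearMap.det_toMatrix', LinearMap.det_conj]

/-- Elements of `SU` from isometries of determinant one. -/
theorem exists_su (X : Module.End F V) (h : ∀ u v, BV (X u) (X v) = BV u v)
    (hd : LinearMap.det X = 1) : ∃ g : SU n F q, suEnd ψ g = X := by
  let M := LinearMap.toMatrix' ((ψ : V →ₗ[F] (Fin n → F)) ∘ₗ X ∘ₗ (ψ.symm : (Fin n → F) →ₗ[F] V))
  have hM : ∀ u, M *ᵥ u = ψ (X (ψ.symm u)) := conj_mulVec ψ X
  have hdM : M.det = 1 := (conj_det ψ X).trans hd
  let g₀ : Matrix.SpecialLinearGroup (Fin n) F := ⟨M, hdM⟩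
  have hg₀ : g₀ ∈ SU n F q := by
    rw [Cfsg.Agent.LieClassical.SUBasic.mem_SU_iff]
    intro u v
    have h1 := hM u
    have h2 := hM v
    have e1 : (g₀ : Matrix (Fin n) (Fin n) F) *ᵥ u = ψ (X (ψ.symm u)) := h1
    have e2 : (g₀ : Matrix (Fin n) (Fin n) F) *ᵥ v = ψ (X (ψ.symm v)) := h2
    rw [e1, e2, hψ, h, ← hψ, ψ.apply_symm_apply, ψ.apply_symm_apply]
  refine ⟨⟨g₀, hg₀⟩, ?_⟩
  refine LinearMap.ext fun v => ?_
  rw [suEnd_apply]
  have h3 : Su.mt (⟨g₀, hg₀⟩ : SU n F q) *ᵥ ψ v = ψ (X (ψ.symm (ψ v))) := hM (ψ v)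
  rw [h3, ψ.symm_apply_apply, ψ.symm_apply_apply]

omit hψ in
include hF in
/-- Unipotent endomorphisms over a finite field have determinant one. -/
theorem det_unip (X : Module.End F V) (h : (X - 1) ^ 3 = 0) : LinearMap.det X = 1 := by
  obtain ⟨p, e, hp, hc, hq⟩ := exists_char hF
  have := Fact.mk hp
  rcases subsingleton_or_nontrivial V with hV | hV
  · have : X = 1 := by
      refine LinearMap.ext fun v => Subsingleton.elim _ _
    rw [this, map_one]
  have hcE : CharP (Module.End F V) p := charP_of_injective_algebraMap (algebraMap F (Module.End F V)).injective p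
  have h1 : (X - 1) ^ p ^ 2 = X ^ p ^ 2 - 1 ^ p ^ 2 := sub_pow_char_pow_of_commute p 2 (Commute.one_right X)
  have h2 : 3 ≤ p ^ 2 := by
    have := Nat.pow_le_pow_left hp.two_le 2
    omega
  have h3 : X ^ p ^ 2 = 1 := by
    rw [one_pow] at h1
    rw [← sub_eq_zero, ← h1]
    obtain ⟨k, hk⟩ := Nat.exists_eq_add_of_le h2
    rw [hk, pow_add, h, zero_mul]
  have h4 : LinearMap.det X ^ p ^ 2 = 1 := by rw [← map_pow, h3, map_one]
  have h5 : iterateFrobenius F p 2 (LinearMap.det X) = iterateFrobenius F p 2 1 := by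
    rw [iterateFrobenius_def, iterateFrobenius_def, h4, one_pow]
  exact (iterateFrobenius F p 2).injective h5

end Cfsg.Agent.H917.CJ.SuG
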